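import Mathlib
import Cfsg.Agent.Eo8.A6a
import Cfsg.Agent.Eo8.Loc
import Cfsg.Agent.Eo8.A6f
import Cfsg.Agent.S1232

/-!
# The structure of `Q.A₆`
-/

set_option autoImplicit false
set_option linter.unusedSectionVars false

namespace Cfsg.Agent.Eo8

open Subgroup Cfsg PLocal.Amb
open Cfsg.Agent.PLocal.CP (IsCharP)
open scoped MatrixGroups IsMulCommutative

universe u

variable {G : Type*} [Group G] [Finite G]

variable {M Q V : Subgroup G}

theorem a6b_five {A : Type*} [CommGroup A] (sq : ∀ a : A, a * a = 1) {z w : Fin 5 → A}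
    (z1 : ∀ i, z i ≠ 1) (inj : Function.Injective z) (hz : ∏ i, z i = 1) (hw : ∏ i, w i = 1)
    (h : ∀ i, w i = 1 ∨ w i = z i) : (∀ i, w i = 1) ∨ ∀ i, w i = z i := by
  classical
  have key : ∀ S : Finset (Fin 5), ∏ i ∈ S, z i = 1 → S.card ≠ 1 ∧ S.card ≠ 2 := fun S hS =>
    ⟨fun e => by
      obtain ⟨i, rfl⟩ := Finset.card_eq_one.1 e
      exact z1 i (by simpa using hS), fun e => by
      obtain ⟨i, j, ij, rfl⟩ := Finset.card_eq_two.1 e
      rw [Finset.prod_pair ij, ← sq (z i), mul_right_inj] at hS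
      exact ij (inj hS).symm⟩
  let S := Finset.univ.filter fun i => w i = z i
  have h1 : ∏ i ∈ S, z i = 1 := by
    rw [← hw, Finset.prod_filter]
    refine Finset.prod_congr rfl fun i _ => ?_
    split_ifs with e
    exacts [e.symm, ((h i).resolve_right e).symm]
  have h2 := Finset.prod_mul_prod_compl S z
  rw [h1, one_mul, hz] at h2
  have h3 := key _ h1
  have h4 := key _ h2
  rw [Finset.card_compl, Fintype.card_fin] at h4
  have h5 : S.card ≤ 5 := S.card_le_univ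
  obtain e | e : S.card = 0 ∨ S.card = 5 := by omega
  · exact .inl fun i => (h i).resolve_right fun r =>
      Finset.notMem_empty i (Finset.card_eq_zero.1 e ▸ (show i ∈ S by simpa [S] using r))
  · exact .inr fun i => by simpa [S] using (Finset.eq_univ_of_card S e).ge (Finset.mem_univ i)

theorem a6b_zp {t a : G} (t2 : t * t = 1) (h : a ∈ zpowers t) : a = 1 ∨ a = t := by
  obtain ⟨i, rfl⟩ := h
  obtain ⟨k, rfl | rfl⟩ := Int.even_or_odd' i <;> simp [zpow_add, zpow_mul, sq, t2]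

theorem P8.prod5 (h : P8 G) (hQ : IsPGroup 2 Q) {x u : G} (hx : orderOf x = 5) (xQ : x ∈ 𝐍[Q])
    (hu : u ∈ Q) : x ^ 0 * u * (x ^ 0)⁻¹ * (x ^ 1 * u * (x ^ 1)⁻¹ * (x ^ 2 * u * (x ^ 2)⁻¹ *
      (x ^ 3 * u * (x ^ 3)⁻¹ * (x ^ 4 * u * (x ^ 4)⁻¹)))) = 1 := by
  have x5 : x ^ 5 = 1 := hx ▸ pow_orderOf_eq_one x
  have e : QuotientGroup.mk' (Q.subgroupOf 𝐍[Q]) ⟨u * x, mul_mem (le_normalizer hu) xQ⟩ =
      QuotientGroup.mk' (Q.subgroupOf 𝐍[Q]) ⟨x, xQ⟩ := QuotientGroup.eq.2 (by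
    simpa [mem_subgroupOf, mul_assoc] using inv_conj_mem_of_mem_normalizer xQ (inv_mem hu))
  have o : orderOf (QuotientGroup.mk' (Q.subgroupOf 𝐍[Q]) ⟨x, xQ⟩) = 5 := ord_prime 5 (by
    rw [← map_pow, show (⟨x, xQ⟩ : 𝐍[Q]) ^ 5 = 1 from Subtype.ext x5, map_one]) fun r =>
      ne_one_of_57 (.inl hx) (h.fpf (.inl hx) hQ
        ((QuotientGroup.eq_one_iff (N := Q.subgroupOf 𝐍[Q]) _).1 r) rfl)
  have := (h.sub _).lift57 _ (.inl rfl) (e ▸ o)
  rw [← orderOf_coe] at this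
  rw [← pow_orderOf_eq_one (u * x), this, ← mul_one (_ * _), ← x5]
  simp [pow_succ, mul_assoc]

/-- `u i = x ^ i * u * x⁻¹ ^ i`, `z i` likewise.  The `u i` are central modulo `V`, so
`c = u 0 * … * u 4` is fixed by `x` modulo `V`; as `v ↦ cm v x` is bijective on `V` we get `c ∈ V`.
For `q ∈ Q`, `cm (u i) q = z i ^ ε i` and `1 = cm c q = ∏ z i ^ ε i`.  `∏ z i = 1`, `z i ≠ 1`,
`z i ≠ z j`; so all `ε i` are equal (a proper nonempty subset of `ZMod 5` or its complement has one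
or two elements).  Hence `K = Q ⊓ 𝐜[u] = Q ⊓ 𝐜[u 1]` is normalized by `x`, has index at most 2 in
`Q`, so `cm q x ∈ K` for all `q` and `Q ≤ K` (`le_of_fpf`). -/
theorem P8.rk5 (h : P8 G) (hQ : IsPGroup 2 Q) (VQ : V ≤ Q) (cV : Q ≤ 𝐂[V])
    (sq : ∀ v ∈ V, v * v = 1) {x z u : G} (hx : orderOf x = 5) (xQ : x ∈ 𝐍[Q]) (xV : x ∈ 𝐍[V])
    (hz : z ∈ V) (hu : u ∈ Q) (e : ∀ q ∈ Q, cm u q ∈ zpowers z) : u ∈ 𝐂[Q] := by
  by_cases z1 : z = 1
  · exact fun q hq => (cm_eq_one.1 (by simpa [z1] using e q hq)).symm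
  have x5 : x ^ 5 = 1 := hx ▸ pow_orderOf_eq_one x
  have cen : ∀ {q v}, q ∈ Q → v ∈ V → v * q = q * v := fun hq hv => cV hq _ hv
  have : IsMulCommutative V := ⟨⟨fun a b => Subtype.ext (cen (VQ b.2) a.2)⟩⟩
  have mV : ∀ {q}, q ∈ Q → cm u q ∈ V := fun hq => zpowers_le.2 hz (e _ hq)
  have key : ∀ q ∈ Q, cm u (x * q * x⁻¹) = cm u q := fun q hq => by
    have c : ∀ i : ℕ, cm (x ^ i * u * (x ^ i)⁻¹) q = x ^ i * cm u ((x ^ i)⁻¹ * q * x ^ i) * (x ^ i)⁻¹ :=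
      fun i => by rw [← cm_conj]; simp [mul_assoc]
    have m : ∀ i : ℕ, (x ^ i)⁻¹ * q * x ^ i ∈ Q := fun i =>
      inv_conj_mem_of_mem_normalizer (pow_mem xQ i) hq
    let Z : Fin 5 → V := fun i => ⟨_, conj_mem_of_mem_normalizer (pow_mem xV i.1) hz⟩
    let W : Fin 5 → V := fun i => ⟨_, c i ▸ conj_mem_of_mem_normalizer (pow_mem xV i.1) (mV (m i))⟩
    have mul : ∀ {a b}, cm a q ∈ V → b ∈ Q → cm (a * b) q = cm a q * cm b q := fun {a b} ha hb => by
      rw [show cm (a * b) q = b⁻¹ * cm a q * (q * b * q⁻¹) by simp [cm, mul_assoc],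
        ← cen (inv_mem hb) ha, mul_assoc]
      rfl
    have uQ : ∀ i : ℕ, x ^ i * u * (x ^ i)⁻¹ ∈ Q := fun i =>
      conj_mem_of_mem_normalizer (pow_mem xQ i) hu
    have := a6b_five (A := V) (fun a => Subtype.ext (sq _ a.2)) (z := Z) (w := W)
      (fun i r => z1 (conj_eq_one_iff.1 (congrArg Subtype.val r))) (fun i j r => ?_) ?_ ?_ fun i => ?_
    · have e4 : (x ^ 4)⁻¹ = x := inv_eq_of_mul_eq_one_right (by rw [← pow_succ, x5])
      have e5 : (x ^ 4)⁻¹ * q * x ^ 4 = x * q * x⁻¹ := by rw [e4, ← inv_eq_iff_eq_inv.1 e4]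
      rcases this with r | r <;> have r0 := congrArg Subtype.val (r 0) <;>
        have r4 := (c 4).symm.trans (congrArg Subtype.val (r 4)) <;> rw [e5] at r4
      · simp only [W, Fin.val_zero, pow_zero, inv_one, one_mul, mul_one, coe_one] at r0
        rw [r0]; simpa using r4
      · simp only [W, Z, Fin.val_zero, pow_zero, inv_one, one_mul, mul_one] at r0
        rw [r0]; exact mul_left_cancel (mul_right_cancel r4)
    · by_contra ij
      have r : x ^ i.1 * z * (x ^ i.1)⁻¹ = x ^ j.1 * z * (x ^ j.1)⁻¹ := congrArg Subtype.val r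
      refine z1 (h.fpf (x := (x ^ j.1)⁻¹ * x ^ i.1) (.inl (ord_prime 5 ?_ fun k => ij (Fin.ext
        (pow_injOn_Iio_orderOf (by rw [hx]; exact i.2) (by rw [hx]; exact j.2) (inv_mul_eq_one.1 k).symm)))) hQ (VQ hz) ?_)
      · rw [(Commute.pow_pow_self x j i).inv_left.mul_pow, inv_pow, ← pow_mul, ← pow_mul, mul_comm j.1,
          mul_comm i.1, pow_mul, pow_mul, x5]
        simp
      · calc _ = (x ^ j.1)⁻¹ * (x ^ j.1 * z * (x ^ j.1)⁻¹) * x ^ i.1 := by group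
          _ = _ := by rw [← r]; group
    · refine Subtype.ext (Eq.trans ?_ (h.prod5 hQ hx xQ (VQ hz)))
      simp only [Fin.prod_univ_five, coe_mul, mul_assoc _ _ (Z _).1]
      rfl
    · have := congrArg (cm · q) (h.prod5 hQ hx xQ hu)
      have wV : ∀ i : ℕ, cm (x ^ i * u * (x ^ i)⁻¹) q ∈ V := fun i =>
        c i ▸ conj_mem_of_mem_normalizer (pow_mem xV i) (mV (m i))
      rw [mul (wV _) (mul_mem (uQ _) (mul_mem (uQ _) (mul_mem (uQ _) (uQ _)))),
        mul (wV _) (mul_mem (uQ _) (mul_mem (uQ _) (uQ _))), mul (wV _) (mul_mem (uQ _) (uQ _)),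
        mul (wV _) (uQ _), cm_eq_one.2 (Commute.one_left q)] at this
      refine Subtype.ext (Eq.trans ?_ this)
      simp only [Fin.prod_univ_five, coe_mul, mul_assoc _ _ (W _).1]
      rfl
    · refine (a6b_zp (sq z hz) (e _ (m i))).imp (fun r => Subtype.ext ?_) fun r => Subtype.ext ?_
      · exact (c i).trans (by simp [r])
      · exact (c i).trans (by rw [r])
  have := le_of_fpf (V := 𝐜[u]) xQ (fun q hq => h.fpf (.inl hx) hQ hq) fun q hq => by
    have := key q hq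
    rw [cm, cm, mul_right_inj] at this
    rw [mem_c1, cm]
    calc _ = q⁻¹ * (x * q * x⁻¹ * u * (x * q * x⁻¹)⁻¹) * (x * q * x⁻¹) := by group
      _ = _ := by rw [this]; group
  exact fun q hq => mem_c1.1 (this hq)

theorem a6b_sup {t a : G} (nt : t ∈ 𝐍[V]) (t2 : t * t = 1) :
    a ∈ V ⊔ zpowers t ↔ a ∈ V ∨ a * t ∈ V := by
  refine ⟨fun h => ?_, fun h => h.elim mem_sup_left fun h => (mul_mem_cancel_right
    (mem_sup_right (mem_zpowers t))).1 (mem_sup_left h)⟩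
  obtain ⟨v, hv, b, hb, rfl⟩ := (mem_sup_of_le_normalizer_left (zpowers_le.2 nt)).1 h
  rcases a6b_zp t2 hb with rfl | rfl
  · exact .inl (by simpa)
  · exact .inr (by rwa [mul_assoc, t2, mul_one])

theorem a6b_card {A : Subgroup G} {w : G} (hw : w ∈ A) (w1 : w ∉ V) (h : ∀ b ∈ A, b * w ∈ V ∨ b ∈ V) :
    Nat.card A = 2 * Nat.card ↥(V ⊓ A) := by
  rw [← (V.subgroupOf A).index_mul_card, (index_eq_two_iff_exists_notMem_and (H := V.subgroupOf A)).2
    ⟨⟨w, hw⟩, w1, fun b => h b b.2⟩, ← inf_subgroupOf_right,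
    Nat.card_congr (subgroupOfEquivOfLe inf_le_right).toEquiv]

/-- Harada.  `t` is an involution, `U = V ⊓ 𝐜[t]` has order 4, `E = U ⊔ ⟨t⟩` is elementary abelian of
order 8, `D = T ⊓ 𝐂[E]`.  `D ⊓ M ≤ S ⊓ 𝐂[U] ⊓ 𝐜[t] ≤ E` (`T ⊓ M = S`).  `V` normalizes `E`
(`cm v t ∈ U`) and `D`.  If `D ≠ E`, then `V ⊔ E < V ⊔ D`, so some `d ∈ D`, `d ∉ V ⊔ E` normalizes
`V ⊔ E = V ⊔ ⟨t⟩` (`lt_inf_normalizer`), hence `V`: if `cj(d, V) ≠ V`, then `cj(d, V) ⊓ V` has order 8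
and is centralized by an element `v * t`, so lies in `U`.  So `d ∈ M`, absurd.  `S1232` in `↥T`. -/
theorem eg16 {S T : Subgroup G} (sq : ∀ v ∈ V, v * v = 1) (h16 : Nat.card V = 16) (nV : 𝐍[V] = M)
    (hS : IsSyl 2 S M) (hT : IsPGroup 2 T) (ST : S ≤ T) (VS : V ≤ S) {t : G} (ht : t ∈ S)
    (t2 : t * t = 1) (t1 : t ∉ V) (h4 : Nat.card ↥(V ⊓ 𝐜[t]) = 4)
    (hc : S ⊓ 𝐂[V ⊓ 𝐜[t]] ≤ V ⊔ zpowers t) : SectionalPRankLE 2 4 T := by
  have cV : ∀ {a b}, a ∈ V → b ∈ V → a * b = b * a := fun ha hb =>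
    comm_of_sq (sq _ ha) (sq _ hb) (sq _ (mul_mem ha hb))
  have tV : t ∈ 𝐍[V] := nV ▸ hS.le ht
  have ti : t⁻¹ = t := inv_eq_of_mul_eq_one_left t2
  set U := V ⊓ 𝐜[t]
  have tU : t ∈ 𝐍[U] := centralizer_le_normalizer' _ fun u hu => mem_c1.1 hu.2
  have mE := fun a => a6b_sup (a := a) tU t2
  have mY := fun a => a6b_sup (a := a) tV t2
  set E := U ⊔ zpowers t
  set Y := V ⊔ zpowers t
  have tE : t ∈ E := mem_sup_right (mem_zpowers t)
  have YS : Y ≤ S := sup_le VS (zpowers_le.2 ht)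
  have EY : E ≤ Y := sup_le_sup_right inf_le_left _
  have DE : ∀ d ∈ T, d ∈ 𝐂[E] → d ∈ M → d ∈ E := fun d h1 h2 h3 => by
    have c := mem_c1.2 (h2 t tE).symm
    exact (mE d).2 (((mY d).1 (hc ⟨hS.max _ hT.to_inf_left (le_inf ST hS.le) inf_le_right ⟨h1, h3⟩,
      centralizer_anti le_sup_left h2⟩)).imp (⟨·, c⟩) (⟨·, mul_mem c (mem_c1.2 rfl)⟩))
  have VE : V ≤ 𝐍[E] := fun v hv => mem_normalizer_of_cj_le (by
    rw [cj_sup, cj_of_mem_normalizer (centralizer_le_normalizer' U fun u hu => cV hu.1 hv),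
      MonoidHom.map_zpowers]
    have k := conj_mem_of_mem_normalizer tV hv
    have vi : v⁻¹ = v := inv_eq_of_mul_eq_one_left (sq v hv)
    rw [ti] at k
    refine sup_le le_sup_left (zpowers_le.2 ((mE _).2 (.inr ⟨?_, mem_c1.2 ?_⟩)))
    · simpa [mul_assoc, vi] using mul_mem hv k
    · calc _ = v * (t * v * t) * t := by simp [mul_assoc, vi]
        _ = _ := by rw [cV hv k]; simp [mul_assoc, vi])
  have VD : V ≤ 𝐍[T ⊓ 𝐂[E]] :=
    le_normalizer_inf ((VS.trans ST).trans le_normalizer) (le_normalizer_centralizer VE)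
  have sqE : ∀ a ∈ E, a * a = 1 := fun a ha => ((mE a).1 ha).elim (fun r => sq a r.1) fun r => by
    have := sq _ r.1
    rwa [mul_assoc, ← mem_c1.1 r.2, mul_assoc a, t2, mul_one] at this
  have tD : t ∈ T ⊓ 𝐂[E] :=
    ⟨ST ht, fun a ha => comm_of_sq (sqE a ha) t2 (sqE _ (mul_mem ha tE))⟩
  have DY : V ⊔ T ⊓ 𝐂[E] ≤ Y := by
    refine (eq_of_inf_normalizer_le (hT.to_le (sup_le (VS.trans ST) inf_le_left))
      (sup_le_sup_left (zpowers_le.2 tD) _) fun g hg => ?_).ge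
    obtain ⟨v, hv, d, hd, rfl⟩ := (mem_sup_of_le_normalizer_right VD).1 hg.1
    have vY : v ∈ Y := mem_sup_left hv
    have dY : d ∈ 𝐍[Y] := (mul_mem_cancel_left (le_normalizer vY)).1 hg.2
    refine mul_mem vY (EY (DE d hd.1 hd.2 (nV ▸ mem_normalizer_of_cj_le fun w hw => ?_)))
    by_contra w1
    have le : cj(d, V) ≤ Y := cj_le_of_mem_normalizer le_sup_left dY
    have wt := ((mY w).1 (le hw)).resolve_left w1
    have := a6b_card hw w1 fun b hb => ((mY b).1 (le hb)).symm.imp_left fun r => by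
      simpa [mul_assoc, ← mul_assoc t t, t2] using mul_mem r (conj_mem_of_mem_normalizer tV wt)
    have h2 : V ⊓ cj(d, V) ≤ U := fun a ha => ⟨ha.1, mem_c1.2 (mul_left_cancel (a := w) (by
      obtain ⟨a', ha', e⟩ := mem_cj_iff_exists.1 ha.2
      obtain ⟨w', hw', rfl⟩ := mem_cj_iff_exists.1 hw
      rw [← mul_assoc, ← mul_assoc, cV wt ha.1, ← mul_assoc a, ← e, conj_mul, conj_mul, cV ha' hw']))⟩
    have := card_le_of_le h2
    rw [card_cj] at *
    omega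
  refine MacW.HB.harada hT (A := E.subgroupOf T) (fun a ha => Subtype.ext (by
    simpa [pow_two] using sqE _ ha)) ?_ fun s hs => ?_
  · rw [Nat.card_congr (subgroupOfEquivOfLe (EY.trans (YS.trans ST))).toEquiv,
      a6b_card tE (V := U) (fun r => t1 r.1) fun b hb => ((mE b).1 hb).symm,
      inf_eq_left.2 le_sup_left, h4]
  · have c : s.1 ∈ 𝐂[E] := fun a ha =>
      congrArg Subtype.val (hs ⟨a, ST (YS (EY ha))⟩ ha).symm
    exact DE s s.2 c (hS.le (YS (DY (mem_sup_right ⟨s.2, c⟩))))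

namespace F6

open Equiv

theorem cm_swap {i j : Fin 6} {g : Perm (Fin 6)} : Cm [swap i j] g ↔ swap (g i) (g j) = swap i j := by
  simp only [Cm, List.mem_singleton, forall_eq, mul_swap_eq_swap_mul, mul_left_inj, eq_comm]

theorem P_anti {L L' : List (Perm (Fin 6))} (h : L ⊆ L') : P L' ≤ P L := fun _ hg σ hσ => hg σ (h hσ)

theorem D_le1 : D ≤ P1 := P_anti (by simp)

theorem A_le : A ≤ D := P_anti (by simp)

theorem D_le2 : D ≤ P2 := fun g hg => mem_P.2 fun σ hσ => by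
  rw [List.mem_singleton.1 hσ, mul_assoc, mem_P.1 hg s0 (by simp), ← mul_assoc,
    mem_P.1 hg e1.1 (by simp), mul_assoc]

theorem A_cases {a : A6} (h : a ∈ A) : a = 1 ∨ a.1 ∈ [e1.1, e2.1, e1.1 * e2.1] :=
  (((P1_all a.1 (D_le1 (A_le h))).2.2 (P_anti (by simp) h) a.2).1 (P_anti (by simp) h)).imp_left
    Subtype.ext

theorem mem_A {a : A6} (h : a.1 ∈ [e1.1, e2.1, e1.1 * e2.1]) : a ∈ A :=
  small.2.2.2.2.2.2.2.2.2.2 _ h

theorem conj_A {g a : A6} (hg : g ∈ P1) (h : a ∈ A) : g * a * g⁻¹ ∈ A := by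
  have k : ∀ a : A6, a.1 ∈ [e1.1, e2.1] → g * a * g⁻¹ ∈ A := fun a ha =>
    let ⟨_, hb, e⟩ := (P1_all g.1 hg).1 _ ha
    mem_A (by rwa [← mul_inv_eq_of_eq_mul e] at hb)
  rcases A_cases h with rfl | r
  · simp
  simp only [List.mem_cons, List.not_mem_nil, or_false] at r
  rcases r with r | r | r
  · exact k a (by simp [r])
  · exact k a (by simp [r])
  · rw [show a = e1 * e2 from Subtype.ext r, ← conj_mul]
    exact mul_mem (k _ (by simp)) (k _ (by simp))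

theorem exists_pair {i j : Fin 6} (h : i ≠ j) :
    ∃ g ∈ P1 ⊔ P2, (g.1 4 = i ∧ g.1 5 = j) ∨ (g.1 4 = j ∧ g.1 5 = i) := by
  obtain ⟨l, -, e⟩ := wd_pair i j h
  refine ⟨(l.map gn).prod, list_prod_mem fun g hg => ?_, by rwa [val_list_prod, List.map_map]⟩
  obtain ⟨k, -, rfl⟩ := List.mem_map.1 hg
  exact (gn_mem k).elim (mem_sup_left ·) (mem_sup_right ·)

theorem sup_top : P1 ⊔ P2 = ⊤ := eq_top_iff.2 fun g _ => by
  obtain ⟨k, hk, e⟩ := exists_pair (g.1.injective.ne (show (4 : Fin 6) ≠ 5 by decide))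
  refine (mul_mem_cancel_left (inv_mem hk)).1 (mem_sup_left (mem_P.2 (cm_swap.2 ?_)))
  rcases e with ⟨a, b⟩ | ⟨a, b⟩ <;> simp [← a, ← b, swap_comm]

/-- the preimage in the ambient group -/
def pre (π : M →* A6) (K : Subgroup A6) : Subgroup G := (K.comap π).map M.subtype

variable {π : M →* A6} {K : Subgroup A6}

theorem pre_le : pre π K ≤ M := map_subtype_le _

theorem mem_pre {m : M} : (m : G) ∈ pre π K ↔ π m ∈ K := mem_map_subtype

theorem pre_mono {L : Subgroup A6} (h : K ≤ L) : pre π K ≤ pre π L := map_mono (comap_mono h)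

variable (hs : Function.Surjective π) (hk : ∀ m, π m = 1 ↔ (m : G) ∈ Q)

include hs in
theorem rel_pre : (pre π K).relIndex M = K.index := by
  rw [relIndex, pre, map_subtype_subgroupOf, index_comap_of_surjective _ hs]

include hs in
theorem card_pre : Nat.card (pre π K) * K.index = Nat.card M := by
  rw [pre, card_map_of_injective M.subtype_injective, ← index_comap_of_surjective _ hs, card_mul_index]

include hk in
theorem pre_two (hQ : IsPGroup 2 Q) {n : ℕ} (h : Nat.card K = 2 ^ n) : IsPGroup 2 (pre π K) :=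
  ((IsPGroup.of_card h).comap_of_ker_isPGroup π ((isPGroup_subgroupOf hQ M).to_le
    fun m hm => (hk m).1 hm)).map _

include hk in
theorem pre_solv (h8 : P8 G) (hQ : IsPGroup 2 Q) (h : Nat.card K = 24) (g : G) :
    Group.IsSolvable cj(g, pre π K) := by
  suffices Group.IsSolvable (pre π K) from
    Group.isSolvable_of_surjective ((MulAut.conj g).toMonoidHom.subgroupMap_surjective _)
  by_contra r
  obtain ⟨⟨_, m, hm, rfl⟩, hx⟩ := (h8.sub _).exists57 r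
  rw [← orderOf_coe] at hx
  have := orderOf_dvd_of_pow_eq_one (h8.fpf hx hQ (a := (m : G) ^ 24) ((hk (m ^ 24)).1 (by
    rw [map_pow, ← h]; exact congrArg Subtype.val (pow_card_eq_one' (x := (⟨_, hm⟩ : K)))))
    (Commute.self_pow _ _).symm)
  rcases hx with hx | hx <;> exact absurd (hx ▸ this) (by norm_num)

end F6

open F6 Equiv in
/-- Take `π, f, V'` from `Ext.du`, `Du.card`; `z = f 4 5`, so `M ⊓ 𝐜[z]` is the preimage of the
stabilizer `P₁ ≅ S₄` of `{4, 5}`, `R` is the preimage of the four-group `A₁` on `0,1,2,3`, `y` a lift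
of `(0 1 2)`.  All fields reduce to finite checks in `A₆` (`decide +kernel`); `rk1` is `P8.rk5`.
`par`: `S` is conjugate to the preimage `S₀` of `⟨A₁, (0 1)(4 5)⟩`; `X₁, X₂` are the preimages of `P₁`
and of `P₂ = ⟨S₀, (0 2 4)(1 3 5)⟩`, of order `24 * card Q`, solvable by `solv23`; `⟨P₁, P₂⟩ = A₆`.
`eg`: conjugate to `S = S₀`, use `eg16` with an involution `t` over `(0 2)(1 3)`, which exists: it
inverts a 5-element `x̄`; `exists_norm` gives a lift `t` inverting a lift `x`, and `t * t ∈ Q`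
commutes with `x`, so is trivial.  `V ⊓ 𝐜[t] = {1, f 0 2, f 1 3, f 4 5}`. -/
theorem Ext.s4t6 (h : Ext A6 M Q) (h1 : Q ≠ ⊥) : ∃ V R z y, S4T M Q V R z y := by
  obtain ⟨V₀, hV₀, -⟩ := exists_om' h.two h1 h.nQ
  obtain ⟨π, f, d⟩ := h.du hV₀
  obtain ⟨V, -, hV, h16, fV, Vf, inj⟩ := d.card h hV₀
  have f1 : ∀ i, f i i = 1 := fun i => by simpa using d.tri i i i
  have fs : ∀ i j, f j i = f i j := fun i j => mul_left_cancel (a := f i j) (by
    rw [d.tri, f1, hV.sq _ (fV i j)])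
  have cf : ∀ (m : M) i j, i ≠ j → ((m : G) ∈ 𝐜[f i j] ↔ Cm [swap i j] (π m).1) := fun m i j ij => by
    rw [mem_c1, ← mul_inv_eq_iff_eq_mul, d.act, cm_swap]
    refine ⟨fun e => ?_, fun e => ?_⟩
    · rcases (pair _ _ _ _ ij).2 (inj _ _ _ _ ij e.symm) with ⟨a, b⟩ | ⟨a, b⟩ <;> rw [a, b]
      exact swap_comm _ _
    · rcases (pair _ _ _ _ ij).1 e with ⟨a, b⟩ | ⟨a, b⟩ <;> rw [a, b]
      exact fs _ _
  have p1 : M ⊓ 𝐜[f 4 5] = pre π P1 := le_antisymm
    (fun g hg => (mem_pre (m := ⟨g, hg.1⟩)).2 ((cf ⟨g, hg.1⟩ 4 5 (by decide)).1 hg.2))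
    (by rintro _ ⟨m, hm, rfl⟩; exact ⟨m.2, (cf m 4 5 (by decide)).2 hm⟩)
  have Qp : ∀ K, Q ≤ pre π K := fun K q hq =>
    (mem_pre (m := ⟨q, h.le hq⟩)).2 ((d.ker ⟨q, h.le hq⟩).2 hq ▸ one_mem K)
  obtain ⟨y3, y1, x5, x1, ex, e21, ey, yP, e02, e22, -⟩ := small
  obtain ⟨y, hy, πy⟩ : ∃ y : M, orderOf y = 3 ∧ π y = y0 := by
    obtain ⟨m, hm⟩ := d.surj y0
    exact ⟨_, hm ▸ (h.p8.sub M).lift3 π (hm ▸ ord_prime 3 (Subtype.ext y3) fun r => y1 (congrArg _ r))⟩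
  obtain ⟨x, πx⟩ := d.surj x0
  have hx : orderOf (x : G) = 5 := (orderOf_coe x).trans ((h.p8.sub M).lift57 π (.inl rfl)
    (πx ▸ ord_prime 5 (Subtype.ext x5) fun r => x1 (congrArg _ r)))
  obtain ⟨r1, π1⟩ := d.surj e1
  obtain ⟨r2, π2⟩ := d.surj e2
  have R1 : (r1 : G) ∈ pre π A := mem_pre.2 (π1 ▸ mem_A (by simp))
  have R2 : (r2 : G) ∈ pre π A := mem_pre.2 (π2 ▸ mem_A (by simp))
  have S0 : IsSyl 2 (pre π D) M := isSyl_of_not_dvd_relIndex (pre_two d.ker h.two (n := 3) card_D)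
    pre_le (by rw [rel_pre d.surj, index_of (b := 45) card_D rfl]; norm_num)
  refine ⟨V, pre π A, f 4 5, y, h.nsl h1 (n57_alt (by norm_num)) rk_A6 ns_A6, hV, by omega, fV _ _,
    d.ne, fun v hv v1 => ?_, pre_two d.ker h.two (n := 2) card_A, Qp _,
    p1 ▸ pre_mono (A_le.trans D_le1), ?_, fun B hB b1 b2 b hb => ?_, ?_, (orderOf_coe y).trans hy,
    p1 ▸ mem_pre.2 (πy ▸ yP), fun B b1 b2 b3 => ?_, ⟨r1, R1, fun r => ey ?_⟩, fun v hv => ?_,
    fun U hU _ e u hu => h.p8.rk5 h.two hV.VQ hV.cV hV.sq hx (h.nQ x.2) (hV.nV x.2) (fV 4 5) (hU hu)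
      (e u hu), fun S hS => ?_, fun QV nV S T hS hT ST => ?_⟩
  · obtain ⟨i, j, rfl⟩ := Vf v hv
    obtain ⟨g, -, e⟩ := exists_pair (i := i) (j := j) fun r => v1 (r ▸ f1 i)
    obtain ⟨m, rfl⟩ := d.surj g
    refine ⟨m, m.2, ?_⟩
    rcases e with ⟨a, b⟩ | ⟨a, b⟩ <;> rw [d.act, a, b]
    exact fs _ _
  · rw [p1]
    rintro _ ⟨m, hm, rfl⟩
    refine mem_normalizer_of_cj_le (cj_le_iff_forall.2 ?_)
    rintro _ ⟨r, hr, rfl⟩
    exact (mem_pre (m := m * r * m⁻¹)).2 (by simpa using conj_A hm hr)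
  · rw [p1] at b1 b2
    obtain ⟨m, hm, rfl⟩ := b1 hb
    rcases (P1_all _ hm).2.1 with r | ⟨g, hg, g3, g1⟩
    · exact mem_pre.2 fun σ hσ => (List.mem_cons.1 hσ).elim (fun e => hm σ (by simp [e])) (r σ)
    · obtain ⟨n, rfl⟩ := d.surj g
      have hn : π n ∈ P1 := by
        simp only [List.mem_cons, List.not_mem_nil, or_false] at hg
        rcases hg with e | e | e <;> rw [e]
        exacts [one_mem _, yP, D_le1 (A_le (mem_A (by simp)))]
      obtain ⟨k, hk⟩ := isPGroup_iff.1 hB _ (mul_mem hb (conj_mem_of_mem_normalizer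
        (b2 (mem_pre.2 hn)) hb))
      have := congrArg (fun a => (π a).1) (show (m * (n * m * n⁻¹)) ^ 2 ^ k = 1 from Subtype.ext hk)
      exact absurd (eq_one_of_pow g3 (by simpa using this) (Nat.Coprime.pow_right _ (by norm_num))) g1
  · have a := card_pre (K := A) d.surj
    have b := card_pre (K := P1) d.surj
    rw [index_of (b := 90) card_A rfl] at a
    rw [index_of (b := 15) card_P1 rfl] at b
    rw [p1]
    omega
  · refine or_iff_not_imp_left.2 fun r => le_antisymm b2 ?_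
    obtain ⟨b, hb, bQ⟩ := SetLike.not_le_iff_exists.1 fun k => r (le_antisymm k b1)
    obtain ⟨n, hn, rfl⟩ := b2 hb
    rintro _ ⟨m, hm, rfl⟩
    have k : ∀ c : M, (c : G) ∈ B → π m = π c → (m : G) ∈ B := fun c hc e =>
      (mul_mem_cancel_right (inv_mem hc)).1 (b1 ((d.ker (m * c⁻¹)).1 (by simp [e])))
    rcases A_cases hm with e | e
    · exact k 1 (one_mem _) (by rw [e, map_one])
    rcases irr _ e _ ((A_cases hn).resolve_left fun e => bQ ((d.ker n).1 e)) with e | e | e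
    · exact k n hb (Subtype.ext e)
    · exact k (y * n * y⁻¹) (conj_mem_of_mem_normalizer b3 hb) (Subtype.ext (by simpa [πy] using e))
    · exact k (y⁻¹ * n * y) (inv_conj_mem_of_mem_normalizer b3 hb) (Subtype.ext (by simpa [πy] using e))
  · have := (d.ker (cm r1 y)).2 r
    rw [map_cm, cm_eq_one, π1, πy] at this
    exact congrArg Subtype.val this
  · obtain ⟨i, j, rfl⟩ := Vf v hv.1
    by_cases ij : i = j
    · rw [ij, f1]; exact one_mem _
    rcases fix i j ij (π1 ▸ (cf r1 i j ij).1 (mem_c1.2 (hv.2 _ R1)))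
      (π2 ▸ (cf r2 i j ij).1 (mem_c1.2 (hv.2 _ R2))) with ⟨rfl, rfl⟩ | ⟨rfl, rfl⟩
    exacts [mem_zpowers _, fs 4 5 ▸ mem_zpowers _]
  · obtain ⟨g, hg, rfl⟩ := hS.exists_cj_eq S0
    refine ⟨_, _, cj_mono g (pre_mono D_le1), cj_mono g (pre_mono D_le2),
      pre_solv d.ker h.p8 h.two card_P1 g, pre_solv d.ker h.p8 h.two card_P2 g, ?_⟩
    rw [← cj_sup, pre, pre, ← Subgroup.map_sup, comap_sup_eq _ _ _ d.surj, sup_top, comap_top,
      ← MonoidHom.range_eq_map, range_subtype, cj_of_mem hg]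
  · subst QV
    obtain ⟨g, -, e⟩ := S0.exists_cj_eq hS
    obtain ⟨r, hr, er⟩ := exists_norm h.two Nat.prime_five (by norm_num) hx (h.nQ x.2) (h.nQ r2.2) 4
      ((d.ker ((x ^ 4)⁻¹ * (r2 * x * r2⁻¹))).1 (Subtype.ext (by simp [π2, πx, ex])))
    obtain ⟨t, πt, rfl⟩ : ∃ t : M, π t = e2 ∧ r = t * (r2 : G)⁻¹ :=
      ⟨⟨r, h.le hr⟩ * r2, by rw [map_mul, (d.ker _).2 hr, one_mul, π2], by simp⟩
    rw [inv_mul_cancel_right] at er
    have x5 : (x : G) ^ 5 = 1 := hx ▸ pow_orderOf_eq_one _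
    have tt : ∀ m : M, π m = e2 → (m : G) * t ∈ Q := fun m hm =>
      (d.ker (m * t)).1 (Subtype.ext (by rw [map_mul, hm, πt]; exact e22))
    have t2 : (t : G) * t = 1 := h.p8.fpf (.inl hx) h.two (tt t πt) (mul_inv_eq_iff_eq_mul.1 (by
      calc _ = t * (t * x * (t : G)⁻¹) * (t : G)⁻¹ := by group
        _ = _ := by rw [er, ← conj_pow, er, ← pow_mul, show 4 * 4 = 5 * 3 + 1 from rfl, pow_succ,
          pow_mul, x5, one_pow, one_mul]))
    have h4 := half_of_inv hV.cV hV.sq (hV.nV t.2) (hV.nV x.2) (hx ▸ by decide)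
      (by rw [er, ← pow_succ, x5]; exact one_mem _) fun v hv => h.p8.fpf (.inl hx) h.two hv
    have h5 := le_sq_cent hV.sq (hV.nV t.2) (t2 ▸ one_mem _)
    refine FGS.SecRank.of_injective (eg16 hV.sq h16 (le_antisymm nV hV.nV) S0 (isPGroup_cj g hT)
      (e ▸ cj_mono g ST) (Qp _) (mem_pre.2 (πt ▸ A_le (mem_A (by simp)))) t2
      (fun r => e21 (congrArg Subtype.val (πt.symm.trans ((d.ker t).2 r))))
      (Nat.pow_left_injective two_ne_zero (by simp only; omega)) ?_)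
      ((MulAut.conj g).subgroupMap T).toMonoidHom (MulEquiv.injective _)
    rintro _ ⟨⟨m, hm, rfl⟩, c⟩
    refine (a6b_sup (hV.nV t.2) t2).2 ((((P1_all _ (D_le1 hm)).2.2 (P_anti (by simp) hm) (π m).2).2
      ((cf m 0 2 (by decide)).1 (mem_c1.2 (c _ ⟨fV 0 2, mem_c1.2 (mem_c1.1
        ((cf t 0 2 (by decide)).2 (πt ▸ e02))).symm⟩).symm))).imp
      (fun r => (d.ker m).1 (Subtype.ext r)) fun r => tt m (Subtype.ext r))

end Cfsg.Agent.Eo8
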