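import Mathlib
import Cfsg.Agent.Eo8.As1
import Cfsg.Agent.CIT.SpecA6
import Cfsg.Agent.S4231
import Cfsg.Agent.FGS.SolvRad

/-!
# Almost simple groups of the class
-/

set_option autoImplicit false
set_option linter.unusedSectionVars false
set_option maxRecDepth 100000

namespace Cfsg.Agent.Eo8

open Subgroup Cfsg PLocal.Amb
open Cfsg.Agent.PLocal.CP (IsCharP)
open scoped MatrixGroups

universe u

variable {G : Type*} [Group G] [Finite G]

variable {L : Subgroup G} [L.Normal]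

section

open Equiv Equiv.Perm CIT.A6

/-- a product of two transpositions as an even permutation -/
def as2ev (a b c d : Fin 6) (h : a ≠ b := by decide) (h' : c ≠ d := by decide) : A6 :=
  ⟨swap a b * swap c d, by rw [mem_alternatingGroup, map_mul, sign_swap h, sign_swap h']; rfl⟩

theorem as2_inv : ∀ u : A6, u * c = c⁻¹ * u → u ∈ [as2ev 0 2 4 5, as2ev 0 2 4 5 * c ^ 2] ∨
    as2ev 0 2 4 5 * u = c ∨ as2ev 0 2 4 5 * u = c⁻¹ := by decide +kernel

theorem as2_three : ∀ u ∈ [as2ev 0 2 4 5, as2ev 0 2 4 5 * c ^ 2], ∀ y : A6, y * c ^ 2 = u * c * y →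
    y * (u * c) = u * c ^ 3 * y → y.1.cycleType = {3} := by decide +kernel

theorem as2_rel : as2ev 0 2 4 5 * c = c⁻¹ * as2ev 0 2 4 5 ∧
    as2ev 1 3 3 2 * c ^ 2 = as2ev 0 2 4 5 * c * as2ev 1 3 3 2 ∧
    as2ev 1 3 3 2 * (as2ev 0 2 4 5 * c) = as2ev 0 2 4 5 * c ^ 3 * as2ev 1 3 3 2 ∧
    (as2ev 1 3 3 2).1.cycleType = {3} ∧ c ^ 4 = 1 ∧ c ^ 2 ≠ 1 ∧ c⁻¹ ^ 2 = c ^ 2 := by
  decide +kernel

theorem as2_four {g : G} (h8 : g ^ 8 = 1) (h : orderOf g ≠ 8) : g ^ 4 = 1 := by
  by_contra e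
  exact h (orderOf_eq_prime_pow (p := 2) (n := 2) e h8)

theorem P8.three6 (h : P8 G) {ι : A6 →* G} (hι : Function.Injective ι) {g : G} {α : MulAut A6}
    (h8 : ∀ s, orderOf (ι s * g) ≠ 8) (hα : ∀ a, ι (α a) = g * ι a * g⁻¹) (hc : α c = c) :
    IsThreeCycle (α (as2ev 1 3 3 2)).1 := by
  obtain ⟨r1, r2, r3, -, c4, c2, ci⟩ := as2_rel
  have h1 : Commute (ι c) g := by
    have := hα c
    rwa [hc, eq_mul_inv_iff_mul_eq] at this
  have h2 : ι c ^ 2 ≠ 1 := fun e => c2 (hι (by rw [map_pow, e, map_one]))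
  have h4 : ι c ^ 4 = 1 := by rw [← map_pow, c4, map_one]
  have h3 := as2_four (h.c4 ((orderOf_injective ι hι c).trans orderOf_c) h1) (by simpa using h8 1)
  have key : ∀ z : A6, Commute (ι z) g → z ^ 2 = c ^ 2 → as2ev 0 2 4 5 * α (as2ev 0 2 4 5) ≠ z := by
    intro z hz z2 e
    have h5 : (ι (as2ev 0 2 4 5) * g) ^ 2 = ι z * g ^ 2 := by
      rw [← e, map_mul, hα, pow_two, pow_two]; group
    have h6 : (ι (as2ev 0 2 4 5) * g) ^ 4 = ι c ^ 2 := by
      rw [show 4 = 2 * 2 by norm_num, pow_mul, h5, (hz.pow_right 2).mul_pow, ← pow_mul, h3,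
        mul_one, ← map_pow, z2, map_pow]
    refine h2 (h6 ▸ as2_four ?_ (h8 _))
    rw [show 8 = 4 * 2 by norm_num, pow_mul, h6, ← pow_mul, h4]
  rcases as2_inv (α (as2ev 0 2 4 5)) (by simpa [hc] using congrArg α r1) with e | e | e
  · exact as2_three _ e _ (by simpa [hc] using congrArg α r2) (by simpa [hc] using congrArg α r3)
  · exact absurd e (key _ h1 rfl)
  · exact absurd e (key _ (by rw [map_inv]; exact h1.inv_left) ci)

theorem P8.aut6 (h : P8 G) {ι : A6 →* G} (hι : Function.Injective ι) {g : G} {α : MulAut A6}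
    (h8 : ∀ s, orderOf (ι s * g) ≠ 8) (hα : ∀ a, ι (α a) = g * ι a * g⁻¹) :
    ∃ σ : Perm (Fin 6), MulAut.conjNormal σ = α := by
  have hc : ∀ y z : A6, IsConj y z → IsThreeCycle y.1 → IsThreeCycle z.1 := fun y z h hy =>
    (isConj_iff_cycleType_eq.1 (A6.subtype.map_isConj h)).symm.trans hy
  obtain ⟨s, hs⟩ := conj_c (α c) ((α.orderOf_eq c).trans orderOf_c)
  have h1 := h.three6 hι (g := ι s⁻¹ * g) (α := MulAut.conj s⁻¹ * α)
    (fun t => by rw [← mul_assoc, ← map_mul]; exact h8 _)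
    (fun a => by simp [hα, mul_assoc]) (by simp [← hs, mul_assoc])
  have h2 := hc _ (α (as2ev 1 3 3 2)) (isConj_iff.2 ⟨s, by simp [mul_assoc]⟩) h1
  obtain ⟨σ, hσ⟩ := KSG.exists_conj_of_map_threeCycle (by simp) α.toMonoidHom α.injective
    fun x hx => hc _ _ (α.toMonoidHom.map_isConj
      (alternatingGroup.isThreeCycle_isConj (by simp) as2_rel.2.2.2.1 hx)) h2
  exact ⟨σ, MulEquiv.ext fun x => Subtype.ext (by rw [MulAut.conjNormal_apply]; exact (hσ x).symm)⟩

theorem P8.as2_alm (h : P8 G) (hL : Known L) {n : ℕ} (h5 : 5 ≤ n) (e : L ≃* alternatingGroup (Fin n))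
    (hN : L ≠ ⊤) (h2 : ∀ g, MulAut.congr e (MulAut.conjNormal g) ∈
      (MulAut.conjNormal : Perm (Fin n) →* _).range) : Nonempty (G ≃* Perm (Fin n)) := by
  let ψ : G →* MulAut (alternatingGroup (Fin n)) :=
    (MulAut.congr e).toMonoidHom.comp MulAut.conjNormal
  have h1 : Function.Injective ψ := (injective_iff_map_eq_one _).2 fun g hg => h.cent_known hL fun l hl => by
    have := congrArg Subtype.val (DFunLike.congr_fun ((map_eq_one_iff _ (MulAut.congr e).injective).1 hg) ⟨l, hl⟩)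
    exact (mul_inv_eq_iff_eq_mul.1 this).symm
  let φ := (MonoidHom.ofInjective (S4231.conj_inj h5)).symm.toMonoidHom.comp (ψ.codRestrict _ h2)
  have h3 : Function.Injective φ := fun a b e => h1 (congrArg Subtype.val
    ((MonoidHom.ofInjective (S4231.conj_inj h5)).symm.injective e :
      ψ.codRestrict _ h2 a = ψ.codRestrict _ h2 b))
  refine ⟨MulEquiv.ofBijective φ ((Nat.bijective_iff_injective_and_card φ).2 ⟨h3, ?_⟩)⟩
  have h4 := Nat.card_le_card_of_injective φ h3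
  have : Nontrivial (Fin n) := Fin.nontrivial_iff_two_le.2 (by omega)
  have h6 := two_mul_nat_card_alternatingGroup (α := Fin n)
  have h7 := L.card_mul_index
  have h8 := one_lt_index_of_ne_top hN
  rw [← Nat.card_congr e.toEquiv] at h6
  nlinarith

end

theorem P8.as2_idx (h : P8 G) (hL : Known L) {X : Type*} [Group X] (e : L ≃* X) {p c : ℕ}
    (hp : p = 5 ∧ c = 4 ∨ p = 7 ∧ c = 2) {x g : X} (hx : orderOf x = p) (r : g * x * g⁻¹ = x ^ c)
    (hn : L ≠ ⊤) : L.index = 2 ∧ (p = 7 → FD G 7 6) := by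
  have o : orderOf (e.symm x : G) = p := by rw [orderOf_coe, MulEquiv.orderOf_eq, hx]
  obtain ⟨h1, h2⟩ := h.idx_two hL hp (e.symm x).2 (e.symm g).2 o
    (by simpa using congrArg (fun y => (e.symm y : G)) r) hn
  exact ⟨h1, fun k => let ⟨_, ha⟩ := h2 k; h.fd76 (o.trans k) ha⟩

/-- Port of `O6.P6.almost` (file `O6/Aut.lean`; copy what is needed, do not import it), case
`n = 5`: `G → Aut(A₅) = S₅` (`S2119`) is injective by `cent_known`, and `|G| > 60`. -/
theorem P8.almost5 (h : P8 G) (e : L ≃* A5) (hn : L ≠ ⊤) : Nonempty (G ≃* Equiv.Perm (Fin 5)) := by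
  exact h.as2_alm (.inl ⟨e⟩) le_rfl e hn fun g => (S2119.result 5 (by norm_num) (by norm_num)).2 _

/-- Port of `O6.P6.three6`, `aut6`, `almost` (`n = 6`).  Assume no element outside `L` has order
eight.  For `g ∈ L` the automorphism is inner.  For `g ∉ L`, in `aut6` replace `g` by
`ι s⁻¹ * g ∉ L`, so that `g` commutes with `ι c` of order four; then `g ^ 8 = 1` (`P8.c4`) and
`g ^ 4 = 1` as `g` does not have order eight.  In `key` of `three6`, the element
`ι (ev 0 2 4 5) * g ∉ L` has fourth power `ι c ^ 2 ≠ 1` and eighth power one, so order eight.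
The rest is unchanged. -/
theorem P8.almost6 (h : P8 G) (e : L ≃* A6) (hn : L ≠ ⊤) :
    Nonempty (G ≃* Equiv.Perm (Fin 6)) ∨ ∃ g, g ∉ L ∧ orderOf g = 8 := by
  refine or_iff_not_imp_right.2 fun h8 => h.as2_alm (.inr (.inl ⟨e⟩)) (by norm_num) e hn fun g => ?_
  by_cases hg : g ∈ L
  · refine ⟨e ⟨g, hg⟩, MulEquiv.ext fun y => e.symm.injective (Subtype.ext ?_)⟩
    rw [show MulAut.conjNormal (e ⟨g, hg⟩ : Equiv.Perm (Fin 6)) y = e ⟨g, hg⟩ * y * (e ⟨g, hg⟩)⁻¹ from rfl]
    simp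
  · exact h.aut6 (ι := L.subtype.comp e.symm.toMonoidHom) (L.subtype_injective.comp e.symm.injective)
      (g := g) (fun s k => h8 ⟨_, fun m => hg ((mul_mem_cancel_left (e.symm s).2).1 m), k⟩) fun a => by simp

/-- Cases on `Known L` and on `L = ⊤` (`Subgroup.topEquiv`).  `A₅`: `almost5`.  `A₆`: `almost6`,
`idx_two` with `aut5_A6`, `n57_known`.  `L₃(2)`: `idx_two` with `aut7_L32`, `fd76`, and
`|G| = 2 * 168`.  `A₇`: `top_of_aut` with `aut5_A7`.  `L₃(4)`: `idx_two` with `IsL34.aut7`. -/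
theorem P8.almost (h : P8 G) (hL : Known L) : AS G := by
  have n := h.n57_known hL
  by_cases hn : L = ⊤
  · subst hn
    have t := (topEquiv (G := G)).symm
    rcases hL with ⟨⟨e⟩⟩ | ⟨⟨e⟩⟩ | ⟨⟨e⟩⟩ | ⟨⟨e⟩⟩ | e
    · exact .inl ⟨t.trans e⟩
    · exact .inr (.inr (.inl ⟨t.trans e⟩))
    · exact .inr (.inr (.inr (.inr (.inr (.inl ⟨t.trans e⟩)))))
    · exact .inr (.inr (.inr (.inr (.inr (.inr (.inr (.inl ⟨t.trans e⟩)))))))
    · exact .inr (.inr (.inr (.inr (.inr (.inr (.inr (.inr ⟨n, ⊤, inferInstance, .inl rfl, e⟩)))))))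
  rcases id hL with ⟨⟨e⟩⟩ | ⟨⟨e⟩⟩ | ⟨⟨e⟩⟩ | ⟨⟨e⟩⟩ | e
  · exact .inr (.inl (h.almost5 e hn))
  · obtain ⟨x, g, hx, r⟩ := aut5_A6
    exact .inr (.inr (.inr ((h.almost6 e hn).imp_right fun k =>
      .inl ⟨n, L, (h.as2_idx hL e (.inl ⟨rfl, rfl⟩) hx r hn).1, ⟨e⟩, k⟩)))
  · obtain ⟨x, g, hx, r⟩ := aut7_L32
    obtain ⟨h1, h2⟩ := h.as2_idx hL e (.inr ⟨rfl, rfl⟩) hx r hn
    exact .inr (.inr (.inr (.inr (.inr (.inr (.inl ⟨n, h2 rfl, by
      rw [← L.card_mul_index, h1, Nat.card_congr e.toEquiv, card_L32]; decide⟩))))))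
  · obtain ⟨x, g, hx, r⟩ := aut5_A7
    exact absurd (h.top_of_aut hL (e.symm x).2 (e.symm g).2 (by rw [orderOf_coe, MulEquiv.orderOf_eq, hx])
      (by simpa using congrArg (fun y => (e.symm y : G)) r)) hn
  · obtain ⟨x, g, hx, -, r⟩ := e.aut7
    exact .inr (.inr (.inr (.inr (.inr (.inr (.inr (.inr ⟨n, L, inferInstance,
      .inr (h.as2_idx hL (MulEquiv.refl L) (.inr ⟨rfl, rfl⟩) hx r hn).1, e⟩)))))))

/-- Let `N` be a minimal normal subgroup of `X` (`Grp.exists_minNormal`); it is not solvable, and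
a solvable normal subgroup of `N` is trivial (`solvableRadical N` maps into the solvable radical of
`X`: `map_solvableRadical_le_of_normal` in `FGS/SolvRad`).  Let `K` be a minimal normal subgroup
of `N` (as a subgroup of `X`); `K` is not solvable.  For `g ∈ X` the conjugate `K^g` is minimal
normal in `N` too; if `K^g ≠ K` they meet trivially and commute; `K` has an element `x` of order
`p ∈ {5, 7}` (`exists57`), so `K^g ≤ C(x)` has exponent `p` (`c5`, `c7`) and is solvable, false.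
So `K ⊴ X`, `K = N`, and `N` is simple, nonabelian.  `ih` and `almost`. -/
theorem P8.as {X : Type u} [Group X] [Finite X] [Nontrivial X] (h : P8 X)
    (hS : ∀ M : Subgroup X, M.Normal → Group.IsSolvable M → M = ⊥) (ih : IH.{u} (Nat.card X)) :
    AS X := by
  obtain ⟨N, hN, N1, hm⟩ := Grp.exists_minNormal X
  have := (nontrivial_iff_ne_bot N).2 N1
  obtain ⟨K, hK, K1, hk⟩ := Grp.exists_minNormal N
  have ns : ¬ Group.IsSolvable K := fun s => K1 (eq_bot_iff.2 ((FGS.le_solvableRadical hK s).trans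
    ((map_eq_bot_iff_of_injective _ N.subtype_injective).1 (hS _ inferInstance
      (FGS.isSolvable_map _ (FGS.isSolvable_solvableRadical N)))).le))
  obtain ⟨x, hx⟩ := ((h.sub N).sub K).exists57 ns
  rw [← orderOf_coe] at hx
  have key : ∀ α : MulAut N, K ≤ K.map α.toMonoidHom := fun α => by
    have n := hK.map α.toMonoidHom α.surjective
    refine inf_eq_left.1 ((hk _ inferInstance inf_le_left).resolve_left fun e => ns ?_)
    have c : ∀ y ∈ K, x * α y = α y * x := fun y hy =>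
      commute_of_normal_of_disjoint K _ hK n (disjoint_iff.2 e) _ _ x.2 (mem_map_of_mem _ hy)
    obtain ⟨p, hp, r⟩ : ∃ p : ℕ, p.Prime ∧ ∀ y ∈ K, y ^ p = 1 := hx.elim
      (fun o => ⟨5, by norm_num, fun y hy => α.injective (by
        rw [map_pow, (h.sub N).c5 o (c y hy), map_one])⟩)
      fun o => ⟨7, by norm_num, fun y hy => α.injective (by
        rw [map_pow, (h.sub N).c7 o (c y hy), map_one])⟩
    have := Fact.mk hp
    have := (Grp.isPGroup_of_pow_eq_one r).isNilpotent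
    infer_instance
  have n : (K.map N.subtype).Normal := ⟨by
    rintro _ ⟨y, hy, rfl⟩ g
    obtain ⟨z, hz, rfl⟩ := key (MulAut.conjNormal g⁻¹) hy
    exact ⟨z, hz, by simp [mul_assoc]⟩⟩
  obtain rfl : K = ⊤ := map_injective N.subtype_injective (by
    rw [← MonoidHom.range_eq_map, range_subtype]
    exact (hm _ n (map_subtype_le _)).resolve_left fun e =>
      K1 ((map_eq_bot_iff_of_injective _ N.subtype_injective).1 e))
  have : IsSimpleGroup N := ⟨fun M hM => hk M hM le_top⟩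
  exact h.almost (ih N (fun c => ns (haveI := Group.isSolvable_of_comm c.1.1; inferInstance)) (h.sub N) (card_le_card_group N))

end Cfsg.Agent.Eo8
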