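import Mathlib
import Cfsg.Agent.Eo8.Nm
import Cfsg.Agent.Eo8.Fin
import Cfsg.Agent.CIT.Higman
import Cfsg.Agent.S0252

/-!
# Modules for `A₅` and `S₅`
-/

set_option autoImplicit false
set_option linter.unusedSectionVars false

namespace Cfsg.Agent.Eo8

open Subgroup Cfsg PLocal.Amb
open Cfsg.Agent.PLocal.CP (IsCharP)
open scoped MatrixGroups

universe u

variable {G : Type*} [Group G] [Finite G]

variable {M Q : Subgroup G}

/-- the 3-cycle `(0 1 2)` -/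
def b5 : A5 := ⟨Equiv.swap 0 1 * Equiv.swap 1 2,
  Equiv.Perm.mem_alternatingGroup.2 (by decide)⟩
/-- the involution `(0 1)(2 3)` -/
def a5 : A5 := ⟨Equiv.swap 0 1 * Equiv.swap 2 3,
  Equiv.Perm.mem_alternatingGroup.2 (by decide)⟩
/-- the involution `(0 1)(3 4)` -/
def s5 : A5 := ⟨Equiv.swap 0 1 * Equiv.swap 3 4,
  Equiv.Perm.mem_alternatingGroup.2 (by decide)⟩
/-- the 5-cycle `(0 1 2 3 4)` -/
def c5 : A5 := ⟨Equiv.swap 0 1 * Equiv.swap 1 2 * (Equiv.swap 2 3 * Equiv.swap 3 4),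
  Equiv.Perm.mem_alternatingGroup.2 (by decide)⟩

theorem ord_b5 : orderOf b5 = 3 := ord_prime 3 (by decide) (by decide)

theorem ord_c5 : orderOf c5 = 5 := ord_prime 5 (by decide) (by decide)

theorem conj_b5 {y : A5} (hy : orderOf y = 3) : ∃ g, g * y * g⁻¹ = b5 := by
  have k : ∀ y : A5, y ^ 3 = 1 → y ≠ 1 → (y : Equiv.Perm (Fin 5)).support.card = 3 := by
    decide +kernel
  exact isConj_iff.1 (alternatingGroup.isThreeCycle_isConj (by simp)
    (card_support_eq_three_iff.1 (k y (hy ▸ pow_orderOf_eq_one y) (by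
      rintro rfl; simp at hy)))
    (card_support_eq_three_iff.1 (k b5 (by decide) (by decide))))

theorem conj_a5 : ∀ a : A5, a * a = 1 → a ≠ 1 → (a * b5) ^ 3 = 1 →
    ∃ n ∈ [1, b5, b5 * b5, s5, b5 * s5, b5 * b5 * s5], n * a * n⁻¹ = a5 ∧
      (n * b5 * n⁻¹ = b5 ∨ n * b5 * n⁻¹ = b5⁻¹) := by
  decide +kernel

theorem fix_conj {X W : Type*} [Group X] [Group W] {ρ : X →* MulAut W} {a β : X}
    (hf : ∀ w, ρ a w = w → ρ β w = w → w = 1) (g : X) :
    ∀ w, ρ (g * a * g⁻¹) w = w → ρ (g * β * g⁻¹) w = w → w = 1 := fun w h1 h2 => by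
  have k : ∀ x, ρ (g * x * g⁻¹) w = w → ρ x (ρ g⁻¹ w) = ρ g⁻¹ w := fun x h => by
    conv_rhs => rw [← h]
    simp only [← MulAut.mul_apply, ← map_mul]
    congr 2
    group
  exact (ρ g⁻¹).map_eq_one_iff.1 (hf _ (k a h1) (k β h2))

theorem fix_inv {X W : Type*} [Group X] [Group W] {ρ : X →* MulAut W} {β : X} {w : W}
    (h : ρ β w = w) : ρ β⁻¹ w = w := by
  conv_lhs => rw [← h]
  rw [← MulAut.mul_apply, ← map_mul, inv_mul_cancel, map_one, MulAut.one_apply]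

theorem four_rel {W : Type*} [Group W] (sq : ∀ w : W, w * w = 1) {ρ : A5 →* MulAut W} {a : A5}
    (hf : ∀ w, ρ a w = w → ρ b5 w = w → w = 1) {w : W} (hw : ρ b5 w = w) (g : A5)
    (e1 : a * a = 1) (e2 : a * (b5 * a * b5⁻¹) = b5⁻¹ * a * b5)
    (e3 : a * (b5⁻¹ * a * b5) = b5 * a * b5⁻¹) :
    ([g, g * a, g * (b5 * a * b5⁻¹), g * (b5⁻¹ * a * b5)].map fun x => ρ x w).prod = 1 := by
  have hc : ∀ a b : W, a * b = b * a := fun a b => comm_of_sq (sq a) (sq b) (sq _)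
  have hl : ∀ a b c : W, a * (b * c) = b * (a * c) := fun a b c => by
    rw [← mul_assoc, hc a, mul_assoc]
  have h3 : b5 * b5 = b5⁻¹ := by decide
  have k : ∀ x y, ρ x (ρ y w) = ρ (x * y) w := fun x y => by rw [map_mul, MulAut.mul_apply]
  have k1 : ∀ x, ρ (x * b5) w = ρ x w := fun x => by rw [← k, hw]
  have k2 : ∀ x, ρ (x * b5⁻¹) w = ρ x w := fun x => by rw [← k, fix_inv hw]
  have := hf (w * (ρ a w * (ρ (b5 * a * b5⁻¹) w * ρ (b5⁻¹ * a * b5) w))) (by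
    simp only [map_mul (ρ a), k, e1, e2, e3, map_one, MulAut.one_apply]
    simp only [mul_assoc, hc, hl]) (by
    simp only [map_mul (ρ b5), k, hw, k1, k2, ← mul_assoc, h3, mul_inv_cancel, one_mul]
    simp only [mul_assoc, hc, hl])
  have h := congrArg (ρ g) this
  simpa only [map_mul (ρ g), k, map_one, List.map, List.prod_cons, List.prod_nil, mul_one] using h

/-- Certificate: one row, one column and three norms of 5-cycles. -/
theorem cert5 {W : Type*} [Group W] (sq : ∀ w : W, w * w = 1) {ρ : A5 →* MulAut W} (hN : Nm ρ)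
    {a β : A5} (a2 : orderOf a = 2) (b3 : orderOf β = 3) (hab : (a * β) ^ 3 = 1)
    (hf : ∀ w, ρ a w = w → ρ β w = w → w = 1) {y : A5} (hy : orderOf y = 3) :
    ∀ w, ρ y w = w → w = 1 := by
  have h1 : ∀ w, ρ a5 w = w → ρ b5 w = w → w = 1 := by
    obtain ⟨g, hg⟩ := conj_b5 b3
    obtain ⟨n, -, e1, e2⟩ := conj_a5 (g * a * g⁻¹)
      (by rw [conj_mul, ← pow_two, ← a2, pow_orderOf_eq_one]; simp)
      (by rintro e; rw [conj_eq_one_iff.1 e] at a2; simp at a2)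
      (by rw [← hg, conj_mul, conj_pow, hab]; simp)
    have := fix_conj (fix_conj hf g) n
    rw [hg, e1] at this
    intro w k1 k2
    obtain e | e := e2 <;> rw [e] at this
    · exact this w k1 k2
    · exact this w k1 (fix_inv k2)
  have h2 : ∀ w, ρ (s5 * a5 * s5⁻¹) w = w → ρ b5 w = w → w = 1 := fun w k1 k2 =>
    fix_conj h1 s5 w k1 (by rw [show s5 * b5 * s5⁻¹ = b5⁻¹ by decide]; exact fix_inv k2)
  have h3 : ∀ w, ρ b5 w = w → w = 1 := fun w hw => by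
    have k : ∀ x y, ρ x (ρ y w) = ρ (x * y) w := fun x y => by rw [map_mul, MulAut.mul_apply]
    have n5 : ∀ g, (((List.range 5).map fun i => g * c5 ^ i).map fun x => ρ x w).prod = 1 :=
      fun g => by
        have := congrArg (ρ g) (hN c5 (Or.inl ord_c5) w).2
        rwa [ord_c5, map_one, map_list_prod, List.map_map, show (ρ g ∘ fun i => ρ (c5 ^ i) w) =
          (fun x => ρ x w) ∘ fun i => g * c5 ^ i from funext fun i => k _ _, ← List.map_map] at this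
    have := prod_eq_one sq (fun x : A5 => ρ x w)
      (fun x => ((x : Equiv.Perm (Fin 5)) 3, (x : Equiv.Perm (Fin 5)) 4)) (fun g g' e => by
        have k0 : ∀ h : A5, (h : Equiv.Perm (Fin 5)) 3 = 3 → (h : Equiv.Perm (Fin 5)) 4 = 4 →
            h = 1 ∨ h = b5 ∨ h = b5⁻¹ := by decide +kernel
        obtain ⟨h, rfl⟩ : ∃ h, g' = g * h := ⟨g⁻¹ * g', by simp⟩
        simp only [Prod.mk.injEq, coe_mul, Equiv.Perm.mul_apply, EmbeddingLike.apply_eq_iff_eq] at e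
        obtain rfl | rfl | rfl := k0 h e.1.symm e.2.symm
        · rw [mul_one]
        · rw [← k, hw]
        · rw [← k, fix_inv hw])
      ([1] ++ [c5, c5 * (s5 * a5 * s5⁻¹), c5 * (b5 * (s5 * a5 * s5⁻¹) * b5⁻¹),
          c5 * (b5⁻¹ * (s5 * a5 * s5⁻¹) * b5)] ++
        [c5 ^ 4, c5 ^ 4 * a5, c5 ^ 4 * (b5 * a5 * b5⁻¹), c5 ^ 4 * (b5⁻¹ * a5 * b5)] ++
        ((List.range 5).map fun i => 1 * c5 ^ i) ++ ((List.range 5).map fun i => b5 * c5 ^ i) ++
        ((List.range 5).map fun i => b5 * b5 * c5 ^ i)) (by decide +kernel)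
    simp only [List.map_append, List.prod_append, n5,
      four_rel sq h1 hw _ (by decide) (by decide) (by decide),
      four_rel sq h2 hw _ (by decide) (by decide) (by decide)] at this
    simpa using this
  obtain ⟨g, hg⟩ := conj_b5 hy
  have := fix_conj (a := b5) (β := b5) (fun w k _ => h3 w k) g⁻¹
  rw [show g⁻¹ * b5 * g⁻¹⁻¹ = y by rw [← hg]; group] at this
  exact fun w k => this w k k

theorem Ext.ord3 {X : Type*} [Group X] (h : Ext X M Q) {π : M →* X}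
    (hπ : ∀ m, π m = 1 ↔ (m : G) ∈ Q) {y : M} (y3 : orderOf (y : G) = 3) : orderOf (π y) = 3 := by
  rw [orderOf_coe] at y3
  refine ord_prime 3 (by rw [← map_pow, ← y3, pow_orderOf_eq_one, map_one]) fun e => ?_
  obtain ⟨n, hn⟩ := isPGroup_iff.1 h.two _ ((hπ y).1 e)
  have := eq_one_of_pow (g := y) (Subtype.ext hn) (y3 ▸ pow_orderOf_eq_one y)
    (Nat.Coprime.pow_left _ (by norm_num))
  rw [this, orderOf_one] at y3
  omega

theorem Ext.fpf_V {V : Subgroup G} (h : Ext (Equiv.Perm (Fin 5)) M Q) (hV : ZV M Q V) {y : G}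
    (hy : y ∈ M) (y3 : orderOf y = 3) : ∀ q ∈ V, q * y = y * q → q = 1 := by
  obtain ⟨π, hs, hπ⟩ := h.hom
  obtain ⟨ρ, h1, h2⟩ := h.rho hV hs hπ
  have hfix : ∀ (m : M) (v : V), ρ (π m) v = v ↔ (v : G) * m = m * v := fun m v => by
    rw [Subtype.ext_iff, h1, mul_inv_eq_iff_eq_mul, eq_comm]
  have h3 := h.ord3 hπ (y := ⟨y, hy⟩) y3
  have h4 : π ⟨y, hy⟩ ∈ alternatingGroup (Fin 5) := by
    have := congrArg Equiv.Perm.sign (h3 ▸ pow_orderOf_eq_one (π ⟨y, hy⟩))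
    rwa [map_pow, map_one, pow_succ, Int.units_sq, one_mul] at this
  intro q hq e
  refine congrArg Subtype.val (cert5 (W := V) (fun w => Subtype.ext (hV.sq w w.2))
    (Nm.comp h2 (alternatingGroup (Fin 5)).subtype Subtype.val_injective) (a := a5) (β := b5)
    (ord_prime 2 (by decide) (by decide)) ord_b5 (by decide) (fun w k1 k2 => ?_)
    (y := ⟨_, h4⟩) (by rw [← orderOf_coe]; exact h3) ⟨q, hq⟩ ((hfix _ _).2 e))
  obtain ⟨m, hm⟩ := hs b5
  obtain ⟨t, ht⟩ := hs (Equiv.swap 3 4)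
  obtain ⟨m3, m4⟩ := (h.p8.sub M).lift3 π (g := m) (by rw [hm, orderOf_coe, ord_b5])
  rw [hm] at m4
  obtain ⟨r, hr, -, -, k3⟩ := h.p8.k12 h.two (y := ((m ^ 4 : M) : G)) (t := t)
    (by rwa [orderOf_coe]) (h.nQ (m ^ 4).2) (h.nQ t.2)
    ⟨1, (hπ (t ^ 2 ^ 1)).1 (by rw [map_pow, ht]; decide)⟩
    ((hπ (cm (m ^ 4) t)).1 (by rw [map_cm, m4, ht]; decide))
  have k4 := (hfix (⟨r, h.le hr⟩ * t) w).2 (k3 w (hV.VQ w.2) ((hfix _ w).1 (m4 ▸ k2)))
  rw [map_mul, (hπ ⟨r, h.le hr⟩).2 hr, one_mul, ht] at k4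
  refine (h2 (a5.1 * b5.1 * (Equiv.swap 3 4 * a5.1 * Equiv.swap 3 4))
    (Or.inl (ord_prime 5 (by decide +kernel) (by decide +kernel))) w).1 ?_
  change ρ a5 w = w at k1
  change ρ b5 w = w at k2
  simp only [map_mul, MulAut.mul_apply, k1, k2, k4]

theorem fpf_aux (n : ℕ) : ∀ (G : Type u) [Group G] [Finite G] (M Q : Subgroup G), Nat.card G = n →
    Ext (Equiv.Perm (Fin 5)) M Q → ∀ y ∈ M, orderOf y = 3 → ∀ q ∈ Q, q * y = y * q → q = 1 := by
  induction n using Nat.strong_induction_on with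
  | _ n ih =>
  intro G _ _ M Q hn h y hy y3 q hq e
  by_cases h1 : Q = ⊥
  · exact mem_bot.1 (h1 ▸ hq)
  obtain ⟨V, hV, -⟩ := exists_om' h.two h1 h.nQ
  haveI := normal_subgroupOf' hV.nV
  refine h.fpf_V hV hy y3 q ?_ e
  have hlt : Nat.card (M ⧸ V.subgroupOf M) < n := by
    have h2 := card_eq_card_quotient_mul_card_subgroup (V.subgroupOf M)
    rw [Nat.card_congr (subgroupOfEquivOfLe (hV.VQ.trans h.le)).toEquiv] at h2
    have h3 : 1 < Nat.card V := (one_lt_card_iff_ne_bot V).2 hV.V1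
    have h4 : Nat.card M ≤ n := hn ▸ card_le_card_group M
    have h5 : 0 < Nat.card (M ⧸ V.subgroupOf M) := Nat.card_pos
    nlinarith
  have h2 : Ext (M ⧸ V.subgroupOf M) M V := ⟨h.p8, hV.pg, hV.VQ.trans h.le,
    QuotientGroup.mk' _, QuotientGroup.mk'_surjective _, fun m => QuotientGroup.eq_one_iff m⟩
  exact (QuotientGroup.eq_one_iff (N := V.subgroupOf M) ⟨q, h.le hq⟩).1
    (ih _ hlt _ _ _ rfl (h.quot hV.VQ) (QuotientGroup.mk' _ ⟨y, hy⟩) (mem_top _)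
      (h2.ord3 (fun m => QuotientGroup.eq_one_iff m) y3) _ ⟨⟨q, h.le hq⟩, hq, rfl⟩
      (congrArg (QuotientGroup.mk' (V.subgroupOf M))
        (show (⟨q, h.le hq⟩ * ⟨y, hy⟩ : M) = ⟨y, hy⟩ * ⟨q, h.le hq⟩ from Subtype.ext e)))

/-- Induction on the order; for `q ∈ Ω₁(Z(Q))` use `cert5`. -/
theorem Ext.fpf_S5 (h : Ext (Equiv.Perm (Fin 5)) M Q) {y : G} (hy : y ∈ M) (y3 : orderOf y = 3) :
    ∀ q ∈ Q, q * y = y * q → q = 1 :=
  fpf_aux _ G M Q rfl h y hy y3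

theorem Ext.hf_of {X : Type*} [Group X] (h : Ext X M Q) (h5 : ∃ x : X, orderOf x = 5)
    (hi : ∀ t : X, t * t = 1 → t ≠ 1 → ∃ x : X, t * x * t⁻¹ * x = 1 ∧ (orderOf x = 5 ∨
      (orderOf x = 3 ∧ ∀ y ∈ M, orderOf y = 3 → ∀ q ∈ Q, q * y = y * q → q = 1))) : Hf M Q := by
  obtain ⟨π, hs, hπ⟩ := h.hom
  refine ⟨fun V hV a ha a1 a2 => ?_, fun V hV nV => ?_⟩
  · obtain ⟨x, e, hx⟩ := hi (π ⟨a, ha⟩) (by rw [← map_mul]; exact (hπ _).2 a2)
      fun e => a1 ((hπ _).1 e)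
    obtain ⟨y, rfl⟩ := hs x
    suffices ∃ y' : M, π y' = π y ∧ Odd (orderOf (y' : G)) ∧
        ∀ v ∈ Q, v * y' = y' * v → v = 1 by
      obtain ⟨y', k1, k2, k3⟩ := this
      exact half_of_inv hV.cV hV.sq (hV.nV ha) (hV.nV y'.2) k2
        ((hπ (⟨a, ha⟩ * y' * ⟨a, ha⟩⁻¹ * y')).1 (by simpa only [map_mul, map_inv, k1] using e))
        fun v hv => k3 v (hV.VQ hv)
    obtain hx | ⟨hx, k⟩ := hx
    · have := (h.p8.sub M).lift57 π (Or.inl rfl) hx
      rw [← orderOf_coe] at this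
      exact ⟨y, rfl, by rw [this]; decide, fun v hv => h.p8.fpf (Or.inl this) h.two hv⟩
    · obtain ⟨k1, k2⟩ := (h.p8.sub M).lift3 π hx
      rw [← orderOf_coe] at k1
      exact ⟨y ^ 4, k2, by rw [k1]; decide, k _ (y ^ 4).2 k1⟩
  · obtain ⟨x, hx⟩ := h5
    obtain ⟨y, rfl⟩ := hs x
    exact h.p8.mod15 (h.two.to_le hV) (x := y)
      (by rw [orderOf_coe]; exact (h.p8.sub M).lift57 π (Or.inl rfl) hx) (nV y.2)

/-- `half_of_inv` with `inv5_A5` (lift with `P8.lift57`, `P8.fpf`), `P8.mod15` -/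
theorem Ext.hf5 (h : Ext A5 M Q) : Hf M Q :=
  h.hf_of ⟨c5, ord_c5⟩ fun t h1 h2 => (inv5_A5 t h1 h2).imp fun _ k => ⟨k.2, Or.inl k.1⟩

theorem Ext.hf6 (h : Ext A6 M Q) : Hf M Q :=
  h.hf_of (aut5_A6.imp fun _ k => k.choose_spec.1) fun t h1 h2 =>
    (inv5_A6 t h1 h2).imp fun _ k => ⟨k.2, Or.inl k.1⟩

/-- `half_of_inv` with `inv3_S5`, `Ext.fpf_S5` -/
theorem Ext.hfS (h : Ext (Equiv.Perm (Fin 5)) M Q) : Hf M Q :=
  h.hf_of ⟨c5, by rw [orderOf_coe, ord_c5]⟩ fun t h1 h2 =>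
    (inv3_S5 t h1 h2).imp fun _ k => ⟨k.2, Or.inr ⟨k.1, fun _ => h.fpf_S5⟩⟩

/-- The preimage of `A₅` is a CIT-group; `CIT.elemAb_of_L2` with `S0252`. -/
theorem Ext.ea_S5 (h : Ext (Equiv.Perm (Fin 5)) M Q) (h1 : Q ≠ ⊥) : ZV M Q Q := by
  obtain ⟨M', hM, h'⟩ := h.sub (alternatingGroup (Fin 5)).subtype Subtype.val_injective
  obtain ⟨π, hs, hπ⟩ := h'.hom
  haveI := normal_subgroupOf' h'.nQ
  have hc : CIT.IsCIT M' := fun t ht g => ⟨3, by
    have c := mem_c1.1 g.2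
    have h24 := (h.p8.sub M').c2 ht c.symm
    have t2 : t * t = 1 := by rw [← pow_two, ← ht, pow_orderOf_eq_one]
    refine Subtype.ext (by_contra fun e => ?_)
    change ¬ (g : M') ^ 8 = 1 at e
    have y3 : orderOf ((g : M') ^ 8) = 3 := ord_prime 3 (by rw [← pow_mul, h24]) e
    have c' : Commute t ((g : M') ^ 8) := Commute.pow_right c.symm 8
    generalize (g : M') ^ 8 = y at e y3 c'
    have k : ∀ g : A5, g ^ 6 = 1 → g ^ 2 = 1 ∨ g ^ 3 = 1 := by decide +kernel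
    have y1 : y ^ 3 = 1 := y3 ▸ pow_orderOf_eq_one y
    have k1 : (t * y) ^ 2 = y ^ 2 := by rw [c'.mul_pow, pow_two, t2, one_mul]
    have k2 : (t * y) ^ 3 = t := by rw [c'.mul_pow, y1, mul_one, pow_succ, pow_two, t2, one_mul]
    rw [← orderOf_coe] at y3
    have k3 := h'.ord3 hπ y3
    obtain k4 | k4 := k (π (t * y)) (by
      rw [← map_pow, show 6 = 3 * 2 by norm_num, pow_mul, k2, pow_two, t2, map_one])
    · rw [← map_pow, k1, map_pow] at k4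
      have := orderOf_dvd_of_pow_eq_one k4
      rw [k3] at this
      omega
    · rw [← map_pow, k2] at k4
      have := h.fpf_S5 (hM y.2) y3 _ ((hπ t).1 k4) (congrArg Subtype.val c'.eq)
      rw [show t = 1 from Subtype.ext this, orderOf_one] at ht
      omega⟩
  letI : Fintype (GaloisField 2 2) := Fintype.ofFinite _
  have hF : Fintype.card (GaloisField 2 2) = 2 ^ 2 := by
    rw [← Nat.card_eq_fintype_card, GaloisField.card 2 2 (by norm_num)]
  obtain ⟨e⟩ := S0252.result hF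
  obtain ⟨k1, k2⟩ := CIT.elemAb_of_L2 hc (Q.subgroupOf M') h.two.comap_subtype
    ⟨GaloisField 2 2, inferInstance, inferInstance, 2, le_rfl, hF,
      ⟨((QuotientGroup.quotientMulEquivOfEq (Subgroup.ext fun m => (hπ m).symm)).trans
        (QuotientGroup.quotientKerEquivOfSurjective π hs)).trans e.symm⟩⟩
  exact ⟨le_rfl, h1, h.nQ, fun a ha => mem_cent.2 fun b hb => congrArg (fun x : Q.subgroupOf M' => ((x : M') : G))
    (k1.1.1 (⟨⟨b, h'.le hb⟩, hb⟩ : Q.subgroupOf M') ⟨⟨a, h'.le ha⟩, ha⟩),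
    fun v hv => congrArg Subtype.val (k2 ⟨v, h'.le hv⟩ hv)⟩

/-- no elements of order 3 (`fpf_S5`), 5, 7 (`P8.fpf`) -/
theorem Ext.stab_S5 (h : Ext (Equiv.Perm (Fin 5)) M Q) {z : G} (hz : z ∈ Q) (z1 : z ≠ 1) :
    IsPGroup 2 ↥(M ⊓ 𝐜[z]) := by
  refine isPGroup_iff.2 fun g hg => ⟨3, h.p8.pow_of fun k _ _ e => ?_⟩
  have c := (mem_c1.1 hg.2).symm
  have h3 : orderOf g ≠ 3 := fun e => z1 (h.fpf_S5 hg.1 e z hz c)
  have h57 : ¬ (orderOf g = 5 ∨ orderOf g = 7) := fun e => z1 (h.p8.fpf e h.two hz c)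
  have h6 : orderOf g ≠ 6 := fun e => z1 (h.fpf_S5 (pow_mem hg.1 2)
    (by rw [orderOf_pow' _ two_ne_zero, e]; norm_num) z hz (Commute.pow_right c 2))
  interval_cases k <;> omega

end Cfsg.Agent.Eo8
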