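import Mathlib
import Cfsg.Agent.Eo8.Loc
import Cfsg.Agent.S3703
import Cfsg.Agent.Grp.Fitting

/-!
# Solvable subgroups of characteristic two: 3-closure
-/

set_option autoImplicit false
set_option linter.unusedSectionVars false

namespace Cfsg.Agent.Eo8

open Subgroup Cfsg PLocal.Amb
open Cfsg.Agent.PLocal.CP (IsCharP)
open scoped MatrixGroups

universe u

variable {G : Type*} [Group G] [Finite G]

/-! Notation as in `Eo8/Loc`: `R = 𝐑[X]`, `X̄ = X ⧸ R`, `F = F(X̄)` is nilpotent of odd order with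
`C(F) ≤ F`. -/

variable {X : Subgroup G}

/-- Common step.  By `P8.k12` replace `τ` by `τ' ∈ R τ` commuting with `y`.  `D = R ⊓ 𝐜[y]` is
abelian, centralized by `τ'`, normalized by `e`; `τ' e τ'⁻¹ e ∈ R ⊓ 𝐜[y] = D`.  So `e ^ 2` and hence
`e` centralizes `D`. -/
theorem P8.cent_D (h : P8 G) {R : Subgroup G} (hR : IsPGroup 2 R) {y e τ : G} (hy : orderOf y = 3)
    (he : orderOf e = 3) (c : e * y = y * e) (yR : y ∈ 𝐍[R]) (eR : e ∈ 𝐍[R]) (tR : τ ∈ 𝐍[R])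
    (t2 : τ * τ ∈ R) (e1 : cm y τ ∈ R) (e2 : τ * e * τ⁻¹ * e ∈ R) : R ⊓ 𝐜[y] ≤ 𝐜[e] := by
  obtain ⟨r, hr, h1, -, h3⟩ := h.k12 hR hy yR tR ⟨1, by rwa [pow_one, pow_two]⟩ e1
  intro d hd
  have hw : r * τ * e * (r * τ)⁻¹ * e ∈ R := by
    rw [show r * τ * e * (r * τ)⁻¹ * e = r * (τ * e * τ⁻¹ * e) * (e⁻¹ * r⁻¹ * e) by group]
    exact mul_mem (mul_mem hr e2) (inv_conj_mem_of_mem_normalizer eR (inv_mem hr))
  generalize r * τ = t at h1 h3 hw
  have ct : Commute t y := h1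
  have ce : Commute e y := c
  have cd : Commute d y := mem_c1.1 hd.2
  have h4 := h.comm3 hy hR hw hd.1 (((ct.mul_left ce).mul_left ct.inv_left).mul_left ce) cd
  have cj : ∀ x ∈ R, Commute x y → e * x * e⁻¹ ∈ R ∧ Commute (e * x * e⁻¹) y := fun x h1 h2 =>
    ⟨conj_mem_of_mem_normalizer eR h1, (ce.mul_left h2).mul_left ce.inv_left⟩
  obtain ⟨a1, a2⟩ := cj d hd.1 cd
  obtain ⟨b1, b2⟩ := cj _ a1 a2
  have h5 := h3 _ a1 a2
  have h6 := h3 _ b1 b2
  have h7 : e * e * d = d * (e * e) := by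
    have h8 : e * (e * d * e⁻¹) * e⁻¹ = d := by
      calc e * (e * d * e⁻¹) * e⁻¹ = t * (e * (e * d * e⁻¹) * e⁻¹) * t⁻¹ := by rw [← h6]; group
        _ = t * e * t⁻¹ * (t * (e * d * e⁻¹)) * e⁻¹ * t⁻¹ := by group
        _ = t * e * t⁻¹ * e * d * (t * e * t⁻¹ * e)⁻¹ := by rw [← h5]; group
        _ = d := by rw [h4]; group
    calc e * e * d = e * (e * d * e⁻¹) * e⁻¹ * (e * e) := by group
      _ = _ := by rw [h8]
  have h9 : (e * e) ^ 2 = e := by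
    rw [← pow_two, ← pow_mul, show 2 * 2 = 3 + 1 from rfl, pow_succ, ← he, pow_orderOf_eq_one,
      one_mul]
  rw [mem_c1, ← h9]
  exact ((show Commute (e * e) d from h7).symm.pow_right 2).eq

section Aux

open scoped commutatorElement

theorem n3_pow3 {g : G} (h : orderOf g = 3) : g ^ 3 = 1 := h ▸ pow_orderOf_eq_one g

theorem n3_ne {g : G} (h : orderOf g = 3) : g ≠ 1 := fun e => by simp [e] at h

theorem n3_p3 {g : G} (h : g ^ 3 = 1) : IsPGroup 3 (zpowers g) :=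
  isPGroup_zpowers ⟨1, by rwa [pow_one]⟩

theorem P8.n3_pow (h : P8 G) {g : G} {k : ℕ} (hk : k = 3 ∨ k = 6) (h3 : k ∣ orderOf g) :
    g ^ 6 = 1 := h.pow_of fun j _ _ e => by
  rw [e] at h3
  rcases hk with rfl | rfl <;> interval_cases j <;> omega

theorem n3_odd {F : Subgroup G} (hF : Odd (Nat.card F)) {g : G} (hg : g ∈ F) {a b : ℕ}
    (h : g ^ (2 ^ a * b) = 1) : g ^ b = 1 :=
  orderOf_dvd_iff_pow_eq_one.1 (((Nat.coprime_two_right.2
    (hF.of_dvd_nat (orderOf_dvd_natCard F hg))).pow_right a).dvd_of_dvd_mul_left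
      (orderOf_dvd_of_pow_eq_one h))

theorem n3_two {F : Subgroup G} (hF : Odd (Nat.card F)) {g : G} (hg : g ∈ F) (h : g * g = 1) :
    g = 1 := by simpa using n3_odd hF hg (a := 1) (b := 1) (by simpa [pow_two] using h)

theorem n3_mem {a y : G} (hy : orderOf y = 3) (ha : a ∈ zpowers y) (h1 : a ≠ 1) :
    y ∈ zpowers a := by
  have h2 : orderOf a = 3 := ((Nat.dvd_prime Nat.prime_three).1
    (hy ▸ orderOf_dvd_of_mem_zpowers ha)).resolve_left (mt orderOf_eq_one_iff.1 h1)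
  have h3 : zpowers a = zpowers y := eq_of_le_of_card_ge (zpowers_le.2 ha) (by
    rw [Nat.card_zpowers, Nat.card_zpowers, hy, h2])
  exact h3 ▸ mem_zpowers y

theorem n3_norm {K : Subgroup G} {g : G} (h : ∀ r ∈ K, g * r * g⁻¹ ∈ K) : g ∈ 𝐍[K] :=
  mem_normalizer_of_cj_le (cj_le_iff_forall.2 h)

theorem n3_top (U : Subgroup G) [U.Normal] (g : G) : g ∈ 𝐍[U] :=
  le_normalizer_of_normal (mem_top g)

/-- a Frobenius group with cyclic complement acting on a nilpotent group -/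
theorem n3_frob {U K : Subgroup G} (hU : Group.IsNilpotent U) (KU : K ≤ 𝐍[U]) {g : G}
    (gU : g ∈ 𝐍[U]) (gK : g ∈ 𝐍[K]) {n : ℕ} (hn : 0 < n)
    (hf : ∀ i, 0 < i → i < n → ∀ k ∈ K, k * g ^ i = g ^ i * k → k = 1)
    (hc : (Nat.card U).Coprime (Nat.card K)) (hp : ∀ v ∈ U, (v * g) ^ n = 1) : K ≤ 𝐂[U] := by
  have h1 : ⁅U, K⁆ ≤ U := le_normalizer_iff_commutator_le_left.1 KU
  have h5 := S3703.comm_le_der (U := ⁅U, K⁆) (R := K) (Solv.le_normalizer_commutator_right U K)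
    (g := g) (le_normalizer_commutator (zpowers_le.2 gU) (zpowers_le.2 gK) (mem_zpowers g)) gK hn
    (fun i h0 hi => eq_bot_iff.2 fun k hk => hf i h0 hi k hk.1 (mem_c1.1 hk.2))
    (hc.coprime_dvd_left (card_dvd_of_le h1)) fun v hv => hp v (h1 hv)
  rw [Solv.coprime_commutator_commutator K U KU hc.symm (Or.inr inferInstance)] at h5
  have h6 := Solv.eq_bot_of_le_commutator_of_isNilpotent hU h1 h1 h5
  rw [commutator_comm] at h6
  exact commutator_eq_bot_iff_le_centralizer.1 h6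

theorem n3_exp3 {P : Subgroup G} (h : ∀ x ∈ P, x ^ 3 = 1) {x g : G} (hx : x ∈ P) (hg : g ∈ P) :
    Commute x (g * x * g⁻¹) := by
  have e : ∀ k ∈ P, x * k * x = k⁻¹ * x⁻¹ * k⁻¹ := fun k hk => by
    calc x * k * x = (x * k) ^ 3 * (k⁻¹ * x⁻¹ * k⁻¹) := by
          simp only [pow_succ, pow_zero, one_mul]; group
      _ = _ := by rw [h _ (mul_mem hx hk), one_mul]
  have e3 : g * g = g⁻¹ := eq_inv_of_mul_eq_one_left (by rw [← h g hg]; simp [pow_succ])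
  calc x * (g * x * g⁻¹) = x * g * x * g⁻¹ := by group
    _ = g⁻¹ * x⁻¹ * (g * g)⁻¹ := by rw [e g hg]; group
    _ = g * g * x⁻¹ * g := by rw [e3, inv_inv]
    _ = g * (x * g⁻¹ * x) := by rw [e _ (inv_mem hg)]; group
    _ = _ := by group

/-- `π : H → W = H / O₂(H)`, `F = F(W)` -/
structure N3S {H W : Type*} [Group H] [Group W] (π : H →* W) (F : Subgroup W) : Prop where
  p8 : P8 H
  surj : Function.Surjective π
  two : IsPGroup 2 π.ker
  cR : 𝐂[π.ker] ≤ π.ker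
  c3 : ∀ t : H, π t ≠ 1 → π (t * t) = 1 → ∀ P : Subgroup H, IsPGroup 3 P →
    (∀ y ∈ P, π (cm y t) = 1) → Nat.card P ≤ 3
  nF : F.Normal
  nil : Group.IsNilpotent F
  odd : Odd (Nat.card F)
  cF : 𝐂[F] ≤ F

theorem n3_lift {W : Type*} [Group W] [Finite W] {π : G →* W} (hπ : Function.Surjective π) {q : ℕ}
    [Fact q.Prime] {Q : Subgroup W} (hQ : IsPGroup q Q) {Y : Subgroup G} (hY : IsPGroup q Y)
    (h : Y ≤ Q.comap π) : ∃ P : Subgroup G, IsSyl q P (Q.comap π) ∧ Y ≤ P ∧ P.map π = Q := by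
  obtain ⟨P, h1, h2⟩ := exists_isSyl_ge hY h
  have h3 := h1.map π
  rw [map_comap_eq_self_of_surjective hπ] at h3
  exact ⟨P, h1, h2, (h3.eq hQ h3.le le_rfl).symm⟩

namespace N3S

variable {H W : Type*} [Group H] [Finite H] [Group W] [Finite W] {π : H →* W} {F : Subgroup W}
  (h : N3S π F)
include h

theorem p8' : P8 W := h.p8.of_surj π h.surj

theorem eq_one {q : ℕ} [Fact q.Prime] (hq : q ≠ 2) {P : Subgroup H} (hP : IsPGroup q P) {x : H}
    (hx : x ∈ P) (e : π x = 1) : x = 1 :=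
  mem_bot.1 ((disjoint_iff.1 (IsPGroup.disjoint_of_ne q 2 hq _ _ hP h.two)).le ⟨hx, e⟩)

theorem ord3 {y : H} (hy : orderOf y = 3) : orderOf (π y) = 3 :=
  ord_prime 3 (by rw [← map_pow, n3_pow3 hy, map_one]) fun e =>
    n3_ne hy (h.eq_one (by norm_num) (n3_p3 (n3_pow3 hy)) (mem_zpowers y) e)

/-- `C_F(τ) ≤ ⟨y⟩` -/
theorem cent {τ y : W} (t1 : τ ≠ 1) (t2 : τ * τ = 1) (hy : orderOf y = 3) (c : Commute y τ) :
    F ⊓ 𝐜[τ] ≤ zpowers y := by
  have := h.nF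
  have h1 : IsPGroup 3 ↥(F ⊓ 𝐜[τ]) := Grp.isPGroup_of_pow_eq_one fun x hx =>
    n3_odd h.odd hx.1 (a := 3)
      (h.p8'.c2 (ord_prime 2 (by rwa [pow_two]) t1) (mem_c1.1 hx.2).symm)
  have h2 := isPGroup_sup (n3_p3 (n3_pow3 hy)) h1 (zpowers_le.2 (n3_norm fun r hr =>
    ⟨this.conj_mem r hr.1 y, mem_c1.2
      ((c.mul_left (mem_c1.1 hr.2 : Commute r τ)).mul_left c.inv_left)⟩))
  have h3 : zpowers y ⊔ F ⊓ 𝐜[τ] ≤ 𝐜[τ] := sup_le (zpowers_le.2 (mem_c1.2 c)) inf_le_right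
  obtain ⟨P, hP, -, e⟩ := n3_lift h.surj h2 (Y := ⊥) IsPGroup.of_bot bot_le
  obtain ⟨t, rfl⟩ := h.surj τ
  have h4 := h.c3 t t1 (by rwa [map_mul]) P hP.pgrp fun x hx => by
    rw [map_cm, cm_eq_one]
    exact mem_c1.1 (h3 (hP.le hx))
  have h5 : zpowers y = zpowers y ⊔ F ⊓ 𝐜[π t] := eq_of_le_of_card_ge le_sup_left (by
    rw [Nat.card_zpowers, hy, ← e]
    exact (Nat.le_of_dvd Nat.card_pos (card_map_dvd P π)).trans h4)
  exact le_sup_right.trans h5.ge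

theorem inv {τ y : W} (t1 : τ ≠ 1) (t2 : τ * τ = 1) (hy : orderOf y = 3) (c : Commute y τ)
    (yF : y ∉ F) : ∀ f ∈ F, τ * f * τ⁻¹ = f⁻¹ := fun f hf => by
  have := h.nF
  have h1 := MonoidHom.FixedPointFree.coe_eq_inv_of_involutive (φ := MulAut.conjNormal (H := F) τ)
    (fun g hg => by_contra fun g1 => yF (zpowers_le.2 g.2 (n3_mem hy (h.cent t1 t2 hy c
      ⟨g.2, mem_c1.2 (mul_inv_eq_iff_eq_mul.1 (congrArg Subtype.val hg)).symm⟩)
        fun e => g1 (Subtype.ext e))))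
    (fun g => by rw [← MulAut.mul_apply, ← map_mul, t2, map_one, MulAut.one_apply])
  exact congrArg Subtype.val (congrFun h1 ⟨f, hf⟩)

theorem exp3 {τ y : W} (t1 : τ ≠ 1) (t2 : τ * τ = 1) (hy : orderOf y = 3) (c : Commute y τ)
    (yF : y ∉ F) : ∀ f ∈ F, f ^ 3 = 1 := by
  have := h.nF
  have h1 := h.inv t1 t2 hy c yF
  have ab : ∀ a ∈ F, ∀ b ∈ F, Commute a b := fun a ha b hb => by
    have h2 := h1 _ (mul_mem ha hb)
    rw [← conj_mul, h1 a ha, h1 b hb, mul_inv_rev] at h2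
    exact Commute.inv_inv_iff.1 h2
  suffices H : ∃ e ∈ F, e ≠ 1 ∧ Commute e y by
    obtain ⟨e, he, e1, ce⟩ := H
    have e3 := ord_prime 3 (n3_odd h.odd he (a := 1) (h.p8'.c3 hy ce.symm)) e1
    exact fun f hf => n3_odd h.odd hf (a := 1) (h.p8'.c3 e3 (ab e he f hf))
  by_contra! hc
  have hF : F ≠ ⊥ := fun e => yF (h.cF (mem_cent.2 fun u hu => by
    rw [mem_bot.1 (e.le hu), one_mul, mul_one]))
  obtain ⟨q, hq, hd⟩ := Nat.exists_prime_and_dvd (mt card_eq_one.1 hF)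
  have := Fact.mk hq
  have q2 : q ≠ 2 := by
    rintro rfl
    exact (Nat.not_even_iff_odd.2 h.odd) (even_iff_two_dvd.2 hd)
  let Q : Subgroup W :=
    { carrier := {f | f ∈ F ∧ f ^ q = 1}
      one_mem' := ⟨one_mem _, one_pow _⟩
      mul_mem' := fun {a b} ha hb => ⟨mul_mem ha.1 hb.1, by
        rw [(ab a ha.1 b hb.1).mul_pow, ha.2, hb.2, one_mul]⟩
      inv_mem' := fun {a} ha => ⟨inv_mem ha.1, by rw [inv_pow, ha.2, inv_one]⟩ }
  obtain ⟨K, hK, -, e⟩ := n3_lift h.surj (Q := Q) (Grp.isPGroup_of_pow_eq_one fun x hx => hx.2)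
    (Y := ⊥) IsPGroup.of_bot bot_le
  obtain ⟨g, gK, hg⟩ : ∃ g ∈ 𝐍[K], π g = τ * y := by
    obtain ⟨g, hg⟩ := h.surj (τ * y)
    obtain ⟨n, hn, x, hx, rfl⟩ := hK.frattini (g := g) (n3_norm fun r hr => by
      refine ⟨?_, ?_⟩
      · simpa using ‹F.Normal›.conj_mem _ hr.1 (π g)
      · rw [map_mul, map_mul, map_inv, conj_pow, show π r ^ q = 1 from hr.2]; group)
    obtain ⟨r, hr, e'⟩ := e.ge hn
    exact ⟨r * x, mul_mem (le_normalizer hr) hx, by rw [map_mul, e', ← map_mul, hg]⟩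
  have y3 := n3_pow3 hy
  have t2' : τ ^ 2 = 1 := by rwa [pow_two]
  have o6 : orderOf (τ * y) = 6 := by
    rw [c.symm.orderOf_mul_eq_mul_orderOf_of_coprime (by
      rw [hy, ord_prime 2 t2' t1]; norm_num), hy, ord_prime 2 t2' t1]
  have h3 := n3_frob (U := π.ker) (K := K) h.two.isNilpotent (fun x _ => n3_top _ x) (n3_top _ g)
    gK (n := 6) (by norm_num) (fun i h0 hi k hk ck => h.eq_one q2 hK.pgrp hk ?_)
    (IsPGroup.coprime_card_of_ne 2 q q2.symm _ _ h.two hK.pgrp) fun v hv =>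
      h.p8.n3_pow (Or.inr rfl) (by
        have := orderOf_map_dvd π (v * g)
        rwa [map_mul, (hv : π v = 1), one_mul, hg, o6] at this)
  · obtain ⟨x, hx⟩ := exists_prime_orderOf_dvd_card' q hd
    obtain ⟨k, hk, e'⟩ := e.ge (show (x : W) ∈ Q from ⟨x.2, by
      rw [← coe_pow, ← hx, pow_orderOf_eq_one, coe_one]⟩)
    have h4 : x = 1 := Subtype.ext (e'.symm.trans (h.cR (h3 hk)))
    rw [h4, orderOf_one] at hx
    exact hq.one_lt.ne hx
  · have kF : π k ∈ F := (hK.le hk).1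
    have h4 : Commute (π k) ((τ * y) ^ i) := by
      rw [← hg, ← map_pow]; exact (show Commute k (g ^ i) from ck).map π
    have h5 : ∀ j, Commute (π k) (τ ^ (i * j) * y ^ (i * j)) := fun j => by
      rw [← c.symm.mul_pow, pow_mul]; exact h4.pow_right j
    by_contra k1
    rcases Nat.even_or_odd' i with ⟨m, rfl | rfl⟩
    · refine hc _ kF k1 ?_
      have h6 := h5 (2 * m)
      rwa [mul_assoc, pow_mul τ, t2', one_pow, one_mul, pow_eq_pow_mod _ y3,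
        show 2 * (m * (2 * m)) % 3 = 1 by
          obtain rfl | rfl : m = 1 ∨ m = 2 := by omega
          all_goals rfl, pow_one] at h6
    · have h6 := h5 3
      rw [mul_comm _ 3, pow_mul y, y3, one_pow, mul_one, pow_eq_pow_mod _ t2',
        show 3 * (2 * m + 1) % 2 = 1 by omega, pow_one] at h6
      have h7 := h1 _ kF
      rw [← h6.eq, mul_inv_cancel_right] at h7
      exact k1 (n3_two h.odd kF (by nth_rw 2 [h7]; exact mul_inv_cancel _))

/-- an element of order three centralized by an involution lies in `F` -/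
theorem memF {τ : W} (t1 : τ ≠ 1) (t2 : τ * τ = 1) {y : H} (hy : orderOf y = 3)
    (c : Commute (π y) τ) : π y ∈ F := by
  by_contra yF
  have := h.nF
  have y3 := h.ord3 hy
  obtain ⟨P, hP, yP, e⟩ := n3_lift h.surj (isPGroup_sup (n3_p3 (n3_pow3 y3))
    (Grp.isPGroup_of_pow_eq_one (h.exp3 t1 t2 y3 c yF)) fun x _ => n3_top F x) (n3_p3 (n3_pow3 hy))
    (zpowers_le.2 (mem_sup_left (mem_zpowers _)))
  replace yP := yP (mem_zpowers y)
  obtain ⟨v, vP, vF, hv⟩ : ∃ v ∈ P, π v ∈ F ∧ π v * π y ≠ π y * π v := by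
    by_contra! H
    refine yF (h.cF (mem_cent.2 fun u hu => ?_))
    obtain ⟨v, hv, rfl⟩ := e.ge (mem_sup_right hu)
    exact H v hv hu
  have P3 : ∀ x ∈ P, x ^ 3 = 1 := fun x hx => h.p8.three hP.pgrp hx
  have eF : π (cm v y) ∈ F := by rw [map_cm]; exact cm_mem vF (n3_top F _)
  have e1 : π (cm v y) ≠ 1 := by rwa [map_cm, Ne, cm_eq_one]
  have cv : Commute (cm v y) v :=
    ((Commute.refl v).inv_left.mul_left (n3_exp3 P3 vP yP).symm :)
  have ev : v⁻¹ * y * v = cm v y * y := by simp only [cm]; group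
  have cy : Commute (cm v y) y := by
    have h1 := n3_exp3 P3 yP (inv_mem vP)
    rw [inv_inv, ev] at h1
    simpa using h1.symm.mul_left (Commute.refl y).inv_left
  have e3 : orderOf (cm v y) = 3 := ord_prime 3 (P3 _ (cm_mem vP (le_normalizer yP)))
    fun e => e1 (by rw [e, map_one])
  generalize cm v y = e at eF e1 cv ev cy e3
  obtain ⟨t, rfl⟩ := h.surj τ
  have h1 := h.p8.cent_D h.two hy e3 cy (n3_top _ y) (n3_top _ e) (n3_top _ t)
    (by rwa [MonoidHom.mem_ker, map_mul]) (by rwa [MonoidHom.mem_ker, map_cm, cm_eq_one]) (by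
      rw [MonoidHom.mem_ker, map_mul, map_mul, map_mul, map_inv, h.inv t1 t2 y3 c yF _ eF,
        inv_mul_cancel])
  have h2 : ∀ k : ℕ, π.ker ⊓ 𝐜[y * e ^ k] ≤ 𝐜[e] := fun k => by
    induction k with
    | zero => simpa using h1
    | succ k ih =>
      intro d hd
      have e4 : y * e ^ k = v * (y * e ^ (k + 1)) * v⁻¹ := by
        calc y * e ^ k = y * (e ^ k * v) * v⁻¹ := by group
          _ = v * (v⁻¹ * y * v * e ^ k) * v⁻¹ := by rw [(cv.pow_left k).eq]; group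
          _ = _ := by rw [ev, cy.eq, pow_succ', mul_assoc y]
      have h3 := mem_c1.1 (ih (x := v * d * v⁻¹) ⟨π.normal_ker.conj_mem d hd.1 v, mem_c1.2 (by
        rw [e4, conj_mul, conj_mul, mem_c1.1 hd.2])⟩)
      rw [show e = v * e * v⁻¹ by rw [← cv.eq, mul_inv_cancel_right], conj_mul, conj_mul] at h3
      exact mem_c1.2 (by simpa using h3)
  have h3 := le_of_e9 (K := 𝐜[e]) h.two hy e3 cy.symm (fun he => yF (zpowers_le.2 eF
    (n3_mem y3 (by rw [← MonoidHom.map_zpowers]; exact mem_map_of_mem π he) e1)))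
    (n3_top _ y) (n3_top _ e) fun i j hij d hd => ?_
  · exact e1 (h.cR (mem_cent.2 fun u hu => mem_c1.1 (h3 hu)))
  have cd : Commute d (y ^ i * e ^ j) := mem_c1.1 hd.2
  by_cases hi : i % 3 = 0
  · rw [pow_eq_pow_mod _ (n3_pow3 hy), hi, pow_zero, one_mul] at hij cd
    obtain ⟨k, hk⟩ := n3_mem e3 (pow_mem (mem_zpowers e) j) hij
    exact mem_c1.2 (by simpa only [hk] using (cd.zpow_right k).eq)
  · refine h2 (j * i) ⟨hd.1, mem_c1.2 ?_⟩
    have h4 := cd.pow_right i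
    rwa [(cy.symm.pow_pow i j).mul_pow, ← pow_mul, ← pow_mul, pow_eq_pow_mod _ (n3_pow3 hy),
      show i * i % 3 = 1 by
        rw [Nat.mul_mod]
        obtain e | e : i % 3 = 1 ∨ i % 3 = 2 := by omega
        all_goals rw [e], pow_one] at h4

theorem closed {y : H} (hy : orderOf y = 3) {B : Subgroup W} (hB : IsPGroup 2 B)
    (nB : π y ∈ 𝐍[B]) : ∀ b ∈ B, cm b (π y) = 1 := by
  have := h.nF
  have od : ∀ {V : Subgroup W}, IsPGroup 2 V → ∀ x ∈ V, x ∈ F → x = 1 := fun hV x h1 h2 => by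
    obtain ⟨k, hk⟩ := isPGroup_iff.1 hV x h1
    simpa using n3_odd h.odd h2 (a := k) (b := 1) (by rwa [mul_one])
  by_contra! hc
  obtain ⟨b, hb, b1⟩ := hc
  have yF : π y ∉ F := fun yF => b1 (od hB _ (cm_mem hb nB) (cm_mem' (n3_top F b) yF))
  obtain ⟨V, hV, -⟩ := exists_min (M := zpowers (π y)) hB (fun e => b1 (by
    rw [e] at hb
    rw [mem_bot.1 hb, cm_eq_one, one_mul, mul_one])) (zpowers_le.2 nB)
  have y3 := h.ord3 hy
  have h1 := n3_frob (U := F) (K := V) h.nil (fun x _ => n3_top F x) (n3_top F (π y))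
    (hV.nV (mem_zpowers _)) (n := 3) (by norm_num) (fun i h0 hi k hk c => by_contra fun k1 => ?_)
    (by
      obtain ⟨n, hn⟩ := hV.pg.exists_card_eq
      rw [hn]
      exact (Nat.coprime_two_right.2 h.odd).pow_right n) fun v hv => ?_
  · exact hV.V1 (eq_bot_iff.2 fun x hx => od hV.pg x hx (h.cF (h1 hx)))
  · obtain ⟨j, hj⟩ := n3_mem y3 (pow_mem (mem_zpowers _) i)
      (pow_ne_one_of_lt_orderOf h0.ne' (by rwa [y3]))
    refine yF (h.memF k1 (hV.sq k hk) hy ?_)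
    simpa only [hj] using ((show Commute k _ from c).zpow_right j).symm
  · have e1 : (QuotientGroup.mk' F) (v * π y) = QuotientGroup.mk' F (π y) := by
      rw [map_mul, show QuotientGroup.mk' F v = 1 from (QuotientGroup.eq_one_iff v).2 hv, one_mul]
    have e2 : (QuotientGroup.mk' F) (π y) ^ 3 = 1 := by rw [← map_pow, n3_pow3 y3, map_one]
    have e3 := orderOf_map_dvd (QuotientGroup.mk' F) (v * π y)
    rw [e1, ord_prime 3 e2 fun e => yF ((QuotientGroup.eq_one_iff _).1 e)] at e3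
    have e4 : (v * π y) ^ 3 ∈ F := (QuotientGroup.eq_one_iff _).1 (by
      rw [← QuotientGroup.mk'_apply, map_pow, e1, e2])
    exact n3_two h.odd e4 (by rw [← pow_add]; exact h.p8'.n3_pow (Or.inl rfl) e3)

theorem exists_e {β t : H} (b3 : orderOf β = 3) (t1 : π t ≠ 1) (t2 : t * t = 1) (c : Commute β t) :
    ∃ e, orderOf e = 3 ∧ e * β = β * e ∧ e ∉ zpowers β ∧ π (t * e * t⁻¹ * e) = 1 := by
  have := h.nF
  have t2' : π t * π t = 1 := by rw [← map_mul, t2, map_one]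
  have y3 := h.ord3 b3
  have c' := c.map π
  have bF := h.memF t1 t2' b3 c'
  have cz : ∀ x ∈ zpowers (π β), Commute x (π t) := by
    rintro _ ⟨k, rfl⟩
    exact c'.zpow_left k
  obtain ⟨a, aF, ca, ha⟩ : ∃ a ∈ F, Commute a (π β) ∧ a ∉ zpowers (π β) := by
    by_contra! H
    have : Nontrivial F := (nontrivial_iff_ne_bot F).2 fun e => n3_ne y3 (mem_bot.1 (e ▸ bF))
    have := h.nil
    obtain ⟨z, z1⟩ := ne_bot_iff_exists_ne_one.1 (Group.IsNilpotent.center_ne_bot F)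
    have hz : ∀ f ∈ F, Commute f (z.1 : W) := fun f hf =>
      congrArg Subtype.val (mem_center_iff.1 z.2 ⟨f, hf⟩)
    obtain ⟨k, hk⟩ := n3_mem y3 (H _ z.1.2 (hz _ bF).symm)
      fun e => z1 (Subtype.ext (Subtype.ext e))
    exact t1 (n3_two h.odd (h.cF (mem_cent.2 fun f hf =>
      cz f (H f hf (by simpa only [hk] using (hz f hf).zpow_right k)))) t2')
  have eF : cm a (π t) ∈ F := cm_mem aF (n3_top F _)
  have e1 : cm a (π t) ≠ 1 := fun e => ha (h.cent t1 t2' y3 c' ⟨aF, mem_c1.2 (cm_eq_one.1 e)⟩)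
  have ce : Commute (cm a (π t)) (π β) :=
    ca.inv_left.mul_left ((c'.symm.mul_left ca).mul_left c'.symm.inv_left)
  have ei : π t * cm a (π t) * (π t)⁻¹ * cm a (π t) = 1 := by
    calc _ = π t * a⁻¹ * π t * a * (π t * π t)⁻¹ * a⁻¹ * π t * a * (π t)⁻¹ := by
          simp only [cm]; group
      _ = π t * a⁻¹ * (π t * π t) * a * (π t)⁻¹ := by
          conv_lhs => rw [t2']
          group
      _ = 1 := by rw [t2']; group
  have e3 := n3_odd h.odd eF (a := 1) (b := 3) (h.p8'.c3 y3 ce.symm)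
  generalize cm a (π t) = e at eF e1 ce ei e3
  have cQ : zpowers e ⊔ zpowers (π β) ≤ 𝐜[π β] :=
    sup_le (zpowers_le.2 (mem_c1.2 ce)) (zpowers_le.2 (mem_c1.2 rfl))
  obtain ⟨P, hP, yP, eP⟩ := n3_lift h.surj (isPGroup_sup (n3_p3 e3) (n3_p3 (n3_pow3 y3))
    (zpowers_le.2 (n3_norm (by
      rintro _ ⟨k, rfl⟩
      rw [(ce.zpow_right k).eq, mul_inv_cancel_right]
      exact ⟨k, rfl⟩)))) (n3_p3 (n3_pow3 b3)) (zpowers_le.2 (mem_sup_right (mem_zpowers _)))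
  obtain ⟨e, he, rfl⟩ := eP.ge (mem_sup_left (mem_zpowers e))
  refine ⟨e, ord_prime 3 (h.p8.three hP.pgrp he) fun e' => e1 (by rw [e', map_one]),
    cm_eq_one.1 (h.eq_one (by norm_num) hP.pgrp (cm_mem he (le_normalizer (yP (mem_zpowers β))))
      (by rwa [map_cm, cm_eq_one])), fun hz => e1 (n3_two h.odd eF ?_), by simpa using ei⟩
  rwa [← (cz _ (by rw [← MonoidHom.map_zpowers]; exact mem_map_of_mem π hz)).eq,
    mul_inv_cancel_right] at ei

end N3S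

theorem n3_mem_core {x : X} : QuotientGroup.mk' (pCore 2 X) x = 1 ↔ (x : G) ∈ 𝐑[X] :=
  (QuotientGroup.eq_one_iff x).trans (mem_map_iff_mem X.subtype_injective).symm

theorem P8.n3s (h : P8 G) (hX : IsCharP 2 X) [Group.IsSolvable X] :
    N3S (QuotientGroup.mk' (pCore 2 X)) (fittingSubgroup _) where
  p8 := h.sub X
  surj := QuotientGroup.mk'_surjective _
  two := by rw [QuotientGroup.ker_mk']; exact Grp.pCore_isPGroup 2 X
  cR := by rw [QuotientGroup.ker_mk']; exact PLocal.CP.isCharP_iff.1 hX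
  c3 := fun t t1 t2 P hP e => by
    rw [← card_map_of_injective X.subtype_injective]
    refine h.c3le hX t.2 (mt n3_mem_core.2 t1) (n3_mem_core.1 t2) (hP.map _) (map_subtype_le _) ?_
    rintro _ ⟨y, hy, rfl⟩
    exact n3_mem_core.1 (e y hy)
  nF := inferInstance
  nil := inferInstance
  odd := (Nat.coprime_two_right.1 (Grp.pPrimeCore_coprime 2 _)).of_dvd_nat (card_dvd_of_le
    (Grp.fitting_le_pPrimeCore_of_pCore_eq_bot (Grp.pCore_quotient_pCore 2 X)))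
  cF := Grp.centralizer_fitting_le _

end Aux

/-- Let the involution `τ̄` centralize `ȳ ∉ F` (`ȳ` of order 3).  `C_F(τ̄)` is a 3-group normalized
by `ȳ`, `C_F(τ̄) ⊔ ⟨ȳ⟩` has order at most 3 (`P8.c3le`), so `C_F(τ̄) = 1`: `τ̄` inverts `F`, `F` is
abelian.  If `C_F(ȳ) = 1`, then `F ⟨τ̄ ȳ⟩` is a Frobenius group with cyclic complement of order 6
acting faithfully on `R`, and `S3703` gives an element of order 12 (`F ≠ 1` as `C(F) ≤ F`).  So
there is `1 ≠ e₀ ∈ C_F(ȳ)`, of order 3 (`P8.c3`), and `F` has exponent 3.  This is the auxiliary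
statement used in both theorems below; state it in the form you like.

**Theorem.**  Suppose `ȳ` does not centralize `B̄`.  Then `ȳ ∉ F` (else `cm b̄ ȳ ∈ F ⊓ B̄ = 1`).  Let
`Z = Ω₁(Z(B̄))`, nontrivial and normalized by `ȳ`.  If `ȳ` moves `a ∈ Z`, put `b = a * a ^ ȳ ≠ 1`,
then `b * b ^ ȳ * b ^ ȳ² = 1`, `A = {1, b, b ^ ȳ, b * b ^ ȳ}` and `A ⟨ȳ⟩` is a Frobenius group acting on
`F` with `A ⊓ C(F) = 1`; `S3703` (in `F A ⟨ȳ⟩`, `N = F`) gives an element of order `3 p`, `p` odd, i.e.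
`≥ 9`.  Otherwise an involution `τ̄ ∈ Z` centralizes `ȳ`; `F` is elementary abelian of exponent 3 and
inverted by `τ̄`.  Let `P` be a Sylow 3-subgroup of the preimage of `F ⟨ȳ⟩` containing `y`; `P` maps
isomorphically onto `F ⟨ȳ⟩`, has exponent 3.  Take `v ∈ P` over `F` not commuting with `y` and
`e = cm v y ≠ 1`; from `(v * y) ^ 3 = 1` etc. `e` commutes with `y` (and with `v`).  `cent_D`:
`e` centralizes `R ⊓ 𝐜[y]`.  The elements `y * e ^ k` are conjugate to `y` by powers of `v`, so `e`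
centralizes `R ⊓ 𝐜[c]` for all `1 ≠ c ∈ ⟨y, e⟩`; `le_of_e9` gives `e ∈ 𝐂[R]`, so `e ∈ R`, absurd. -/
theorem P8.n3 (h : P8 G) (hX : IsCharP 2 X) [Group.IsSolvable X] {y : G} (hy : y ∈ X)
    (y3 : orderOf y = 3) {B : Subgroup G} (hB : IsPGroup 2 B) (BX : B ≤ X) (nB : y ∈ 𝐍[B]) :
    ∀ b ∈ B, cm b y ∈ 𝐑[X] := by
  intro b hb
  refine (n3_mem_core (x := cm ⟨b, BX hb⟩ ⟨y, hy⟩)).1 ?_
  rw [map_cm]
  refine (h.n3s hX).closed (y := ⟨y, hy⟩) (by rwa [← Subgroup.orderOf_coe])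
    (B := (B.subgroupOf X).map _) ((hB.comap_subtype).map _)
    (le_normalizer_map _ (mem_map_of_mem _ (n3_norm fun r hr => ?_))) _ (mem_map_of_mem _ hb)
  exact mem_subgroupOf.2 (conj_mem_of_mem_normalizer nB (mem_subgroupOf.1 hr) :)

/-- By `n3`, `T̄` centralizes `β̄`; by `P8.w2` `R` has index 2 in `T`; by `P8.k12` there is
`t ∈ T`, `t ∉ R` commuting with `β`.  Find `ē ∈ F` of order 3 commuting with `β̄` and inverted by
`t̄`: if `β̄ ∉ F` take `e₀` of the auxiliary statement.  If `β̄ ∈ F`, then `F` is a 3-group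
(nilpotent, odd, `P8.c3`), `F ≠ ⟨β̄⟩` (as `t̄ ∉ C(F)`), so some `c ∈ C_F(β̄)` is not in `⟨β̄⟩`
(`Z(F)`, or `F` if `β̄` is central); `C_F(t̄) = ⟨β̄⟩` by `P8.c3le`, so `ē = cm c t̄ ≠ 1` will do.  Lift
`ē` to `e` in a Sylow 3-subgroup of the preimage of `⟨β̄, ē⟩` containing `β`; `e` commutes with `β`,
`e ∉ ⟨β⟩`.  By `cent_D`, `d ∈ R ⊓ 𝐜[β]` commutes with `β, e`, so by `P8.comm3` with `R ⊓ 𝐜[c]` for
all `1 ≠ c ∈ ⟨β, e⟩`, so with `R` (`le_of_e9`), and with `t` (`P8.comm3`). -/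
theorem P8.n1 (h : P8 G) (hX : IsCharP 2 X) [Group.IsSolvable X] {β : G} (hβ : β ∈ X)
    (b3 : orderOf β = 3) {T : Subgroup G} (hT : IsPGroup 2 T) (TX : T ≤ X) (RT : 𝐑[X] ≤ T)
    (nT : β ∈ 𝐍[T]) (hn : ¬ T ≤ 𝐑[X]) :
    (∃ t ∈ T, t ∉ 𝐑[X] ∧ t * β = β * t ∧ ∀ s ∈ T, s ∈ 𝐑[X] ∨ s * t ∈ 𝐑[X]) ∧
      𝐑[X] ⊓ 𝐜[β] ≤ 𝐂[T] := by
  have hR := isPGroup_pCoreOf 2 X
  have nR := le_normalizer_pCoreOf 2 X
  have h1 : ∀ b ∈ T, cm β b ∈ 𝐑[X] := fun b hb => by
    have h2 := inv_mem (conj_mem_of_mem_normalizer (nR (mul_mem (inv_mem hβ) (TX hb)))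
      (h.n3 hX hβ b3 hT TX nT b hb))
    rwa [show (β⁻¹ * b * cm b β * (β⁻¹ * b)⁻¹)⁻¹ = cm β b by simp only [cm]; group] at h2
  have w := fun {s g : G} => h.w2 hX hβ b3 hT TX h1 (s := s) (g := g)
  obtain ⟨t₀, ht₀, t0⟩ := SetLike.not_le_iff_exists.1 hn
  obtain ⟨r, hr, c, t2, cd⟩ := h.k12 hR b3 (nR hβ) (nR (TX ht₀))
    ⟨1, by rw [pow_one, pow_two]; exact w ht₀ ht₀ t0 t0⟩ (h1 t₀ ht₀)
  have tT : r * t₀ ∈ T := mul_mem (RT hr) ht₀
  have t1 : r * t₀ ∉ 𝐑[X] := fun e => t0 ((Subgroup.mul_mem_cancel_left _ hr).1 e)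
  generalize r * t₀ = t at c t2 cd tT t1
  have h2 : ∀ s ∈ T, s ∈ 𝐑[X] ∨ s * t ∈ 𝐑[X] := fun s hs =>
    (em _).imp_right fun s1 => w tT hs t1 s1
  refine ⟨⟨t, tT, t1, c, h2⟩, fun d hd => ?_⟩
  obtain ⟨⟨e, eX⟩, e3, ce, he, ei⟩ := (h.n3s hX).exists_e (β := ⟨β, hβ⟩) (t := ⟨t, TX tT⟩)
    (by rwa [← Subgroup.orderOf_coe]) (mt n3_mem_core.1 t1) (Subtype.ext t2) (Subtype.ext c.symm)
  rw [← Subgroup.orderOf_coe] at e3
  replace ce : Commute e β := congrArg Subtype.val ce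
  have h3 := h.cent_D hR b3 e3 ce (nR hβ) (nR eX) (nR (TX tT)) (by rw [t2]; exact one_mem _)
    (h1 t tT) (n3_mem_core.1 ei) hd
  have h4 := le_of_e9 (K := 𝐜[d]) hR b3 e3 ce.symm
    (fun ⟨k, hk⟩ => he ⟨k, Subtype.ext (by simpa using hk)⟩) (nR hβ) (nR eX) fun i j hij x hx =>
      mem_c1.2 (h.comm3 (ord_prime 3 (by
        rw [(ce.symm.pow_pow i j).mul_pow, ← pow_mul, ← pow_mul, mul_comm i, mul_comm j, pow_mul,
          pow_mul, n3_pow3 b3, n3_pow3 e3, one_pow, one_pow, one_mul]) hij) hR hx.1 hd.1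
        (mem_c1.1 hx.2) (((show Commute d β from mem_c1.1 hd.2).pow_right i).mul_right
          ((show Commute d e from mem_c1.1 h3).pow_right j)))
  refine mem_cent.2 fun s hs => (h2 s hs).elim (fun k => mem_c1.1 (h4 k)) fun k => ?_
  have h5 : Commute (s * t) d := mem_c1.1 (h4 k)
  have h6 : Commute d t := cd d hd.1 (mem_c1.1 hd.2)
  simpa using (h5.mul_left h6.symm.inv_left).eq

end Cfsg.Agent.Eo8
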