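import Mathlib
import Cfsg.Agent.Eo8.N3
import Cfsg.Agent.Grp.ConjCount

/-!
# The natural module for `SL₂(4)`
-/

set_option autoImplicit false
set_option linter.unusedSectionVars false

namespace Cfsg.Agent.Eo8

open Subgroup Cfsg PLocal.Amb
open Cfsg.Agent.PLocal.CP (IsCharP)
open scoped MatrixGroups

universe u

variable {G : Type*} [Group G] [Finite G]

variable {M Q V T Z : Subgroup G} {β m : G}

/-- `X = 𝐂[Z] ⊔ ⟨β⟩` is solvable (`𝐂[Z] ≤ 𝐜[z]`, `P8.solv_cent`, normal with cyclic quotient), of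
characteristic 2 (`T ≤ X ≤ 𝐍[Z]`, `IsCharP.of_pCoreOf_le`, `IsSyl.pCoreOf_le`), `R = 𝐑[X] ≤ T`.  If
`T ≤ R` then `X ≤ 𝐍[T] ≤ M` and `𝐂[Z] ≤ M ⊓ 𝐜[z] ≤ T`.  Otherwise `P8.n1`: `E = T ⊓ 𝐜[β] = Q ⊓ 𝐜[β]`
(`cb`) contains `t ≠ 1`; `card E ≡ card Q ≡ 1 mod 3` (`mod`; `⟨β⟩` acts on `Q`), so `card E ≥ 4` and
`E ⊓ R ≠ ⊥` (index at most 2); `1 ≠ e ∈ E ⊓ R` lies in `T ⊓ 𝐂[T]`, `e * e = 1` (`P8.sq3`). -/
theorem NT.cent_Z (h : NT M Q V T Z β) (hA : A5T M Q T β m) (c2 : C2 G) (hT : IsSyl 2 T ⊤)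
    (nT : 𝐍[T] ≤ M) (hf : ∀ z ∈ T ⊓ 𝐂[T], z * z = 1 → z * β = β * z → z = 1) : 𝐂[Z] = T := by
  have : Fact (Nat.Prime 3) := ⟨Nat.prime_three⟩
  have p8 := hA.p8
  have Z1 : Z ≠ ⊥ := fun e => by have := h.c4; rw [e, card_bot] at this; omega
  have Z2 : IsPGroup 2 Z := h.toZV.pg.to_le h.ZV
  obtain ⟨⟨z, hz⟩, z1⟩ := ne_bot_iff_exists_ne_one.1 Z1
  replace z1 : z ≠ 1 := fun e => z1 (Subtype.ext e)
  have cz : 𝐂[Z] ≤ 𝐜[z] := fun c hc => mem_c1.2 (hc z hz).symm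
  have nb : zpowers β ≤ 𝐍[Z] := zpowers_le.2 h.bZ
  have s0 := p8.solv_cent (ord_prime 2 (by rw [pow_two, h.sq z (h.ZV hz)]) z1)
  have : Group.IsSolvable ↥(zpowers β ⊔ 𝐂[Z]) := Solv.Frob.isSolvable_sup_of_le_normalizer
    (le_normalizer_centralizer nb) inferInstance (Group.isSolvable_of_isSolvable_injective (inclusion_injective cz))
  have TX : T ≤ zpowers β ⊔ 𝐂[Z] := h.TZ.trans le_sup_right
  have XN : zpowers β ⊔ 𝐂[Z] ≤ 𝐍[Z] := sup_le nb (centralizer_le_normalizer' Z)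
  have hX : IsCharP 2 (zpowers β ⊔ 𝐂[Z]) := (c2 Z Z2 Z1).of_pCoreOf_le XN
    ((hT.mono (TX.trans XN) le_top).pCoreOf_le.trans TX)
  have RT := (hT.mono TX le_top).pCoreOf_le
  refine le_antisymm ?_ h.TZ
  by_cases hn : T ≤ 𝐑[zpowers β ⊔ 𝐂[Z]]
  · have : 𝐂[Z] ≤ 𝐍[T] := le_sup_right.trans (le_antisymm RT hn ▸ le_normalizer_pCoreOf 2 (zpowers β ⊔ 𝐂[Z]))
    exact (le_inf (this.trans nT) cz).trans (h.stab z hz z1)
  obtain ⟨⟨t, tT, t1, ct, h2⟩, h3⟩ := p8.n1 hX (mem_sup_left (mem_zpowers β)) hA.b3 hT.pgrp TX RT hA.bT hn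
  have QT : Q ≤ T := hA.syl.le_of_le_normalizer hA.two hA.le (hA.syl.le.trans hA.nQ)
  have e1 : Nat.card Q ≡ Nat.card ↥(Q ⊓ 𝐂[zpowers β]) [MOD 3] :=
    Grp.ConjCount.card_modEq (isPGroup_zpowers ⟨1, by rw [pow_one, ← hA.b3, pow_orderOf_eq_one]⟩) Q
      fun _ hg _ hy => conj_mem_of_mem_normalizer (zpowers_le.2 (hA.nQ hA.bM) hg) hy
  rw [centralizer_zpowers] at e1
  have e2 := hA.mod Q le_rfl hA.nQ
  have t0 : t ≠ 1 := fun e => t1 (e ▸ one_mem _)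
  have t2 := p8.sq3 hA.b3 hT.pgrp tT ct
  have tE : t ∈ Q ⊓ 𝐜[β] := ⟨hA.cb ⟨tT, mem_c1.2 ct⟩, mem_c1.2 ct⟩
  obtain ⟨s, hs, s1⟩ : ∃ s ∈ Q ⊓ 𝐜[β], s ∉ zpowers t := by
    by_contra! k
    rw [le_antisymm (show Q ⊓ 𝐜[β] ≤ zpowers t from k) (zpowers_le.2 tE), Nat.card_zpowers,
      ord_prime 2 (by rw [pow_two, t2]) t0, Nat.ModEq] at e1
    omega
  have k : ∀ e ∈ Q ⊓ 𝐜[β], e ∈ 𝐑[zpowers β ⊔ 𝐂[Z]] → e = 1 := fun e he eR =>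
    hf e ⟨QT he.1, h3 ⟨eR, he.2⟩⟩ (p8.sq3 hA.b3 hA.two he.1 (mem_c1.1 he.2)) (mem_c1.1 he.2)
  rcases h2 s (QT hs.1) with e | e
  · exact absurd (k s hs e ▸ one_mem _) s1
  · exact absurd (eq_inv_of_mul_eq_one_left (k _ (mul_mem hs tE) e) ▸ inv_mem (mem_zpowers t)) s1

theorem NT.fixc (h : NT M Q V T Z β) (k : G) {a : G} (ha : a ∈ cj(k, T)) (a1 : a ∉ cj(k, Q)) :
    cj(k, V) ⊓ 𝐜[a] ≤ cj(k, Z) := by
  obtain ⟨a, ha', rfl⟩ := mem_cj_iff_exists.1 ha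
  rw [centralizer_singleton_conj, ← cj_inf]
  exact cj_mono k (h.fix a ha' fun e => a1 (conj_mem_cj k e))

theorem NT.comc (h : NT M Q V T Z β) (k : G) {a : G} (ha : a ∈ cj(k, T)) (a1 : a ∉ cj(k, Q)) {w : G}
    (hw : w ∈ cj(k, Z)) : ∃ v ∈ cj(k, V), cm v a = w := by
  obtain ⟨a, ha', rfl⟩ := mem_cj_iff_exists.1 ha
  obtain ⟨w, hw', rfl⟩ := mem_cj_iff_exists.1 hw
  obtain ⟨v, hv, rfl⟩ := h.com a ha' (fun e => a1 (conj_mem_cj k e)) w hw'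
  exact ⟨_, conj_mem_cj k hv, cm_conj k v a⟩

theorem n2_ex {A : Subgroup G} (h : A ≠ ⊥) : ∃ a ∈ A, a ≠ 1 := by
  obtain ⟨⟨a, ha⟩, a1⟩ := ne_bot_iff_exists_ne_one.1 h
  exact ⟨a, ha, fun e => a1 (Subtype.ext e)⟩

theorem n2_ne (g : G) {w : G} (h : w ≠ 1) : g⁻¹ * w * g ≠ 1 := fun e =>
  h (by rw [show w = g * (g⁻¹ * w * g) * g⁻¹ by group, e]; group)

theorem n2_ex' {A : Subgroup G} {n : ℕ} (h : n ≤ 4 * Nat.card A) (hn : 4 < n) : ∃ a ∈ A, a ≠ 1 :=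
  n2_ex fun e => by rw [e, card_bot] at h; omega

section

variable (h : NT M Q V T Z β) (hM : Mx M Q V) (hT : IsSyl 2 T ⊤) (TM : T ≤ M) (nT : 𝐍[T] ≤ M)
  (cZ : 𝐂[Z] = T) {z : G} (hz : z ∈ Z) (z1 : z ≠ 1) (hV : V ≤ 𝐑[𝐜[z]])
include h hM hT TM nT cZ hz z1 hV

omit hM hT TM nT cZ z1 hV in
theorem NT.TX : T ≤ 𝐜[z] := fun _ ht => mem_c1.2 (h.TZ ht z hz).symm

omit hM TM nT cZ z1 hV in
theorem NT.RT {x : G} (hx : x ∈ 𝐜[z]) : 𝐑[𝐜[z]] ≤ cj(x, T) :=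
  ((hT.mono (h.TX hz) le_top).cj_of_mem hx).pCoreOf_le

theorem NT.adj0 {x : G} (hx : x ∈ 𝐜[z]) : cj(x, V) ≤ 𝐂[V] := by
  have WR : cj(x, V) ≤ 𝐑[𝐜[z]] := cj_le_of_mem_normalizer hV (le_normalizer_pCoreOf 2 _ hx)
  have RT := (hT.mono (h.TX hz) le_top).pCoreOf_le
  have VT := hV.trans (h.RT hT hz hx)
  have nW : V ≤ 𝐍[cj(x, V)] := by rw [normalizer_cj, hM.norm_eq]; exact VT.trans (cj_mono x TM)
  intro a ha
  by_contra a1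
  have ZW : Z ≤ cj(x, V) := fun w hw => by
    obtain ⟨v, hv, rfl⟩ := h.com a (RT (WR ha)) (hM.cent_eq ▸ a1) w hw
    exact cm_mem' (nW hv) ha
  obtain ⟨u, hu, c⟩ : ∃ u ∈ V, u * a ≠ a * u := by simpa only [mem_cent, not_forall, exists_prop] using a1
  have h1 := h.fixc x (VT hu) fun e => by
    rw [← hM.cent_eq, ← centralizer_cj] at e
    exact c (e a ha).symm
  have h2 : x ∈ 𝐍[Z] := cj_eq_iff.1 (eq_of_le_of_card_ge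
    (fun w hw => h1 ⟨ZW hw, mem_c1.2 (h.toZV.comm (h.ZV hw) hu)⟩) (card_cj x Z).le).symm
  have h3 := normalizer_le_normalizer_centralizer Z h2
  rw [cZ] at h3
  rw [cj_of_mem_normalizer (h.nV (nT h3))] at ha
  exact a1 (h.cV (h.VQ ha))

/-- Conjugates of `V` meeting `V` commute with `V`.  `X = 𝐜[z] ≥ T`, `R = 𝐑[X] ≤ cj(x, T)` for all
`x ∈ X`.  By `trans` reduce to `g = x ∈ X`, `W = cj(x, V) ≤ R ≤ T`, `V ≤ R ≤ cj(x, M) = 𝐍[W]`.  If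
`a ∈ W`, `a ∉ Q = 𝐂[V]`, then `Z = {cm v a} ≤ W` (`com`), and some `u ∈ V` is not in
`𝐂[W] = cj(x, Q)`, so `Z ≤ W ⊓ 𝐜[u] ≤ cj(x, Z)` (`fix` conjugated).  So `x ∈ 𝐍[Z] ≤ 𝐍[𝐂[Z]] ≤ M`,
`W = V ≤ Q`, absurd. -/
theorem NT.adj {g : G} (hg : V ⊓ cj(g, V) ≠ ⊥) : cj(g, V) ≤ 𝐂[V] := by
  obtain ⟨w, ⟨hw, hw'⟩, w1⟩ := n2_ex hg
  obtain ⟨m, hm, e⟩ := h.trans z hz z1 w hw w1
  obtain ⟨m', hm', e'⟩ := h.trans z hz z1 _ (mem_cj.1 hw') (n2_ne g w1)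
  have hx : m⁻¹ * g * m' ∈ 𝐜[z] := mem_c1.2 (by
    calc _ = m⁻¹ * g * (m' * z * m'⁻¹) * m' := by group
      _ = _ := by rw [e', ← e]; group)
  have := cj_mono m (h.adj0 hM hT TM nT cZ hz z1 hV hx)
  rwa [← centralizer_cj, cj_of_mem_normalizer (h.nV hm), ← cj_mul, show m * (m⁻¹ * g * m') = g * m' by group,
    cj_mul, cj_of_mem_normalizer (h.nV hm')] at this

theorem NT.adj' {a b : G} (hg : cj(a, V) ⊓ cj(b, V) ≠ ⊥) : cj(b, V) ≤ 𝐂[cj(a, V)] := by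
  have := cj_mono a (h.adj hM hT TM nT cZ hz z1 hV (g := a⁻¹ * b) fun e => hg (by
    rw [← cj_eq_bot (g := a⁻¹), cj_inf, cj_inv_cj, ← cj_mul, e]))
  rwa [← cj_mul, mul_inv_cancel_left, ← centralizer_cj] at this

/-- Suppose all conjugates of `V` in `T` lie in `R`.  If they all lie in `Q`, their join `W*` is
normalized by `X` (it is the join of the conjugates in `R`) and by `M` (in `Q`), so
`X ≤ 𝐍[W*] ≤ M` (`mx`).  So let `W = cj(g, V) ≤ T`, `¬ W ≤ Q`; take `1 ≠ w ∈ W ⊓ Q` (`NSl.rk'`) and,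
by `trans`, `k` with `k z k⁻¹ = w`, `cj(k, V) = W`.  `V ≤ 𝐜[w] = cj(k, X)`.  If `V ≤ cj(k, R)`, then
`V, W` normalize each other, so commute (`⁅V, W⁆ ≤ V ⊓ W`, or `adj`), absurd.  So `cj(k⁻¹, V) ≤ X`
is not in `R`, and an `X`-conjugate of it lies in `T`. -/
theorem NT.exists_W (hX : ¬ 𝐜[z] ≤ M) : ∃ g, cj(g, V) ≤ T ∧ ¬ cj(g, V) ≤ 𝐑[𝐜[z]] := by
  by_contra! H
  have TX := h.TX hz
  have sX := hT.mono TX le_top
  have nR := le_normalizer_pCoreOf 2 𝐜[z]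
  have QT : Q ≤ T := cZ ▸ h.cV.trans (centralizer_anti h.ZV)
  by_cases hQ : ∀ g, cj(g, V) ≤ T → cj(g, V) ≤ Q
  · have k : ∀ K L : Subgroup G, K ≤ T → (∀ g, cj(g, V) ≤ T → cj(g, V) ≤ K) → L ≤ 𝐍[K] →
        L ≤ 𝐍[(⨆ g, ⨆ (_ : cj(g, V) ≤ T), cj(g, V) : Subgroup G)] := fun K L h1 h2 h3 =>
      le_normalizer_iff_cj.2 fun x hx => cj_le_iff.2 (iSup₂_le fun g hg => cj_le_iff.1 (by
        rw [← cj_mul]
        refine le_iSup₂_of_le (x * g) ?_ le_rfl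
        rw [cj_mul]
        exact (cj_le_of_mem_normalizer (h2 g hg) (h3 hx)).trans h1))
    refine hX ((k _ _ sX.pCoreOf_le H nR).trans (hM.mx _ (hT.pgrp.to_le (iSup₂_le fun _ hg => hg))
      (fun e => h.V1 (eq_bot_iff.2 (e ▸ le_iSup₂_of_le (1 : G) ?_ (cj_one V).ge))) (k _ _ QT hQ hM.nQ)))
    rw [cj_one]; exact h.VQ.trans QT
  push Not at hQ
  obtain ⟨g, gT, gQ⟩ := hQ
  obtain ⟨w, ⟨hw, wQ⟩, w1⟩ := n2_ex' (hM.rk' (gT.trans TM) (h.toZV.cj g).sq) (by rw [card_cj, h.c16]; norm_num)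
  obtain ⟨m, hm, e⟩ := h.trans z hz z1 _ (mem_cj.1 hw) (n2_ne g w1)
  have eW : cj(g * m, V) = cj(g, V) := by rw [cj_mul, cj_of_mem_normalizer (h.nV hm)]
  have VX : cj((g * m)⁻¹, V) ≤ 𝐜[z] := le_cj_iff.1 (by
    rw [← centralizer_singleton_conj, show g * m * z * (g * m)⁻¹ = g * (m * z * m⁻¹) * g⁻¹ by group, e,
      show g * (g⁻¹ * w * g) * g⁻¹ = w by group]
    exact fun v hv => mem_c1.2 (h.cV wQ v hv))
  obtain ⟨x, hx, l⟩ := sX.exists_cj_le (isPGroup_cj _ h.toZV.pg) VX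
  rw [← cj_mul] at l
  have l2 := H _ l
  rw [cj_mul, cj_le_iff, cj_of_mem_normalizer (nR (inv_mem hx)), ← le_cj_iff] at l2
  have nW : V ≤ 𝐍[cj(g, V)] := by
    rw [← eW, normalizer_cj, hM.norm_eq]; exact l2.trans (cj_mono _ (sX.pCoreOf_le.trans TM))
  refine gQ (hM.cent_eq ▸ ?_)
  by_cases d : V ⊓ cj(g, V) = ⊥
  · exact fun a ha => mem_cent.2 fun v hv => cm_eq_one.1
      (mem_bot.1 (d.le ⟨cm_mem hv (h.nV (TM (gT ha))), cm_mem' (nW hv) ha⟩))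
  · exact h.adj hM hT TM nT cZ hz z1 hV d

/-- Let `W = cj(g, V)` be as in `exists_W`, `B = W ⊓ R` has order 4 or 8 (`P8.rk2`, `C2.cent`,
`P8.solv_cent`).  Key remark (K): if `u` commutes with `1 ≠ w ∈ W`, then `cj(u⁻¹, W)` meets `W`, so
commutes with `W` (`adj` conjugated), hence `cm u s` commutes with `W` for all `s ∈ W`.
*Order 8*: we show `W ≤ cj(x, M)` for all `x ∈ X`; then `W ≤ cj(x, M ⊓ X) ≤ cj(x, T)` (`stab`), so `W`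
lies in the normal 2-subgroup `⨅ x ∈ X, cj(x, T)` of `X`, absurd.  Let `V₁ = cj(x, V)`, `Q₁ = 𝐂[V₁]`,
`B ≤ R ≤ cj(x, T)`.  If `B ≤ Q₁`: `B` contains a conjugate `Z' = cj(g m, Z)` (`hyp`), so
`V₁ ≤ 𝐂[Z'] = cj(g m, T)`; an element `u ∈ V₁` outside `cj(g m, Q) = 𝐂[W]` has `B ≤ W ⊓ 𝐜[u] ≤ Z'`,
absurd; so `W ≤ 𝐂[V₁]`.  Otherwise take `b ∈ B`, `b ∉ Q₁` and `1 ≠ w ∈ B ⊓ Q₁` (`NSl.rk'`); by (K) and
`com`, `W ≤ 𝐂[cj(x, Z)] = cj(x, T)`.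
*Order 4*: `U = ⨆ x ∈ X, cj(x, Z) ≤ R` is centralized by `R`, elementary abelian, normal in `X`.
By (K) with `1 ≠ w ∈ B`, `cm u s` commutes with `W` for `u ∈ U`, `s ∈ W`.  Take `s, g' ∈ W` with
`s, g', g' * s ∉ R`, `P8.four`, `P8.q4`: some `t ∈ W`, `t ∉ R` centralizes `U`.  But `X ⊓ 𝐂[U]` is
normal in `X` and contained in `𝐂[Z] = T`, so in `R`. -/
theorem NT.n2 : 𝐜[z] ≤ M := by
  by_contra hX
  obtain ⟨g, gT, gR⟩ := h.exists_W hM hT TM nT cZ hz z1 hV hX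
  have p8 := hM.p8
  have z2 : orderOf z = 2 := ord_prime 2 (by rw [pow_two, h.sq z (h.ZV hz)]) z1
  have cX := hM.c2.cent z2
  have := p8.solv_cent z2
  have TX := h.TX hz
  have WX := gT.trans TX
  have sX := hT.mono TX le_top
  have nR := le_normalizer_pCoreOf 2 𝐜[z]
  have hR := isPGroup_pCoreOf 2 𝐜[z]
  have zW := h.toZV.cj g
  have cW : Nat.card cj(g, V) = 16 := by rw [card_cj, h.c16]
  have K : ∀ u w, w ∈ cj(g, V) → w ≠ 1 → w * u = u * w → ∀ s ∈ cj(g, V), cm u s ∈ 𝐂[cj(g, V)] :=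
    fun u w hw w1 c s hs => by
      have h1 := h.adj' hM hT TM nT cZ hz z1 hV (a := g) (b := u⁻¹ * g) fun e => w1 (mem_bot.1 (e.le (mem_inf.2 ⟨hw, by
        rw [cj_mul u⁻¹, mem_cj, inv_inv, ← c, mul_inv_cancel_right]; exact hw⟩)))
      rw [show cm u s = u⁻¹ * s * u⁻¹⁻¹ * s⁻¹ by simp only [cm]; group]
      rw [cj_mul] at h1
      exact mul_mem (h1 (conj_mem_cj _ hs)) (inv_mem (zW.cV (zW.VQ hs)))
  have r4 := p8.rk2 cX WX zW.sq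
  have d16 : Nat.card ↥(cj(g, V) ⊓ 𝐑[𝐜[z]]) ∣ 16 := cW ▸ card_dvd_of_le inf_le_left
  have n16 : Nat.card ↥(cj(g, V) ⊓ 𝐑[𝐜[z]]) ≠ 16 := fun e =>
    gR ((eq_of_le_of_card_ge inf_le_left (cW.trans e.symm).le).ge.trans inf_le_right)
  have h48 : Nat.card ↥(cj(g, V) ⊓ 𝐑[𝐜[z]]) = 8 ∨ Nat.card ↥(cj(g, V) ⊓ 𝐑[𝐜[z]]) = 4 := by
    have := Nat.le_of_dvd (by norm_num) d16
    rw [cW] at r4
    generalize Nat.card ↥(cj(g, V) ⊓ 𝐑[𝐜[z]]) = n at *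
    interval_cases n <;> omega
  rcases h48 with c8 | c4
  · have key : ∀ x ∈ 𝐜[z], cj(g, V) ≤ cj(x, T) := fun x hx => by
      have BT : cj(g, V) ⊓ 𝐑[𝐜[z]] ≤ cj(x, T) := inf_le_right.trans (h.RT hT hz hx)
      have eQ : ∀ k : G, 𝐂[cj(k, V)] = cj(k, Q) := fun k => by rw [centralizer_cj, hM.cent_eq]
      have eT : ∀ k : G, 𝐂[cj(k, Z)] = cj(k, T) := fun k => by rw [centralizer_cj, cZ]
      by_cases hB : cj(g, V) ⊓ 𝐑[𝐜[z]] ≤ cj(x, Q)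
      · obtain ⟨m, hm, l⟩ := h.hyp cj(g⁻¹, cj(g, V) ⊓ 𝐑[𝐜[z]]) (le_cj_iff.1 inf_le_left) (by rw [card_cj, c8])
        rw [← cj_le_iff, ← cj_mul] at l
        have eW : cj(g * m, V) = cj(g, V) := by rw [cj_mul, cj_of_mem_normalizer (h.nV hm)]
        rw [← eQ, le_centralizer_iff] at hB
        have QT : Q ≤ T := cZ ▸ h.cV.trans (centralizer_anti h.ZV)
        refine le_trans ?_ (cj_mono x QT)
        rw [← eQ, le_centralizer_iff]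
        intro u hu
        by_contra u1
        have h1 := h.fixc (g * m) (a := u) (eT _ ▸ centralizer_anti l (hB hu)) (by rwa [← eQ, eW])
        rw [eW] at h1
        have := card_le_of_le ((le_inf inf_le_left fun b hb => mem_c1.2 (hB hu b hb)).trans h1)
        rw [c8, card_cj, h.c4] at this
        omega
      · obtain ⟨b, hb, b1⟩ := SetLike.not_le_iff_exists.1 hB
        obtain ⟨w, ⟨hw, wQ⟩, w1⟩ := n2_ex' ((hM.toNSl.cj x).rk' (BT.trans (cj_mono x TM))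
          fun w hw => zW.sq w hw.1) (by rw [c8]; norm_num)
        rw [← eT, le_centralizer_iff]
        intro ζ hζ
        obtain ⟨v, hv, rfl⟩ := h.comc x (BT hb) b1 hζ
        exact K v w hw.1 w1 ((eQ x).ge wQ v hv).symm b hb.1
    refine gR (le_trans (le_iInf₂ key) (le_pCoreOf (R := ⨅ x ∈ 𝐜[z], cj(x, T))
      ((isPGroup_cj 1 hT.pgrp).to_le (iInf₂_le 1 (one_mem _)))
      ((iInf₂_le 1 (one_mem _)).trans ((cj_one T).le.trans TX))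
      (le_normalizer_iff_cj.2 fun y hy => le_iInf₂ fun x hx => cj_le_iff.2 ?_)))
    rw [← cj_mul]
    exact iInf₂_le _ (mul_mem (inv_mem hy) hx)
  · obtain ⟨U, hU, mU⟩ := exists_om' hR (fun e => h.V1 (eq_bot_iff.2 (e ▸ hV))) nR
    have ZU : Z ≤ U := fun w hw => mU w ⟨hV (h.ZV hw),
      le_centralizer_iff.1 (sX.pCoreOf_le.trans h.TZ) hw⟩ (h.sq w (h.ZV hw))
    obtain ⟨w, hw, w1⟩ := n2_ex' (cW ▸ r4) (by norm_num)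
    obtain ⟨s, hs, s1⟩ := SetLike.not_le_iff_exists.1 gR
    obtain ⟨r, hr, r1, rs⟩ : ∃ r ∈ cj(g, V), r ∉ 𝐑[𝐜[z]] ∧ r * s ∉ 𝐑[𝐜[z]] := by
      by_contra! k
      have h1 : ((cj(g, V) ⊓ 𝐑[𝐜[z]]).subgroupOf cj(g, V)).index ∣ 2 := index_dvd_two_iff.2 ⟨⟨s, hs⟩, fun b =>
        (em (b.1 ∈ 𝐑[𝐜[z]])).symm.imp (fun e => ⟨mul_mem b.2 hs, k b b.2 e⟩) fun e => ⟨b.2, e⟩⟩
      have h2 := ((cj(g, V) ⊓ 𝐑[𝐜[z]]).subgroupOf cj(g, V)).index_mul_card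
      rw [Nat.card_congr (subgroupOfEquivOfLe inf_le_left).toEquiv, c4, cW] at h2
      have := Nat.le_of_dvd (by norm_num) h1
      omega
    obtain ⟨y, hy, y3, e1, e2⟩ := p8.four cX (WX hs) (WX hr) (zW.sq s hs ▸ one_mem _) (zW.sq r hr ▸ one_mem _)
      (cm_eq_one.2 (zW.comm hs hr) ▸ one_mem _) s1 r1 rs
    have k : ∀ t ∈ cj(g, V), cm y t ∈ 𝐑[𝐜[z]] → t ∈ 𝐑[𝐜[z]] := fun t ht e =>
      le_pCoreOf (R := 𝐜[z] ⊓ 𝐂[U]) (hT.pgrp.to_le (inf_le_right.trans (cZ ▸ centralizer_anti ZU))) inf_le_left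
        (le_normalizer_inf le_normalizer (le_normalizer_centralizer hU.nV))
        ⟨WX ht, p8.q4 hR hU.VQ hU.cV hU.sq y3 (nR hy) (nR (WX ht)) (hU.nV hy) (hU.nV (WX hs)) (hU.nV (WX ht))
          (zW.sq t ht ▸ one_mem _) e1 e fun u hu => (K u w hw.1 w1 (hU.cV hw.2 u hu).symm s hs t ht).symm⟩
    exact e2.elim (fun e => r1 (k _ hr e)) fun e => rs (k _ (mul_mem hr hs) e)

end

end Cfsg.Agent.Eo8
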