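import Mathlib
import Cfsg.Agent.Eo8.N3

/-!
# Centralizers in the case `A₆`, `L₃(2)`
-/

set_option autoImplicit false
set_option linter.unusedSectionVars false

namespace Cfsg.Agent.Eo8

open Subgroup Cfsg PLocal.Amb
open Cfsg.Agent.PLocal.CP (IsCharP)
open scoped MatrixGroups

universe u

variable {G : Type*} [Group G] [Finite G]

theorem s4_fix {R V : Subgroup G} {z : G} (hR : IsPGroup 2 R) (hV : IsPGroup 2 V) (nV : R ≤ 𝐍[V])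
    (Rz : R ≤ 𝐜[z]) (h : ¬ V ≤ zpowers z) (Vz : V ≤ 𝐜[z]) :
    ∃ u ∈ V, u ∉ zpowers z ∧ ∀ r ∈ R, cm r u ∈ zpowers z := by
  have hN : ((zpowers z).subgroupOf 𝐜[z]).Normal :=
    normal_subgroupOf' (by rw [← centralizer_zpowers]; exact centralizer_le_normalizer' _)
  let f := QuotientGroup.mk' ((zpowers z).subgroupOf 𝐜[z])
  have k := inf_centralizer_ne_bot ((isPGroup_subgroupOf hR 𝐜[z]).map f)
    ((isPGroup_subgroupOf hV 𝐜[z]).map f) (le_normalizer_iff_cj.2 (by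
      rintro _ ⟨r, hr, rfl⟩
      refine cj_le_iff_forall.2 ?_
      rintro _ ⟨v, hv, rfl⟩
      exact ⟨r * v * r⁻¹, conj_mem_of_mem_normalizer (Q := V) (g := (r : G)) (x := (v : G)) (nV hr) hv, by simp only [map_mul, map_inv]⟩))
    fun e => h fun v hv => (QuotientGroup.eq_one_iff (⟨v, Vz hv⟩ : 𝐜[z])).1 (mem_bot.1 (e.le ⟨_, hv, rfl⟩))
  obtain ⟨⟨_, ⟨u, hu, rfl⟩, hc⟩, u1⟩ := ne_bot_iff_exists_ne_one.1 k
  refine ⟨u, hu, fun e => u1 (Subtype.ext ((QuotientGroup.eq_one_iff _).2 e)), fun r hr => ?_⟩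
  have e : f (cm ⟨r, Rz hr⟩ u) = 1 := by
    rw [map_cm, cm_eq_one]
    exact hc (f ⟨r, Rz hr⟩) ⟨_, hr, rfl⟩
  exact (QuotientGroup.eq_one_iff (N := (zpowers z).subgroupOf 𝐜[z]) (cm ⟨r, Rz hr⟩ u)).1 e

theorem s4_swap {Z : Subgroup G} {a r : G} (ha : a ∈ 𝐍[Z]) (h : cm r⁻¹ a ∈ Z) : cm a r ∈ Z := by
  have := inv_conj_mem_of_mem_normalizer ha h
  simpa only [cm, mul_assoc, inv_inv, inv_mul_cancel, mul_one] using this

/-- `X = 𝐜[z]` is solvable of characteristic 2 (`C2.cent`, `P8.solv_cent`), `R₀ = 𝐑[X]`,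
`M₁ = M ⊓ X`.  Take `u ∈ V`, `u ∉ ⟨z⟩` with `cm u r ∈ ⟨z⟩` for all `r ∈ R` (fixed point of the
2-group `R` on `V ⧸ ⟨z⟩`, `big`); `u ∉ 𝐂[R]` by `fix`.
*Case `R₀ ≤ M`.*  `R₀ ≤ R` (`core`).  `Q ⊔ R₀` is normalized by `y` and contains all `cm r y`
(`P8.n3`), so `Q ⊔ R₀ = R` (`irr`, `act`), and `u ∉ 𝐂[R₀]`.  `u ∈ R₀` by `mem_core_of_chain` with
`Z = ⟨z⟩ ≤ R₀`.  If `9 ∣ card X`, use `P8.exists_e9`, `le_of_e9` and `P8.rky` (with `Q := R₀`,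
`V := ⟨z⟩`, norm `z ^ 3 = z`) to get `R₀ ≤ 𝐜[u]`, absurd.  So `P8.six` (`P8.no57`):
`card X ≤ 6 * card R₀ ≤ 6 * card R ≤ card M₁`, `X = M₁`.
*Case `¬ R₀ ≤ M`.*  `R ⊔ R₀` is a 2-group properly containing `R`; `lt_inf_normalizer` gives
`ρ ∈ 𝐍[R] ⊓ (R ⊔ R₀) ≤ X`, `ρ ∉ R`; also `ρ ∉ M` since `M ⊓ (R ⊔ R₀) = R ⊔ (M ⊓ R₀) = R` (`core`).
`U = R ⊓ {a | ∀ r ∈ R, cm a r ∈ ⟨z⟩}` is a subgroup normalized by `𝐍[R] ⊓ X`, `u ∈ U`.  If `a ∈ U`,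
`a ∉ Q`, then `cm q a ∈ ⟨z⟩ ≤ V` for `q ∈ Q`, and `Q ≤ V` by `NSl.le_of_cm`.  If `U ≤ Q`, `rk1` gives
`Q ≤ R ⊓ 𝐂[U] < R`, so `Q = R ⊓ 𝐂[U]` (`irr`) is normalized by `ρ`, `ρ ∈ 𝐍[Q] ≤ M`, absurd. -/
theorem S4T.dich {M Q V R : Subgroup G} {z y : G} (h : S4T M Q V R z y) (c2 : C2 G) (mx : Mxl M) :
    Q = V ∨ 𝐜[z] ≤ M := by
  have := Fact.mk Nat.prime_two
  have zz := h.sq z h.zV
  have z2 : orderOf z = 2 := ord_prime 2 (by rwa [pow_two]) h.z1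
  have hX := c2.cent z2
  have := h.p8.solv_cent z2
  have RX : R ≤ 𝐜[z] := h.RM.trans inf_le_right
  have RM : R ≤ M := h.RM.trans inf_le_left
  have nZ : 𝐜[z] ≤ 𝐍[zpowers z] := by rw [← centralizer_zpowers]; exact centralizer_le_normalizer' _
  have VR := h.VQ.trans h.QR
  obtain ⟨u, hu, u1, e⟩ := s4_fix h.R2 h.toZV.pg (RM.trans h.nV) RX (fun k => by
    have a := card_le_of_le k
    have b := h.big
    rw [Nat.card_zpowers, z2] at a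
    omega) (VR.trans RX)
  have uR : u ∉ 𝐂[R] := fun k => u1 (h.fix ⟨hu, k⟩)
  have p0 := isPGroup_pCoreOf 2 𝐜[z]
  have l0 := pCoreOf_le 2 𝐜[z]
  have n0 := le_normalizer_pCoreOf 2 𝐜[z]
  by_cases hM : 𝐑[𝐜[z]] ≤ M
  · right
    have R0 := h.core _ p0 (le_inf hM l0) (inf_le_right.trans n0)
    have e1 : Q ⊔ 𝐑[𝐜[z]] = R := (h.irr _ le_sup_left (sup_le h.QR R0)
      (le_normalizer_sup (inf_le_left.trans h.nQ) (inf_le_right.trans n0) h.yM)).resolve_left fun k => by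
        obtain ⟨r, hr, n⟩ := h.act
        exact n (k.le (mem_sup_right (h.p8.n3 hX h.yM.2 h.y3 h.R2 RX (h.nR h.yM) r hr)))
    have u0 : u ∉ 𝐂[𝐑[𝐜[z]]] := fun k => uR (by
      rw [← e1, centralizer_sup]
      exact ⟨fun q hq => (h.cV hq u hu).symm, k⟩)
    have hZ : zpowers z ≤ 𝐑[𝐜[z]] :=
      le_pCoreOf (isPGroup_zpowers ⟨1, by rwa [pow_one, pow_two]⟩) (zpowers_le.2 (mem_c1.2 rfl)) nZ
    have uX := RX (VR hu)
    have u2 : u ∈ 𝐑[𝐜[z]] := mem_core_of_chain hX hZ nZ uX (fun r hr => e r (R0 hr))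
      (by rwa [centralizer_zpowers])
    have h9 : ¬ 9 ∣ Nat.card 𝐜[z] := fun h9 => by
      obtain ⟨a, ha, b, hb, a3, b3, c, n⟩ := h.p8.exists_e9 h9
      refine u0 fun r hr => mem_c1.1 (le_of_e9 (K := 𝐜[u]) p0 a3 b3 c n (n0 ha) (n0 hb) (fun i j ne q hq => ?_) hr)
      have wX : a ^ i * b ^ j ∈ 𝐜[z] := mul_mem (pow_mem ha i) (pow_mem hb j)
      have w3 : orderOf (a ^ i * b ^ j) = 3 := ord_prime 3 (by
        rw [(Commute.pow_pow c i j).mul_pow, pow_right_comm, pow_right_comm b, n3_pow3 a3, n3_pow3 b3,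
          one_pow, one_pow, one_mul]) ne
      have wz := mul_inv_eq_iff_eq_mul.2 (mem_c1.1 wX)
      refine mem_c1.2 (h.p8.rky (V := zpowers z) p0 hZ (by rwa [centralizer_zpowers]) ?_ w3 (n0 wX) (nZ wX)
        (mem_zpowers z) u2 (fun q hq => s4_swap (nZ uX) (e _ (R0 (inv_mem hq)))) ?_ hq.1 (mem_c1.1 hq.2)).symm
      · rintro _ ⟨k, rfl⟩
        rw [← (Commute.refl z).mul_zpow, zz, one_zpow]
      · rw [wz, wz, zz, one_mul]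
        exact h.z1
    have k := (h.p8.six hX (fun x hx => h.p8.no57 z2 hx) h9).trans
      ((Nat.mul_le_mul_left 6 (card_le_of_le R0)).trans h.six)
    exact (eq_of_le_of_card_ge inf_le_right k).ge.trans inf_le_left
  · left
    obtain ⟨ρ, hρ, ρ1⟩ := SetLike.exists_of_lt (lt_inf_normalizer (isPGroup_sup h.R2 p0 (RX.trans n0))
      (lt_of_le_not_ge le_sup_left fun k => hM (le_sup_right.trans (k.trans RM))))
    have ρM : ρ ∉ M := fun k => by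
      have a : ρ ∈ (R ⊔ 𝐑[𝐜[z]]) ⊓ M := ⟨hρ.1, k⟩
      rw [sup_inf_of_le_normalizer RM (RX.trans n0)] at a
      exact ρ1 (sup_le le_rfl (h.core _ (p0.to_le inf_le_left) (le_inf inf_le_right (inf_le_left.trans l0))
        (le_normalizer_inf (inf_le_right.trans n0) (inf_le_left.trans le_normalizer))) a)
    have nU : 𝐍[R] ⊓ 𝐜[z] ≤ 𝐍[R ⊓ PLocal.CP.secCent R (zpowers z)] := le_normalizer_inf inf_le_left
      (PLocal.CP.le_normalizer_secCent inf_le_left (inf_le_right.trans nZ))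
    have uU : u ∈ R ⊓ PLocal.CP.secCent R (zpowers z) := ⟨VR hu, mem_sec.2 ⟨nZ (RX (VR hu)), e⟩⟩
    have eU : ∀ a ∈ R ⊓ PLocal.CP.secCent R (zpowers z), ∀ r ∈ R, cm r a ∈ zpowers z :=
      fun a ha => (mem_sec.1 ha.2).2
    have UR : R ⊓ PLocal.CP.secCent R (zpowers z) ≤ R := inf_le_left
    generalize R ⊓ PLocal.CP.secCent R (zpowers z) = U at nU uU eU UR
    refine le_antisymm ?_ h.VQ
    by_cases UQ : U ≤ Q
    · have k := h.rk1 U UQ ((le_inf h.nR inf_le_right).trans nU) fun a ha q hq =>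
        s4_swap (nZ (RX (UR ha))) (eU a ha _ (h.QR (inv_mem hq)))
      have nB : 𝐍[R] ⊓ 𝐜[z] ≤ 𝐍[R ⊓ 𝐂[U]] := le_normalizer_inf inf_le_left (le_normalizer_centralizer nU)
      rcases h.irr (R ⊓ 𝐂[U]) (le_inf h.QR (le_centralizer_iff.1 k)) inf_le_left
        (nB ⟨h.nR h.yM, h.yM.2⟩) with k1 | k1
      · refine absurd (mx Q h.two h.ne h.nQ ?_) ρM
        rw [← k1]
        exact nB ⟨hρ.2, sup_le RX l0 hρ.1⟩
      · exact absurd (le_centralizer_iff.1 (k1.ge.trans inf_le_right) uU) uR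
    · obtain ⟨a, ha, a1⟩ := SetLike.not_le_iff_exists.1 UQ
      exact h.toNSl.le_of_cm h.nV (RM (UR ha)) a1 fun q hq => zpowers_le.2 h.zV (eU a ha q (h.QR hq))

/-- the join of the conjugates of `V` in `S` -/
def Ws (V S : Subgroup G) : Subgroup G := ⨆ (g : G) (_ : cj(g, V) ≤ S), cj(g, V)

theorem Ws_le (V S : Subgroup G) : Ws V S ≤ S := iSup₂_le fun _ h => h

theorem le_Ws {V S : Subgroup G} {g : G} (h : cj(g, V) ≤ S) : cj(g, V) ≤ Ws V S :=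
  le_iSup₂ (f := fun (g : G) (_ : cj(g, V) ≤ S) => cj(g, V)) g h

theorem norm_Ws (V S : Subgroup G) : 𝐍[S] ≤ 𝐍[Ws V S] := le_normalizer_iff_cj.2 fun t ht =>
  cj_le_iff.2 (iSup₂_le fun g hg => cj_le_iff.1 (by
    rw [← cj_mul]
    exact le_Ws (by rw [cj_mul]; exact cj_le_of_mem_normalizer hg ht)))

theorem Mx.ws {M Q V S : Subgroup G} (h : Mx M Q V) (e : ∀ g : G, cj(g, V) ≤ S ↔ cj(g, V) ≤ Q) :
    𝐍[S] ≤ M := by
  have k : Ws V S = Ws V Q := by simp only [Ws, e]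
  refine (norm_Ws V S).trans ?_
  rw [k]
  refine h.mx _ (h.two.to_le (Ws_le V Q)) (fun c => h.V1 (eq_bot_iff.2 ?_)) (h.nQ.trans (norm_Ws V Q))
  have := le_Ws (V := V) (S := Q) (g := 1) (by rw [cj_one]; exact h.VQ)
  rwa [cj_one, c] at this

theorem s4_ne {W B : Subgroup G} (big : 8 ≤ Nat.card W) (h : Nat.card W ≤ 4 * Nat.card B) :
    ∃ b ∈ B, b ≠ 1 := by
  by_contra! k
  rw [card_eq_one.2 (eq_bot_iff.2 k)] at h
  omega

section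

variable {M Q V : Subgroup G} {z : G} (h : Mx M Q V) (big : 8 ≤ Nat.card V) (hz : z ∈ V)
  (trans : ∀ v ∈ V, v ≠ 1 → ∃ m ∈ M, m * z * m⁻¹ = v) (hc : 𝐜[z] ≤ M)
include h big hz trans hc

theorem Mx.ti_cent {v : G} (hv : v ∈ V) (v1 : v ≠ 1) : 𝐜[v] ≤ M := by
  obtain ⟨m, hm, rfl⟩ := trans v hv v1
  rw [centralizer_singleton_conj]
  exact cj_le_of_mem hc hm

theorem Mx.ti_cent' (g : G) {v : G} (hv : v ∈ cj(g, V)) (v1 : v ≠ 1) : 𝐜[v] ≤ cj(g, M) := by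
  obtain ⟨w, hw, rfl⟩ := mem_cj_iff_exists.1 hv
  rw [centralizer_singleton_conj]
  exact cj_mono g (h.ti_cent big hz trans hc hw fun e => v1 (by rw [e, mul_one, mul_inv_cancel]))

/-- `v = m z m⁻¹ = g m' z m'⁻¹ g⁻¹` -/
theorem Mx.ti {g : G} (hg : V ⊓ cj(g, V) ≠ ⊥) : g ∈ M := by
  obtain ⟨⟨v, hv, hv'⟩, v1⟩ := ne_bot_iff_exists_ne_one.1 hg
  have v2 : v ≠ 1 := fun e => v1 (Subtype.ext e)
  obtain ⟨w, hw, rfl⟩ := mem_cj_iff_exists.1 hv'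
  obtain ⟨m, hm, e⟩ := trans _ hv v2
  obtain ⟨n, hn, rfl⟩ := trans w hw fun e => v2 (by rw [e, mul_one, mul_inv_cancel])
  have k : m⁻¹ * g * n ∈ M := hc (mem_c1.2 (by
    calc m⁻¹ * g * n * z = m⁻¹ * (g * (n * z * n⁻¹) * g⁻¹) * g * n := by group
      _ = _ := by rw [← e]; group))
  exact (mul_mem_cancel_left (inv_mem hm)).1 ((mul_mem_cancel_right hn).1 k)

/-- `W = cj(g, V) ≠ V`; `1 ≠ w ∈ W ⊓ Q` (`NSl.rk'`, `big`), `V ≤ 𝐜[w] ≤ cj(g, M) = 𝐍[W]`, so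
`⁅V, W⁆ ≤ V ⊓ W = ⊥`. -/
theorem Mx.ti_le {g : G} (hg : cj(g, V) ≤ M) : cj(g, V) ≤ Q := by
  by_cases k : V ⊓ cj(g, V) = ⊥
  · obtain ⟨w, hw, w1⟩ := s4_ne (by rwa [card_cj]) (h.toNSl.rk' hg (h.toZV.cj g).sq)
    have n : V ≤ 𝐍[cj(g, V)] := fun v hv => (h.toZV.cj g).nV
      (h.ti_cent' big hz trans hc g hw.1 w1 (mem_c1.2 (h.cV hw.2 v hv)))
    rw [← h.cent_eq]
    exact fun a ha v hv => cm_eq_one.1 (mem_bot.1 (k.le ⟨cm_mem hv (h.nV (hg ha)), cm_mem' (n hv) ha⟩))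
  · rw [cj_of_mem_normalizer (h.nV (h.ti big hz trans hc k))]
    exact h.VQ

theorem Mx.ti_le' {g k : G} (hg : cj(k, V) ≤ cj(g, M)) : cj(k, V) ≤ 𝐂[cj(g, V)] := by
  rw [centralizer_cj, h.cent_eq, le_cj_iff, ← cj_mul]
  rw [le_cj_iff, ← cj_mul] at hg
  exact h.ti_le big hz trans hc hg

/-- The join `W*` of the conjugates of `V` in `S` is the join of the conjugates in `Q`, so is
normalized by `M` and by `𝐍[S]`; `mx`. -/
theorem Mx.ti_syl {S : Subgroup G} (hS : IsSyl 2 S M) : 𝐍[S] ≤ M :=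
  h.ws fun _ => ⟨fun k => h.ti_le big hz trans hc (k.trans hS.le),
    fun k => k.trans (hS.le_of_le_normalizer h.two h.le (hS.le.trans h.nQ))⟩

/-- `R = 𝐑[X] ≤ T`.  If all conjugates of `V` in `T` lie in `R`, then `W*` (see `ti_syl`) is the join
of the conjugates in `R`, so `X ≤ 𝐍[W*] ≤ M`.  Otherwise let `W = cj(g, V) ≤ T`, `¬ W ≤ R`,
`B = W ⊓ R ≠ ⊥` (`hr`).  For `x ∈ X`, `cj(x, V) ≤ R ≤ M`, so lies in `Q = 𝐂[V]`; hence
`U = ⨆ x ∈ X, cj(x, V)` is abelian, normal in `X`, `U ≤ R`.  `X ⊓ 𝐂[U] ≤ Q` is a normal 2-subgroup of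
`X`, so lies in `R`; so `W` does not centralize some `V₁ = cj(x, V)`; `M₁ = cj(x, M)`,
`Q₁ = 𝐂[V₁]`, `M' = cj(g, M)`, `Q' = 𝐂[W]`.  (i) `B ⊓ Q₁ = ⊥`: else `V₁ ≤ 𝐜[b] ≤ M'`, so `V₁ ≤ Q'`
(`ti_le` conjugated).  (ii) Take `1 ≠ b ∈ B ≤ R ≤ M₁` and `1 ≠ d ∈ V₁ ⊓ 𝐜[b]`; `d ∈ M'`.  For
`a ∈ W`, `cm a d ∈ W ⊓ U ≤ B ⊓ Q₁ = ⊥`.  So `W ≤ 𝐜[d] ≤ M₁`, `W ≤ Q₁`, absurd. -/
theorem Mx.ti_main {T X : Subgroup G} (hT : IsSyl 2 T ⊤) (TM : T ≤ M) (TX : T ≤ X)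
    (hr : ∀ W ≤ X, (∀ w ∈ W, w * w = 1) → Nat.card W ≤ 4 * Nat.card ↥(W ⊓ 𝐑[X]))
    (hV : V ≤ 𝐑[X]) : X ≤ M := by
  have := Fact.mk Nat.prime_two
  have RT := (hT.mono TX le_top).pCoreOf_le
  have RM := RT.trans TM
  have nR := le_normalizer_pCoreOf 2 X
  have QT := (hT.mono TM le_top).le_of_le_normalizer h.two h.le (TM.trans h.nQ)
  by_cases c : ∀ g : G, cj(g, V) ≤ T → cj(g, V) ≤ 𝐑[X]
  · exact nR.trans (h.ws fun g => ⟨fun k => h.ti_le big hz trans hc (k.trans RM), fun k => c g (k.trans QT)⟩)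
  push Not at c
  obtain ⟨g, WT, n⟩ := c
  have WX := WT.trans TX
  have xR : ∀ x ∈ X, cj(x, V) ≤ 𝐑[X] := fun x hx => cj_le_of_mem_normalizer hV (nR hx)
  have RM' : ∀ x ∈ X, 𝐑[X] ≤ cj(x, M) := fun x hx =>
    (cj_of_mem_normalizer (nR hx)).ge.trans (cj_mono x RM)
  obtain ⟨x, hx, nW⟩ : ∃ x ∈ X, ¬ cj(g, V) ≤ 𝐂[cj(x, V)] := by
    by_contra! k
    refine n (le_trans (b := X ⊓ ⨅ x ∈ X, 𝐂[cj(x, V)]) (le_inf WX (le_iInf₂ k))
      (le_pCoreOf (h.two.to_le (inf_le_right.trans ?_)) inf_le_left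
        (le_normalizer_inf le_normalizer (le_normalizer_iff_cj.2 fun t ht => le_iInf₂ fun x hx => ?_))))
    · refine (iInf₂_le (1 : G) (one_mem X)).trans ?_
      rw [cj_one, h.cent_eq]
    · rw [cj_le_iff, ← centralizer_cj, ← cj_mul]
      exact iInf₂_le _ (mul_mem (inv_mem ht) hx)
  have i : ∀ b ∈ cj(g, V), b ∈ 𝐂[cj(x, V)] → b = 1 := fun b hb k => by
    by_contra b1
    exact nW (le_centralizer_iff.1 (h.ti_le' big hz trans hc fun v hv =>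
      h.ti_cent' big hz trans hc g hb b1 (mem_c1.2 (k v hv))))
  obtain ⟨b, hb, b1⟩ := s4_ne (by rwa [card_cj]) (hr _ WX (h.toZV.cj g).sq)
  obtain ⟨⟨d, hd, db⟩, d1⟩ := ne_bot_iff_exists_ne_one.1 (inf_centralizer_ne_bot
    ((isPGroup_pCoreOf 2 X).to_le (zpowers_le.2 hb.2)) (h.toZV.cj x).pg
    (zpowers_le.2 ((h.toZV.cj x).nV (RM' x hx hb.2))) (h.toZV.cj x).V1)
  have d2 : d ≠ 1 := fun e => d1 (Subtype.ext e)
  have dW : d ∈ 𝐍[cj(g, V)] := (h.toZV.cj g).nV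
    (h.ti_cent' big hz trans hc g hb.1 b1 (mem_c1.2 (db b (mem_zpowers b)).symm))
  have cx : ∀ t ∈ X, cj(t, V) ≤ 𝐂[cj(x, V)] := fun t ht =>
    h.ti_le' big hz trans hc ((xR t ht).trans (RM' x hx))
  refine absurd (h.ti_le' big hz trans hc fun a ha => h.ti_cent' big hz trans hc x hd d2
    (mem_c1.2 (cm_eq_one.1 (i _ (cm_mem ha dW) ?_)))) nW
  have k := cx _ (mul_mem (inv_mem (WX ha)) hx) (by
    rw [cj_mul]
    exact conj_mem_cj a⁻¹ hd)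
  have := mul_mem k (inv_mem (cx x hx hd))
  simpa only [cm, mul_assoc, inv_inv] using this

end

end Cfsg.Agent.Eo8
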