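import Mathlib
import Cfsg.Agent.Eo8.C5

/-!
# The structure of `Q.A₅`
-/

set_option autoImplicit false
set_option linter.unusedSectionVars false

namespace Cfsg.Agent.Eo8

open Subgroup Cfsg PLocal.Amb
open Cfsg.Agent.PLocal.CP (IsCharP)
open scoped MatrixGroups

universe u

/-- a product of two transpositions -/
def t5e (a b c d : Fin 5) (h : a ≠ b := by decide) (h' : c ≠ d := by decide) : A5 :=
  ⟨Equiv.swap a b * Equiv.swap c d, by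
    rw [Equiv.Perm.mem_alternatingGroup, map_mul, Equiv.Perm.sign_swap h, Equiv.Perm.sign_swap h']; rfl⟩

/-- the standard four-group -/
def K4 (x : A5) : Prop := x * t5e 0 1 2 3 = t5e 0 1 2 3 * x

instance : DecidablePred K4 := fun x => by unfold K4; infer_instance

theorem t5_sq : ∀ x, K4 x → x * x = 1 := by decide +kernel

theorem t5_ord : ∀ x : A5, x * x = 1 ∨ x ≠ 1 ∧ (x ^ 3 = 1 ∨ x ^ 5 = 1) := by decide +kernel

theorem t5_ex : ∃ b m : A5, b ^ 3 = 1 ∧ b ≠ 1 ∧ (b ^ 2)⁻¹ * (m * b * m⁻¹) = 1 ∧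
    (∀ x, K4 x → K4 (b * x * b⁻¹) ∧ (x * b = b * x → x = 1)) ∧ ∃ l : List A5, (∀ x ∈ l, K4 x) ∧
    ∀ x, ∃ a ∈ l, ∃ c ∈ l, ∃ d ∈ l, ∃ e ∈ l, x = a * (m * c * m⁻¹) * d * (m * e * m⁻¹) :=
  ⟨t5e 0 1 1 2, t5e 0 1 3 4, by decide +kernel, by decide +kernel, by decide +kernel, by decide +kernel,
    [1, t5e 0 1 2 3, t5e 0 2 1 3, t5e 0 3 1 2], by decide +kernel, by decide +kernel⟩

set_option synthInstance.maxSize 1000 in
theorem t5_main : ∀ b : A5, b ^ 3 = 1 → b ≠ 1 → K4 (b * t5e 0 1 2 3 * b⁻¹) →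
    (∀ x : A5, x.1 4 = 4 → ∃ k : Fin 3, K4 (x * b ^ k.1)) ∧ ∀ m, m * b * m⁻¹ = b⁻¹ → m * m = 1 ∧
    ∃ a, K4 a ∧ a ≠ 1 ∧ (a * b) ^ 3 = 1 ∧ (m * a) ^ 3 = 1 ∧ m * a ≠ 1 ∧
      ∀ x, K4 x → x = 1 ∨ ∃ k : Fin 3, (b ^ k.1 * a * (b ^ k.1)⁻¹)⁻¹ * x = 1 := by
  decide +kernel

variable {G : Type*} [Group G] [Finite G]

variable {M Q T : Subgroup G}

theorem t5_two (hQ : IsPGroup 2 Q) {x : G} (e : x * x ∈ Q) : ∃ k : ℕ, x ^ 2 ^ k = 1 :=
  (isPGroup_iff.1 hQ _ e).elim fun k hk => ⟨k + 1, by rwa [pow_succ', pow_mul, sq]⟩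

/-- the projection can be chosen with `T` the preimage of the standard four-group -/
theorem Ext.std (h : Ext A5 M Q) (hT : IsSyl 2 T M) : ∃ π : M →* A5, Function.Surjective π ∧
    (∀ m, π m = 1 ↔ (m : G) ∈ Q) ∧ ∀ m : M, (m : G) ∈ T ↔ K4 (π m) := by
  obtain ⟨π, hs, hπ⟩ := h.hom
  obtain ⟨g, hg, l⟩ := hT.exists_le_cj (R := (𝐜[t5e 0 1 2 3].comap π).map M.subtype) (isPGroup_iff.2 (by
    rintro _ ⟨x, hx, rfl⟩
    exact t5_two h.two ((hπ (x * x)).1 (by rw [map_mul, t5_sq _ (mem_c1.1 hx)])))) (map_subtype_le _)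
  let π' := π.comp (MulAut.conj (⟨g, hg⟩ : M)).toMonoidHom
  have k : ∀ m : M, K4 (π' m) → (m : G) ∈ T := fun m e =>
    conj_mem_cj_iff.1 (l ⟨⟨g, hg⟩ * m * ⟨g, hg⟩⁻¹, (mem_c1 (c := π' m)).2 e, rfl⟩)
  have s : Function.Surjective π' := hs.comp (MulAut.conj _).surjective
  have sq : ∀ x : M, (x : G) ∈ T → π' x * π' x = 1 := fun x hx => by
    obtain ⟨n, hn⟩ := isPGroup_iff.1 hT.pgrp _ hx
    have e : π' x ^ 2 ^ n = 1 := by rw [← map_pow, show x ^ 2 ^ n = 1 from Subtype.ext hn, map_one]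
    exact (t5_ord _).resolve_right fun ⟨a, b⟩ => a (b.elim
      (fun b => eq_one_of_pow e b (Nat.Coprime.pow_left _ (by norm_num)))
      fun b => eq_one_of_pow e b (Nat.Coprime.pow_left _ (by norm_num)))
  refine ⟨π', s, fun m => (hπ _).trans (mem_normalizer_iff.1 (h.nQ hg) m).symm,
    fun m => ⟨fun hm => ?_, k m⟩⟩
  obtain ⟨t, ht⟩ := s (t5e 0 1 2 3)
  have tT := k t (ht ▸ rfl)
  rw [K4, ← ht]
  exact comm_of_sq (sq m hm) (sq t tT) (by rw [← map_mul]; exact sq _ (mul_mem hm tT))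

theorem Ext.a5t (h : Ext A5 M Q) (h1 : Q ≠ ⊥) (hT : IsSyl 2 T M) : ∃ β m, A5T M Q T β m := by
  obtain ⟨π, hs, hπ, hK⟩ := h.std hT
  obtain ⟨b, m, b3, b1, e, hb, l, hl, gen⟩ := t5_ex
  obtain ⟨y, rfl⟩ := hs b
  obtain ⟨m, rfl⟩ := hs m
  obtain ⟨o, e4⟩ := (h.p8.sub M).lift3 π (ord_prime 3 b3 b1)
  rw [← e4] at e hb
  generalize y ^ 4 = β at o e hb
  rw [← orderOf_coe] at o
  obtain ⟨r, hr, er⟩ := exists_norm h.two Nat.prime_three (by norm_num) o (h.nQ β.2) (h.nQ m.2) 2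
    ((hπ ((β ^ 2)⁻¹ * (m * β * m⁻¹))).1 (by simpa only [map_mul, map_inv, map_pow] using e))
  have mM := mul_mem (h.le hr) m.2
  refine ⟨β, r * m, h.nsl h1 (n57_alt le_rfl) rk_A5 ns_A5, h.hf5, hT, o, β.2,
    mem_normalizer_of_cj_le (cj_le_iff_forall.2 fun t ht => (hK (β * ⟨t, hT.le ht⟩ * β⁻¹)).2 (by
      simpa only [map_mul, map_inv] using (hb _ ((hK ⟨t, _⟩).1 ht)).1)),
    fun t ht => (hπ ⟨t, hT.le ht.1⟩).1 ((hb _ ((hK _).1 ht.1)).2 (by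
      rw [← map_mul, ← map_mul]; exact congrArg π (Subtype.ext (mem_c1.1 ht.2)))), mM,
    er.trans (eq_inv_of_mul_eq_one_left ((pow_succ _ 2).symm.trans (orderOf_dvd_iff_pow_eq_one.1 o.dvd))),
    le_antisymm (sup_le hT.le (cj_le_of_mem hT.le mM)) fun x hx => ?_⟩
  obtain ⟨a, ha, c, hc, d, hd, f, hf, ex⟩ := gen (π ⟨x, hx⟩)
  obtain ⟨a, rfl⟩ := hs a
  obtain ⟨c, rfl⟩ := hs c
  obtain ⟨d, rfl⟩ := hs d
  obtain ⟨f, rfl⟩ := hs f
  let n : M := ⟨_, mM⟩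
  have en : π m = π n := by
    rw [show n = ⟨r, h.le hr⟩ * m from rfl, map_mul, (hπ ⟨r, _⟩).2 hr, one_mul]
  refine (mul_mem_cancel_left (inv_mem (mul_mem (mul_mem (mul_mem_sup ((hK a).2 (hl _ ha))
    (conj_mem_cj _ ((hK c).2 (hl _ hc)))) (mem_sup_left ((hK d).2 (hl _ hd))))
    (mem_sup_right (conj_mem_cj _ ((hK f).2 (hl _ hf))))))).1 (mem_sup_left
      ((hK ((a * (n * c * n⁻¹) * d * (n * f * n⁻¹))⁻¹ * ⟨x, hx⟩)).2 ?_))
  simp only [map_mul, map_inv, ← en, ← ex, inv_mul_cancel, K4, one_mul, mul_one]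

/-- the four-group spanned by the conjugates of `z` under `β` -/
theorem t5_Z {β z : G} {U : Subgroup G} (sq : ∀ v ∈ U, v * v = 1) (hz : z ∈ U) (n : β ∈ 𝐍[U])
    (e : z * (β * z * β⁻¹) * (β * (β * z * β⁻¹) * β⁻¹) = 1) : ∃ Z ≤ U, z ∈ Z ∧ Nat.card Z ≤ 4 ∧
    β ∈ 𝐍[Z] ∧ ∀ w ∈ Z, w = 1 ∨ ∃ k : ℕ, w = β ^ k * z * (β ^ k)⁻¹ := by
  have h1 := conj_mem_of_mem_normalizer n hz
  have e' : z * (β * z * β⁻¹) = β * (β * z * β⁻¹) * β⁻¹ :=
    (eq_inv_of_mul_eq_one_left e).trans (inv_eq_of_mul_eq_one_left (sq _ (conj_mem_of_mem_normalizer n h1)))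
  have c : zpowers z ≤ 𝐍[zpowers (β * z * β⁻¹)] := zpowers_le.2 (centralizer_le_normalizer' _ (by
    rw [centralizer_zpowers]; exact mem_c1.2 (comm_of_sq (sq _ hz) (sq _ h1) (sq _ (mul_mem hz h1)))))
  have k : ∀ v ∈ U, Nat.card (zpowers v) ≤ 2 ∧ ∀ x ∈ zpowers v, x = 1 ∨ x = v := fun v hv => by
    have o : v ^ 2 = 1 := (pow_two v).trans (sq v hv)
    refine ⟨(Nat.card_zpowers v).trans_le (orderOf_le_of_pow_eq_one two_pos o), fun x hx => ?_⟩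
    obtain ⟨i, rfl⟩ := mem_powers_iff_mem_zpowers.2 hx
    obtain ⟨j, rfl | rfl⟩ := Nat.even_or_odd' i <;> simp [pow_succ, pow_mul, sq v hv]
  refine ⟨zpowers z ⊔ zpowers (β * z * β⁻¹), sup_le (zpowers_le.2 hz) (zpowers_le.2 h1),
    mem_sup_left (mem_zpowers z), ((Grp.card_sup_mul_card_inf_of_le_normalizer c ▸
      Nat.le_mul_of_pos_right _ Nat.card_pos :)).trans (Nat.mul_le_mul (k z hz).1 (k _ h1).1),
    mem_normalizer_of_cj_le ?_, fun w hw => ?_⟩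
  · rw [cj_sup, MonoidHom.map_zpowers, MonoidHom.map_zpowers]
    exact sup_le (zpowers_le.2 (mem_sup_right (mem_zpowers _))) (zpowers_le.2
      (e' ▸ mul_mem_sup (mem_zpowers _) (mem_zpowers _) : β * (β * z * β⁻¹) * β⁻¹ ∈ _))
  · obtain ⟨x, hx, y, hy, rfl⟩ := (mem_sup_of_le_normalizer_right c).1 hw
    rcases (k z hz).2 x hx with rfl | rfl <;> rcases (k _ h1).2 y hy with rfl | rfl
    · exact Or.inl (one_mul 1)
    · exact Or.inr ⟨1, by simp⟩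
    · exact Or.inr ⟨0, by simp⟩
    · exact Or.inr ⟨2, by rw [e', pow_two]; group⟩

theorem t5_four {Z B : Subgroup G} (h : Nat.card Z = 4) {v w : G} (hv : v ∈ B ⊓ Z) (hw : w ∈ B ⊓ Z)
    (v1 : v ≠ 1) (w1 : w ≠ 1) (e : v ≠ w) : Z ≤ B := by
  have := Fintype.ofFinite ↥(B ⊓ Z)
  have k : 2 < Nat.card ↥(B ⊓ Z) := by
    rw [Nat.card_eq_fintype_card, Fintype.two_lt_card_iff]
    exact ⟨⟨v, hv⟩, ⟨w, hw⟩, 1, fun c => e (congrArg Subtype.val c), fun c => v1 (congrArg Subtype.val c),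
      fun c => w1 (congrArg Subtype.val c)⟩
  have d := h ▸ card_dvd_of_le (inf_le_right : B ⊓ Z ≤ Z)
  refine inf_eq_right.1 (eq_of_le_of_card_ge inf_le_right ?_)
  have := Nat.le_of_dvd (by norm_num) d
  rw [h]
  generalize Nat.card ↥(B ⊓ Z) = i at *
  interval_cases i <;> omega

/-- `V = Z ⊔ cj(m, Z)` where `Z` is spanned by the conjugates under `β` of an element `z` of
`Ω₁(Z(Q))` centralized by `T` -/
theorem Ext.nt (h : Ext A5 M Q) {β m : G} (hA : A5T M Q T β m)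
    (hf : ∀ z ∈ T ⊓ 𝐂[T], z * z = 1 → z * β = β * z → z = 1) : ∃ V Z, NT M Q V T Z β := by
  have hT := hA.syl
  obtain ⟨π, hs, hπ, hK⟩ := h.std hT
  obtain ⟨U, hU, -⟩ := hA.exists_om
  obtain ⟨ρ, hρ, hN⟩ := h.rho hU hs hπ
  let b : M := ⟨β, hA.bM⟩
  let n : M := ⟨m, hA.mM⟩
  have β3 : β ^ 3 = 1 := hA.b3 ▸ pow_orderOf_eq_one β
  have b3 : π b ^ 3 = 1 := by rw [← map_pow, show b ^ 3 = 1 from Subtype.ext β3, map_one]
  have b1 : π b ≠ 1 := fun e => by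
    obtain ⟨k, hk⟩ := isPGroup_iff.1 h.two _ ((hπ b).1 e)
    have := hA.b3
    rw [eq_one_of_pow (g := β) hk β3 (Nat.Coprime.pow_left _ (by norm_num)), orderOf_one] at this
    omega
  obtain ⟨t₀, ht⟩ := hs (t5e 0 1 2 3)
  obtain ⟨h4, hm⟩ := t5_main (π b) b3 b1 (by
    rw [← ht, ← map_mul, ← map_inv, ← map_mul]
    exact (hK _).1 (conj_mem_of_mem_normalizer hA.bT ((hK t₀).2 (ht ▸ rfl))))
  obtain ⟨m2, a, aK, a1, ab, ma, ma1, hk⟩ := hm (π n) (by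
    rw [← map_mul, ← map_inv, ← map_mul, ← map_inv]; exact congrArg π (Subtype.ext hA.mb))
  obtain ⟨a, rfl⟩ := hs a
  have aT := (hK a).2 aK
  have QT : Q ≤ T := hT.le_of_le_normalizer h.two h.le (hT.le.trans h.nQ)
  have mQ : m * m ∈ 𝐂[U] := hU.cV ((hπ (n * n)).1 (by rwa [map_mul]))
  have dec : ∀ t ∈ T, t ∈ Q ∨ ∃ k : ℕ, ∃ q ∈ Q, t = β ^ k * a * (β ^ k)⁻¹ * q := fun t ht =>
    (hk _ ((hK ⟨t, hT.le ht⟩).1 ht)).imp (hπ _).1 fun ⟨k, e⟩ => ⟨k, _,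
      (hπ ((b ^ k.1 * a * (b ^ k.1)⁻¹)⁻¹ * ⟨t, hT.le ht⟩)).1 (by
        simpa only [map_mul, map_inv, map_pow] using e), (mul_inv_cancel_left _ _).symm⟩
  have cj1 : ∀ (y : M) (w : U), ρ (π y) w = w ↔ (y : G) ∈ 𝐜[(w : G)] := fun y w => by
    rw [Subtype.ext_iff, hρ, mul_inv_eq_iff_eq_mul, mem_c1]
  have fp : ∀ y : A5, y ^ 3 = 1 → y ≠ 1 → ∀ w, ρ y w = w → w = 1 := fun y y3 y1 =>
    cert5 (fun w => Subtype.ext (hU.sq _ w.2)) hN (ord_prime 2 ((pow_two _).trans (t5_sq _ aK)) a1)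
      (ord_prime 3 b3 b1) ab (fun w e1 e2 => by
        rw [cj1] at e1 e2
        have cq : Q ≤ 𝐜[(w : G)] := fun q hq => mem_c1.2 (hU.cV hq _ w.2).symm
        refine Subtype.ext (hf w ⟨QT (hU.VQ w.2), fun t ht => mem_c1.1 ?_⟩ (hU.sq _ w.2) (mem_c1.1 e2).symm)
        obtain e | ⟨k, q, hq, rfl⟩ := dec t ht
        · exact cq e
        · exact mul_mem (mul_mem (mul_mem (pow_mem e2 k) e1) (inv_mem (pow_mem e2 k))) (cq hq))
      (ord_prime 3 y3 y1)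
  have nr : ∀ y : M, π y ^ 3 = 1 → π y ≠ 1 → ∀ w ∈ U,
      w * (y * w * (y : G)⁻¹) * (y * (y * w * (y : G)⁻¹) * (y : G)⁻¹) = 1 := fun y y3 y1 w hw => by
    have := fp _ y3 y1 (⟨w, hw⟩ * ρ (π y) ⟨w, hw⟩ * ρ (π y) (ρ (π y) ⟨w, hw⟩)) (by
      rw [map_mul, map_mul, ← MulAut.mul_apply _ (ρ _) (ρ _) (ρ _ _), ← MulAut.mul_apply _ (ρ _ * _),
        ← map_mul ρ, ← map_mul ρ, ← pow_three', y3, map_one, MulAut.one_apply, mul_assoc (⟨w, hw⟩ : U)]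
      exact Subtype.ext (hU.comm (SetLike.coe_mem _) (SetLike.coe_mem _)))
    simpa only [coe_mul, hρ, coe_one] using congrArg Subtype.val this
  have nY : β ∈ 𝐍[U ⊓ 𝐂[T]] := le_normalizer_inf (L := 𝐍[U] ⊓ 𝐍[T]) inf_le_left
    (inf_le_right.trans (normalizer_le_normalizer_centralizer T)) ⟨hU.nV hA.bM, hA.bT⟩
  have mU : ∀ w ∈ U, m * w * m⁻¹ ∈ U := fun w => conj_mem_of_mem_normalizer (hU.nV hA.mM)
  have mm : ∀ w ∈ U, m * (m * w * m⁻¹) * m⁻¹ = w := fun w hw => by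
    rw [show m * (m * w * m⁻¹) * m⁻¹ = m * m * w * (m * m)⁻¹ by group, ← mQ w hw, mul_inv_cancel_right]
  have K0 : ∀ w ∈ U ⊓ 𝐂[T], cm (m * w * m⁻¹) a = w := fun w hw => by
    have e := nr (n * a) (by rwa [map_mul]) (by rwa [map_mul]) w hw.1
    have c : ((n * a : M) : G) * w * ((n * a : M) : G)⁻¹ = m * w * m⁻¹ := by
      rw [coe_mul, mul_assoc _ (a : G), hw.2 _ aT]; simp only [n]; group
    rw [c] at e
    have e' : m * w * m⁻¹ * (m * (m * w * m⁻¹) * m⁻¹) * (m * (m * (a * (m * w * m⁻¹) * (a : G)⁻¹) * m⁻¹) * m⁻¹) = 1 := by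
      rw [conj_mul, conj_mul, conj_eq_one_iff, ← e]; simp only [n, coe_mul]; group
    rw [mm w hw.1, mm _ (conj_mem_of_mem_normalizer (hU.nV a.2) (mU w hw.1))] at e'
    rw [cm, eq_inv_of_mul_eq_one_right e', inv_eq_of_mul_eq_one_left (hU.sq _ (mul_mem (mU w hw.1) hw.1)),
      inv_mul_cancel_left]
  have K : ∀ k : ℕ, ∀ q ∈ Q, ∀ w ∈ U ⊓ 𝐂[T], cm (m * w * m⁻¹) (β ^ k * a * (β ^ k)⁻¹ * q) =
      β ^ (2 * k) * w * (β ^ (2 * k))⁻¹ := fun k q hq w hw => by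
    have e : m * β ^ k = (β ^ k)⁻¹ * m := by rw [← inv_pow, ← hA.mb, conj_pow, inv_mul_cancel_right]
    have := cm_conj (β ^ k) (m * (β ^ k * w * (β ^ k)⁻¹) * m⁻¹) a
    rw [K0 _ (conj_mem_of_mem_normalizer (pow_mem nY k) hw), show m * (β ^ k * w * (β ^ k)⁻¹) * m⁻¹ =
      m * β ^ k * w * (m * β ^ k)⁻¹ by group, e] at this
    rw [cm, mul_assoc _ q, ← hU.cV hq _ (mU w hw.1), two_mul, pow_add]
    exact (by simp only [cm]; group : _ = _).trans (this.trans (by group))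
  obtain ⟨z, zY, z1⟩ := (bot_or_exists_ne_one _).resolve_left
    (inf_centralizer_ne_bot hT.pgrp hU.pg (hT.le.trans hU.nV) hU.V1)
  obtain ⟨Z, ZY, zZ, c4, bZ, hZ⟩ := t5_Z (fun v hv => hU.sq v (mem_inf.1 hv).1) zY nY (nr b b3 b1 z zY.1)
  have ZU := ZY.trans inf_le_left
  have TZ : T ≤ 𝐂[Z] := fun t ht w hw => ((ZY hw).2 t ht).symm
  have VU : Z ⊔ cj(m, Z) ≤ U := sup_le ZU (cj_le_of_mem_normalizer ZU (hU.nV hA.mM))
  have nZ : Z ≤ 𝐍[cj(m, Z)] := fun w hw => centralizer_le_normalizer' _ fun v hv =>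
    hU.comm (VU (mem_sup_right hv)) (ZU hw)
  have mV : m ∈ 𝐍[Z ⊔ cj(m, Z)] := mem_normalizer_of_cj_le (by
    rw [cj_sup]
    refine sup_le le_sup_right (cj_le_iff_forall.2 ?_)
    rintro _ ⟨w, hw, rfl⟩
    exact mem_sup_left ((mm w (ZU hw)).symm ▸ hw : m * (m * w * m⁻¹) * m⁻¹ ∈ Z))
  have TV : T ≤ 𝐍[Z ⊔ cj(m, Z)] := fun t ht => mem_normalizer_of_cj_le (by
    rw [cj_sup]
    refine sup_le ((cj_of_mem_normalizer (centralizer_le_normalizer' _ (TZ ht))).le.trans le_sup_left)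
      (cj_le_iff_forall.2 fun v hv => ?_)
    rw [← mul_inv_cancel_left v (t * v * t⁻¹)]
    refine mul_mem (mem_sup_right hv) (mem_sup_left (?_ : cm v t ∈ Z))
    obtain ⟨w, hw, rfl⟩ := mem_cj_iff_exists.1 hv
    obtain e | ⟨k, q, hq, rfl⟩ := dec t ht
    · exact (cm_eq_one.2 (hU.cV e _ (mU w (ZU hw)))).symm ▸ one_mem Z
    · exact (K k q hq w (ZY hw)).symm ▸ conj_mem_of_mem_normalizer (pow_mem bZ _) hw)
  have hV : ZV M Q (Z ⊔ cj(m, Z)) := ⟨VU.trans hU.VQ, fun e => z1 (e.le (mem_sup_left zZ)),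
    hA.gen ▸ sup_le TV (cj_le_of_mem TV mV), hU.cV.trans (centralizer_anti VU), fun v hv => hU.sq v (VU hv)⟩
  have c1 := hA.mod _ hV.VQ hV.nV
  have c2 := (one_lt_card_iff_ne_bot _).2 hV.V1
  have c3 : Nat.card ↥(Z ⊔ cj(m, Z)) ≤ Nat.card Z * Nat.card Z := by
    nth_rw 2 [← card_cj m Z]
    exact Grp.card_sup_mul_card_inf_of_le_normalizer nZ ▸ Nat.le_mul_of_pos_right _ Nat.card_pos
  have c16 : Nat.card ↥(Z ⊔ cj(m, Z)) = 16 := by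
    have := Nat.mul_le_mul c4 c4
    omega
  replace c4 : Nat.card Z = 4 := by nlinarith
  have tr : ∀ v ∈ Z ⊔ cj(m, Z), v ≠ 1 → ∃ g ∈ M, g * z * g⁻¹ = v := fun v hv v1 => by
    obtain ⟨w, hw, _, ⟨u, hu, rfl⟩, rfl⟩ := (mem_sup_of_le_normalizer_right nZ).1 hv
    have p := fun k : ℕ => pow_mem hA.bM k
    change ∃ g ∈ M, _ = w * (m * u * m⁻¹)
    rcases hZ w hw with rfl | ⟨i, rfl⟩ <;> rcases hZ u hu with rfl | ⟨j, rfl⟩
    · simp at v1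
    · exact ⟨m * β ^ j, mul_mem hA.mM (p j), by group⟩
    · exact ⟨β ^ i, p i, by group⟩
    · have e := K (2 * i + j) 1 (one_mem Q) _ (ZY hu)
      rw [cm, inv_mul_eq_iff_eq_mul, hU.comm (mU _ (ZU hu)) (ZU (conj_mem_of_mem_normalizer (pow_mem bZ _) hu)),
        show β ^ (2 * (2 * i + j)) * (β ^ j * z * (β ^ j)⁻¹) * (β ^ (2 * (2 * i + j)))⁻¹ =
          (β ^ 3) ^ (i + j) * (β ^ i * z * (β ^ i)⁻¹) * ((β ^ 3) ^ (i + j))⁻¹ by group, β3, one_pow, one_mul,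
        inv_one, mul_one, mul_one] at e
      exact ⟨β ^ (2 * i + j) * a * (β ^ (2 * i + j))⁻¹ * (m * β ^ j), mul_mem (mul_mem (mul_mem (p _) a.2)
        (inv_mem (p _))) (mul_mem hA.mM (p j)), by rw [← e]; group⟩
  refine ⟨_, Z, hV, c16, le_sup_left, c4, bZ, TZ, fun t ht tQ => ?_, fun t ht tQ w hw => ?_,
    fun w hw w1 v hv v1 => ?_, fun w hw w1 => ?_, fun B hB c8 => ?_⟩
  · have := hA.half _ hV t (hT.le ht) tQ ((hπ (⟨t, hT.le ht⟩ * ⟨t, hT.le ht⟩)).1 (by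
      rw [map_mul, t5_sq _ ((hK _).1 ht)]))
    exact (eq_of_le_of_card_ge (le_inf le_sup_left fun w hw => mem_c1.2 (TZ ht w hw)) (by nlinarith)).ge
  · obtain ⟨k, q, hq, rfl⟩ := (dec t ht).resolve_left tQ
    have m := inv_conj_mem_of_mem_normalizer (pow_mem bZ (2 * k)) hw
    exact ⟨_, mem_sup_right (conj_mem_cj _ m), by rw [K k q hq _ (ZY m)]; group⟩
  · obtain ⟨g, hg, rfl⟩ := tr w (mem_sup_left hw) w1
    obtain ⟨f, hf, rfl⟩ := tr v hv v1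
    exact ⟨f * g⁻¹, mul_mem hf (inv_mem hg), by group⟩
  · refine (hT.eq (isPGroup_iff.2 fun g hg => ?_) (le_inf hT.le fun t ht => mem_c1.2 (TZ ht w hw).symm)
      inf_le_left).le
    have c := (cj1 ⟨g, hg.1⟩ ⟨w, ZU hw⟩).2 hg.2
    rcases t5_ord (π ⟨g, hg.1⟩) with e | ⟨e1, e | e⟩
    · exact t5_two h.two ((hπ (⟨g, hg.1⟩ * ⟨g, hg.1⟩)).1 (by rwa [map_mul]))
    · exact absurd (congrArg Subtype.val (fp _ e e1 _ c)) w1
    · exact absurd (congrArg Subtype.val ((hN _ (Or.inl (ord_prime 5 e e1)) _).1 c)) w1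
  · classical
    have : ∀ v : B, ∃ g : M, (v : G) ≠ 1 → g * z * (g : G)⁻¹ = v := fun v => by
      by_cases v1 : (v : G) = 1
      · exact ⟨1, fun c => absurd v1 c⟩
      · exact (tr v (hB v.2) v1).elim fun g hg => ⟨⟨g, hg.1⟩, fun _ => hg.2⟩
    choose g hg using this
    obtain ⟨v, w, e, vw⟩ := Function.not_injective_iff.1 fun i => absurd (Nat.card_le_card_of_injective
      (fun v : B => if (v : G) = 1 then none else some ((π (g v)).1 4)) i) (by simp [c8])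
    have v1 : (v : G) ≠ 1 := fun c => vw (Subtype.ext (c.trans (by_contra fun d => by
      simp [c, Ne.symm d] at e)))
    have w1 : (w : G) ≠ 1 := fun c => by simp [c, v1] at e
    simp only [v1, w1, if_false, Option.some.injEq] at e
    obtain ⟨k, hk⟩ := h4 (π ((g v)⁻¹ * g w)) (by
      rw [map_mul, map_inv, coe_mul, coe_inv, Equiv.Perm.mul_apply, ← e, Equiv.Perm.inv_eq_iff_eq])
    rw [← map_pow, ← map_mul, ← hK] at hk
    have hn : ((g v : G)⁻¹ * g w) ∈ 𝐍[Z] :=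
      (mul_mem_cancel_right (pow_mem bZ k.1)).1 (centralizer_le_normalizer' _ (TZ hk))
    refine ⟨g v, (g v).2, t5_four ((card_cj _ Z).trans c4) ⟨v.2, hg v v1 ▸ conj_mem_cj _ zZ⟩ ⟨w.2, ?_⟩ v1 w1
      fun c => vw (Subtype.ext c)⟩
    rw [← hg w w1]
    exact mem_cj.2 (by simpa only [mul_assoc, mul_inv_rev, inv_inv] using conj_mem_of_mem_normalizer hn zZ)

end Cfsg.Agent.Eo8
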